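import Mathlib

/-!
# The stabiliser of the norm map of a field of odd degree over two elements
-/

set_option autoImplicit false

open scoped BigOperators

namespace Cfsg.Agent.SzC.Semi

variable {F : Type*} [Field F] [Fintype F] [CharP F 2] {n : ℕ} [NeZero n] (hF : Fintype.card F = 2 ^ n)

/-- the `i`-th power of the Frobenius -/
noncomputable def fr (i : ZMod n) : F →+* F := iterateFrobenius F 2 i.val

theorem fr_apply (i : ZMod n) (x : F) : fr i x = x ^ 2 ^ i.val := iterateFrobenius_def 2 i.val x

include hF in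
theorem pow_mul_card (x : F) (a b : ℕ) : x ^ 2 ^ (a + n * b) = x ^ 2 ^ a := by
  induction b with
  | zero => simp
  | succ b ih =>
    rw [mul_add, mul_one, ← add_assoc, pow_add, pow_mul, ← hF, FiniteField.pow_card, ih]

include hF in
theorem pow_mod (x : F) (a : ℕ) : x ^ 2 ^ (a % n) = x ^ 2 ^ a := by
  conv_rhs => rw [← Nat.mod_add_div a n]
  exact (pow_mul_card hF x _ _).symm

include hF in
theorem fr_fr (i j : ZMod n) (x : F) : fr i (fr j x) = fr (i + j) x := by
  rw [fr_apply, fr_apply, fr_apply, ← pow_mul, ← pow_add, ZMod.val_add, pow_mod hF, add_comm]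

/-- the two bits of an exponent -/
def bits (p : ZMod n × ZMod n) : Finset ℕ := if p.1 = p.2 then {(p.1 + 1).val} else {p.1.val, p.2.val}

/-- the exponent of `fr i x * fr k x` -/
def expo (p : ZMod n × ZMod n) : ℕ := ∑ k ∈ bits p, 2 ^ k

include hF in
theorem pow_expo (p : ZMod n × ZMod n) (x : F) : x ^ expo p = fr p.1 x * fr p.2 x := by
  rw [expo, bits]
  split
  · next h =>
    rw [Finset.sum_singleton, ← h, fr_apply, ← pow_add, ← two_mul, ← pow_succ', ZMod.val_add, pow_mod hF]
    rcases Nat.lt_or_ge 1 n with hn | hn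
    · haveI := Fact.mk hn; rw [ZMod.val_one]
    · have h1 : n = 1 := le_antisymm hn (NeZero.pos n)
      subst h1
      rw [← pow_mod hF x (p.1.val + (1 : ZMod 1).val), ← pow_mod hF x (p.1.val + 1), Nat.mod_one, Nat.mod_one]
  · next h =>
    rw [Finset.sum_pair fun e => h (ZMod.val_injective n e), fr_apply, fr_apply, pow_add]

theorem expo_eq_iff {p q : ZMod n × ZMod n} :
    expo p = expo q ↔ p = q ∨ (p.1 = q.2 ∧ p.2 = q.1) := by
  constructor
  · intro h
    have hb : bits p = bits q := (Finset.geomSum_injective le_rfl) h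
    obtain ⟨a, b⟩ := p
    obtain ⟨c, d⟩ := q
    simp only [bits] at hb
    have hinj := ZMod.val_injective n
    split at hb <;> rename_i h1 <;> split at hb <;> rename_i h2
    · have := add_right_cancel (hinj (Finset.singleton_injective hb))
      subst h1 h2 this; exact Or.inl rfl
    · exfalso
      have := congrArg Finset.card hb
      rw [Finset.card_singleton, Finset.card_pair fun e => h2 (hinj e)] at this
      omega
    · exfalso
      have := congrArg Finset.card hb
      rw [Finset.card_singleton, Finset.card_pair fun e => h1 (hinj e)] at this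
      omega
    · have ha : a.val ∈ ({c.val, d.val} : Finset ℕ) := hb ▸ by simp
      have hb' : b.val ∈ ({c.val, d.val} : Finset ℕ) := hb ▸ by simp
      simp only [Finset.mem_insert, Finset.mem_singleton] at ha hb'
      rcases ha with ha | ha <;> rcases hb' with hb' | hb' <;> have ha := hinj ha <;> have hb' := hinj hb' <;>
        subst ha hb'
      · exact absurd rfl h1
      · exact Or.inl rfl
      · exact Or.inr ⟨rfl, rfl⟩
      · exact absurd rfl h1
  · rintro (rfl | ⟨h1, h2⟩)
    · rfl
    · obtain ⟨a, b⟩ := p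
      obtain ⟨c, d⟩ := q
      simp only at h1 h2
      subst h1 h2
      show ∑ k ∈ bits (a, b), 2 ^ k = ∑ k ∈ bits (b, a), 2 ^ k
      by_cases h : a = b
      · subst h; rfl
      · simp [bits, h, Ne.symm h, Finset.pair_comm]

theorem expo_pos (p : ZMod n × ZMod n) : 0 < expo p := by
  rw [expo, bits]; split
  · simp
  · next h => rw [Finset.sum_pair fun e => h (ZMod.val_injective n e)]; exact Nat.add_pos_left (Nat.two_pow_pos _) _

theorem expo_le (hn : 2 ≤ n) (p : ZMod n × ZMod n) : expo p ≤ 2 ^ n - 1 := by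
  rw [expo]
  refine (Finset.sum_le_sum_of_subset (t := Finset.range n) ?_).trans_eq ?_
  · intro k hk
    rw [Finset.mem_range]
    rw [bits] at hk
    split at hk
    · rw [Finset.mem_singleton] at hk; rw [hk]; exact ZMod.val_lt _
    · simp only [Finset.mem_insert, Finset.mem_singleton] at hk
      rcases hk with rfl | rfl <;> exact ZMod.val_lt _
  · rw [Nat.geomSum_eq le_rfl]; simp

include hF in
theorem chars_independent {s : Finset ℕ} (hs : ∀ e ∈ s, 0 < e ∧ e ≤ 2 ^ n - 1) (c : ℕ → F)
    (h : ∀ x : F, ∑ e ∈ s, c e * x ^ e = 0) : ∀ e ∈ s, c e = 0 := by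
  classical
  obtain ⟨g, hg⟩ := IsCyclic.exists_ofOrder_eq_natCard (α := Fˣ)
  rw [Nat.card_eq_fintype_card, Fintype.card_units, hF] at hg
  have hinj : ∀ a ∈ s, ∀ b ∈ s, (powMonoidHom a : F →* F) = powMonoidHom b → a = b := by
    intro a ha b hb hab
    have h1 : g ^ a = g ^ b := Units.ext (by simpa using DFunLike.congr_fun hab (g : F))
    rw [pow_eq_pow_iff_modEq, hg] at h1
    obtain ⟨ha0, ha1⟩ := hs a ha
    obtain ⟨hb0, hb1⟩ := hs b hb
    rcases Nat.le_total a b with hle | hle
    · obtain ⟨k, hk⟩ := (Nat.modEq_iff_dvd' hle).mp h1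
      rcases k.eq_zero_or_pos with rfl | hk0
      · omega
      · have : 2 ^ n - 1 ≤ (2 ^ n - 1) * k := Nat.le_mul_of_pos_right _ hk0
        omega
    · obtain ⟨k, hk⟩ := (Nat.modEq_iff_dvd' hle).mp h1.symm
      rcases k.eq_zero_or_pos with rfl | hk0
      · omega
      · have : 2 ^ n - 1 ≤ (2 ^ n - 1) * k := Nat.le_mul_of_pos_right _ hk0
        omega
  have hli := (linearIndependent_monoidHom F F).comp (fun e : s => (powMonoidHom (e : ℕ) : F →* F))
    (fun a b hab => Subtype.ext (hinj _ a.2 _ b.2 hab))
  rw [Fintype.linearIndependent_iff] at hli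
  intro e he
  refine hli (fun e => c e) ?_ ⟨e, he⟩
  funext x
  simpa [Finset.sum_apply] using (Finset.sum_coe_sort s (fun e => c e * x ^ e)).trans (h x)

/-- linearised polynomials -/
noncomputable def lin (c : ZMod n → F) : F →+ F := ∑ i, (AddMonoidHom.mulLeft (c i)).comp (fr i).toAddMonoidHom

theorem lin_apply (c : ZMod n → F) (x : F) : lin c x = ∑ i, c i * fr i x := by
  simp [lin, AddMonoidHom.finset_sum_apply]

include hF in
theorem lin_injective : Function.Injective (lin : (ZMod n → F) → (F →+ F)) := by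
  classical
  intro c d h
  funext i
  by_contra hne
  have hval : ∀ j : ZMod n, 2 ^ j.val ≤ 2 ^ n - 1 := fun j => by
    have h1 := Nat.pow_lt_pow_right (by norm_num : 1 < 2) (ZMod.val_lt j)
    omega
  have hh := chars_independent hF (s := Finset.univ.image fun j : ZMod n => 2 ^ j.val)
    (fun e he => by
      obtain ⟨j, -, rfl⟩ := Finset.mem_image.mp he
      exact ⟨Nat.two_pow_pos _, hval j⟩)
    (fun e => ∑ j ∈ Finset.univ.filter (fun j : ZMod n => 2 ^ j.val = e), (c j - d j))
    (fun x => by
      simp only [Finset.sum_mul]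
      rw [Finset.sum_congr rfl (fun e _ => Finset.sum_congr rfl (g := fun j : ZMod n => (c j - d j) * x ^ 2 ^ j.val)
        (fun j hj => by rw [(Finset.mem_filter.mp hj).2]))]
      rw [Finset.sum_fiberwise_of_maps_to (fun j _ => Finset.mem_image_of_mem _ (Finset.mem_univ j))]
      simp only [sub_mul, Finset.sum_sub_distrib, ← fr_apply, ← lin_apply, h, sub_self])
    (2 ^ i.val) (Finset.mem_image_of_mem _ (Finset.mem_univ i))
  rw [show Finset.univ.filter (fun j : ZMod n => 2 ^ j.val = 2 ^ i.val) = {i} by
    ext j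
    simp only [Finset.mem_filter, Finset.mem_univ, true_and, Finset.mem_singleton]
    exact ⟨fun e => ZMod.val_injective n (Nat.pow_right_injective le_rfl e), fun e => by rw [e]⟩] at hh
  simp at hh
  exact hne (sub_eq_zero.mp hh)

include hF in
theorem card_addHom : Nat.card (F →+ F) = 2 ^ (n ^ 2) := by
  letI : Algebra (ZMod 2) F := ZMod.algebra F 2
  have hfr : Module.finrank (ZMod 2) F = n := by
    have h := Module.natCard_eq_pow_finrank (K := ZMod 2) (V := F)
    rw [Nat.card_eq_fintype_card, hF, Nat.card_zmod] at h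
    exact (Nat.pow_right_injective le_rfl h).symm
  rw [Nat.card_congr (⟨fun f => AddMonoidHom.toZModLinearMap 2 f, fun f => f.toAddMonoidHom,
    fun f => by ext; rfl, fun f => by ext; rfl⟩ : (F →+ F) ≃ (F →ₗ[ZMod 2] F))]
  rw [Module.natCard_eq_pow_finrank (K := ZMod 2), Module.finrank_linearMap, hfr, Nat.card_zmod, pow_two]

include hF in
theorem lin_surjective : Function.Surjective (lin : (ZMod n → F) → (F →+ F)) := by
  haveI : Finite (F →+ F) := Finite.of_injective _ DFunLike.coe_injective
  refine ((Nat.bijective_iff_injective_and_card _).mpr ⟨lin_injective hF, ?_⟩).2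
  rw [card_addHom hF, Nat.card_fun, Nat.card_zmod, Nat.card_eq_fintype_card, hF, ← pow_mul, pow_two]

include hF in
/-- **semilinearity** -/
theorem semilinear (hn : 3 ≤ n) (hodd : Odd n) (s : ZMod n) (hs : s + s = 1) (L M : F →+ F)
    (hL : ∀ x, L x = 0 → x = 0) (hML : ∀ x, M (fr s x * x) = fr s (L x) * L x) :
    ∃ (c : F) (i : ZMod n), c ≠ 0 ∧ ∀ x, L x = c * fr i x := by
  classical
  obtain ⟨c, rfl⟩ := lin_surjective hF L
  obtain ⟨d, rfl⟩ := lin_surjective hF M
  haveI : Fact (1 < n) := ⟨by omega⟩
  have hs0 : s ≠ 0 := fun h => by rw [h, add_zero] at hs; exact zero_ne_one hs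
  let R : ZMod n × ZMod n → F := fun p => c p.1 * fr s (c (p.2 - s))
  let Lc : ZMod n × ZMod n → F := fun p => if p.2 = p.1 + s then d p.1 else 0
  have hid : ∀ x : F, ∑ p : ZMod n × ZMod n, (R p - Lc p) * x ^ expo p = 0 := by
    intro x
    have h := hML x
    rw [lin_apply, lin_apply, map_sum, Finset.sum_mul_sum] at h
    simp only [map_mul, fr_fr hF] at h
    have hR : ∑ p : ZMod n × ZMod n, R p * x ^ expo p = ∑ i, ∑ j, fr s (c i) * fr (s + i) x * (c j * fr j x) := by
      rw [Finset.sum_comm, Fintype.sum_prod_type]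
      refine Finset.sum_congr rfl fun i _ => Fintype.sum_equiv (Equiv.subRight s) _ _ fun k => ?_
      simp only [Equiv.subRight_apply, R]
      rw [pow_expo hF, add_sub_cancel]
      ring
    have hLx : ∑ p : ZMod n × ZMod n, Lc p * x ^ expo p = ∑ k, d k * (fr (k + s) x * fr k x) := by
      rw [Fintype.sum_prod_type]
      refine Finset.sum_congr rfl fun i _ => ?_
      simp only [Lc, ite_mul, zero_mul, Finset.sum_ite_eq', Finset.mem_univ, if_true]
      rw [pow_expo hF]; ring
    simp only [sub_mul, Finset.sum_sub_distrib, hR, hLx, h, sub_self]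
  have hzero := chars_independent hF (s := Finset.univ.image (expo (n := n)))
    (fun e he => by
      obtain ⟨p, -, rfl⟩ := Finset.mem_image.mp he
      exact ⟨expo_pos p, expo_le (by omega) p⟩)
    (fun e => ∑ p ∈ Finset.univ.filter (fun p : ZMod n × ZMod n => expo p = e), (R p - Lc p))
    (fun x => by
      simp only [Finset.sum_mul]
      rw [Finset.sum_congr rfl (fun e _ => Finset.sum_congr rfl (g := fun p : ZMod n × ZMod n => (R p - Lc p) * x ^ expo p)
        (fun p hp => by rw [(Finset.mem_filter.mp hp).2]))]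
      rw [Finset.sum_fiberwise_of_maps_to (fun p _ => Finset.mem_image_of_mem _ (Finset.mem_univ p))]
      exact hid x)
  have hco : ∀ a b : ZMod n, b ≠ a + s → a ≠ b + s → (a = b → R (a, b) = 0) ∧ (a ≠ b → R (a, b) + R (b, a) = 0) := by
    intro a b h1 h2
    have h := hzero _ (Finset.mem_image_of_mem _ (Finset.mem_univ (a, b)))
    have hf : Finset.univ.filter (fun p : ZMod n × ZMod n => expo p = expo (a, b)) = {(a, b), (b, a)} := by
      ext ⟨p, q⟩
      simp only [Finset.mem_filter, Finset.mem_univ, true_and, expo_eq_iff, Finset.mem_insert, Finset.mem_singleton,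
        Prod.mk.injEq]
    rw [hf] at h
    have e1 : Lc (a, b) = 0 := if_neg h1
    have e2 : Lc (b, a) = 0 := if_neg h2
    refine ⟨fun hab => ?_, fun hab => ?_⟩
    · subst hab
      rw [Finset.pair_eq_singleton, Finset.sum_singleton, e1, sub_zero] at h
      exact h
    · rw [Finset.sum_pair (fun e => hab (congrArg Prod.fst e)), e1, e2, sub_zero, sub_zero] at h
      exact h
  have hdiag : ∀ a, c a = 0 ∨ c (a - s) = 0 := fun a => by
    have h := (hco a a (fun e => hs0 (left_eq_add.mp e)) (fun e => hs0 (left_eq_add.mp e))).1 rfl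
    rcases mul_eq_zero.mp h with h | h
    · exact Or.inl h
    · exact Or.inr ((map_eq_zero (fr s)).mp h)
  have key : ∀ a e, c a ≠ 0 → c e ≠ 0 → a ≠ e → e = a - 1 := by
    intro a e ha he hae
    by_contra hne
    have h1 : e + s ≠ a + s := fun h => hae (add_right_cancel h).symm
    have h2 : a ≠ e + s + s := fun h => hne (by rw [h, add_assoc, hs, add_sub_cancel_right])
    have h3 : a ≠ e + s := fun h => by
      rcases hdiag a with h' | h'
      · exact ha h'
      · exact he (by rwa [h, add_sub_cancel_right] at h')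
    have h := (hco a (e + s) h1 h2).2 h3
    have hb : c (e + s) ≠ 0 := fun h0 => by
      simp only [R, h0, zero_mul, add_zero, add_sub_cancel_right, mul_eq_zero] at h
      rcases h with h | h
      · exact ha h
      · exact he ((map_eq_zero (fr s)).mp h)
    rcases hdiag (e + s) with h' | h'
    · exact hb h'
    · exact he (by rwa [add_sub_cancel_right] at h')
  obtain ⟨i, hi⟩ : ∃ i, c i ≠ 0 := by
    by_contra h
    push Not at h
    exact one_ne_zero (hL 1 (by simp [lin_apply, h]))
  refine ⟨c i, i, hi, fun x => ?_⟩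
  rw [lin_apply]
  refine Finset.sum_eq_single i (fun j _ hj => ?_) (by simp)
  suffices c j = 0 by rw [this, zero_mul]
  by_contra hj0
  have e1 := key i j hi hj0 (Ne.symm hj)
  have e2 := key j i hj0 hi hj
  have : ((2 : ℕ) : ZMod n) = 0 := by push_cast; linear_combination e1 + e2
  rw [ZMod.natCast_eq_zero_iff] at this
  have := Nat.le_of_dvd (by norm_num) this
  omega

end Cfsg.Agent.SzC.Semi
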