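import Mathlib
import Cfsg.Prelude.Def_Solvable
import Cfsg.Prelude.Def_Transfer
import Cfsg.Agent.Lib.SzC.SemiLinear

/-!
# Automorphisms of the Sylow two-subgroup of a Suzuki group
-/

set_option autoImplicit false

namespace Cfsg.Agent.SzC.AutSyl

open Cfsg.Agent.SzC.Semi

variable {F : Type*} [Field F] [Fintype F] [CharP F 2] {n : ℕ} [NeZero n] (hF : Fintype.card F = 2 ^ n)
  (hn : 3 ≤ n) (hodd : Odd n) (s : ZMod n) (hs : s + s = 1)
  {S : Type*} [Group S] (E : F × F ≃ S)
  (hE : ∀ a b a' b', E (a, b) * E (a', b') = E (a + a', b + b' + fr s a * a'))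

include hE in
theorem E_zero : E (0, 0) = 1 := by
  have h := hE 0 0 0 0
  simp only [map_zero, zero_mul, add_zero] at h
  exact mul_left_cancel (a := E (0, 0)) (h.trans (mul_one _).symm)

include hE in
theorem sq_eq (a b : F) : E (a, b) * E (a, b) = E (0, fr s a * a) := by
  rw [hE, CharTwo.add_self_eq_zero, CharTwo.add_self_eq_zero, zero_add]

include hE in
theorem sq_one_iff (a b : F) : E (a, b) * E (a, b) = 1 ↔ a = 0 := by
  rw [sq_eq s E hE, ← E_zero s E hE, E.apply_eq_iff_eq, Prod.mk.injEq]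
  simp [mul_eq_zero, map_eq_zero]

include hE in
theorem split_E (a b : F) : E (a, b) = E (a, 0) * E (0, b) := by
  rw [hE]; simp

include hF hn hs in
theorem norm_bijective : Function.Bijective (fun x : F => fr s x * x) := by
  haveI : Fact (1 < n) := ⟨by omega⟩
  refine Finite.injective_iff_bijective.mp fun x y h => ?_
  replace h : fr s x * x = fr s y * y := h
  by_cases hy : y = 0
  · subst hy
    simp only [map_zero, zero_mul, mul_eq_zero, map_eq_zero, or_self] at h
    exact h
  have hfy : fr s y ≠ 0 := fun h0 => hy ((map_eq_zero _).mp h0)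
  set r := x / y with hr
  have h1 : fr s r * r = 1 := by
    rw [hr, map_div₀, div_mul_div_comm, h, div_self (mul_ne_zero hfy hy)]
  have h2 : fr s (fr s r) * fr s r = 1 := by rw [← map_mul, h1, map_one]
  rw [fr_fr hF, hs, fr_apply, ZMod.val_one, pow_one] at h2
  have hrr : r * (fr s r * r) = 1 := by rw [← h2]; ring
  rw [h1, mul_one] at hrr
  rwa [hr, div_eq_one_iff_eq hy] at hrr

/-- the automorphism attached to a semilinear map and an additive map -/
noncomputable def mkAut (c : Fˣ) (i : ZMod n) (f : F →+ F) : MulAut S :=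
  let g : S → S := fun x => E ((c : F) * fr i (E.symm x).1,
    fr s (c : F) * (c : F) * fr i (E.symm x).2 + f (E.symm x).1)
  MulEquiv.ofBijective
    ({ toFun := g
       map_one' := by
         rw [← E_zero s E hE]
         simp [g]
       map_mul' := fun x y => by
         obtain ⟨⟨a, b⟩, rfl⟩ := E.surjective x
         obtain ⟨⟨a', b'⟩, rfl⟩ := E.surjective y
         simp only [g, hE, Equiv.symm_apply_apply, map_add, map_mul, E.apply_eq_iff_eq, Prod.mk.injEq]
         refine ⟨by ring, ?_⟩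
         have hc : fr i (fr s a) = fr s (fr i a) := by
           rw [fr_apply, fr_apply, fr_apply, fr_apply, pow_right_comm]
         rw [hc]; ring } : S →* S)
    (by
      haveI : Finite S := Finite.of_equiv _ E
      refine Finite.injective_iff_bijective.mp fun x y h => ?_
      obtain ⟨⟨a, b⟩, rfl⟩ := E.surjective x
      obtain ⟨⟨a', b'⟩, rfl⟩ := E.surjective y
      simp only [MonoidHom.coe_mk, OneHom.coe_mk, g, Equiv.symm_apply_apply, E.apply_eq_iff_eq, Prod.mk.injEq] at h
      obtain ⟨h1, h2⟩ := h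
      have ha : a = a' := (fr i).injective (mul_left_cancel₀ c.ne_zero h1)
      subst ha
      have hne : fr s (c : F) * (c : F) ≠ 0 :=
        mul_ne_zero (fun h0 => c.ne_zero ((map_eq_zero _).mp h0)) c.ne_zero
      rw [(fr i).injective (mul_left_cancel₀ hne (add_right_cancel h2))])

theorem mkAut_apply (c : Fˣ) (i : ZMod n) (f : F →+ F) (a b : F) :
    mkAut s E hE c i f (E (a, b)) = E ((c : F) * fr i a, fr s (c : F) * (c : F) * fr i b + f a) := by
  simp [mkAut]

include hF hn hodd hs in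
theorem mkAut_surjective (α : MulAut S) : ∃ c i f, mkAut s E hE c i f = α := by
  classical
  haveI : Finite S := Finite.of_equiv _ E
  -- the involutions
  have hz : ∀ b, (E.symm (α (E (0, b)))).1 = 0 := fun b => by
    obtain ⟨⟨a', b'⟩, h⟩ := E.surjective (α (E (0, b)))
    rw [← h, E.symm_apply_apply]
    have h1 : E (a', b') * E (a', b') = 1 := by
      rw [h, ← map_mul, (sq_one_iff s E hE 0 b).mpr rfl, map_one]
    exact (sq_one_iff s E hE a' b').mp h1
  set M₀ : F → F := fun b => (E.symm (α (E (0, b)))).2 with hM₀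
  set L₀ : F → F := fun a => (E.symm (α (E (a, 0)))).1 with hL₀
  set f₀ : F → F := fun a => (E.symm (α (E (a, 0)))).2 with hf₀
  have hαb : ∀ b, α (E (0, b)) = E (0, M₀ b) := fun b => by
    refine E.symm.injective ?_
    rw [E.symm_apply_apply]
    exact Prod.ext (hz b) rfl
  have hαa : ∀ a, α (E (a, 0)) = E (L₀ a, f₀ a) := fun a => by
    refine E.symm.injective ?_
    rw [E.symm_apply_apply]
  have hαab : ∀ a b, α (E (a, b)) = E (L₀ a, f₀ a + M₀ b) := fun a b => by
    rw [split_E s E hE a b, map_mul, hαa, hαb, hE]; simp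
  have hMadd : ∀ b b', M₀ (b + b') = M₀ b + M₀ b' := fun b b' => by
    have h := map_mul α (E (0, b)) (E (0, b'))
    rw [hE, hαb, hαb, hE] at h
    simp only [map_zero, zero_mul, add_zero] at h
    rw [hαb] at h
    exact (Prod.mk.injEq .. ▸ E.injective h).2
  have hprod : ∀ a a', L₀ (a + a') = L₀ a + L₀ a' ∧
      f₀ (a + a') + M₀ (fr s a * a') = f₀ a + f₀ a' + fr s (L₀ a) * L₀ a' := fun a a' => by
    have h := map_mul α (E (a, 0)) (E (a', 0))
    rw [hE, hαab, hαa, hαa, hE, E.apply_eq_iff_eq, Prod.mk.injEq] at h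
    simpa using h
  let L : F →+ F := AddMonoidHom.mk' L₀ fun a a' => (hprod a a').1
  let M : F →+ F := AddMonoidHom.mk' M₀ hMadd
  have hL0 : ∀ a, L a = 0 → a = 0 := fun a ha => by
    have h1 : α (E (a, 0)) * α (E (a, 0)) = 1 := by
      rw [hαa, show L₀ a = 0 from ha]; exact (sq_one_iff s E hE 0 _).mpr rfl
    rw [← map_mul, EmbeddingLike.map_eq_one_iff] at h1
    exact (sq_one_iff s E hE a 0).mp h1
  have hML : ∀ a, M (fr s a * a) = fr s (L a) * L a := fun a => by
    have h : α (E (0, fr s a * a)) = E (0, fr s (L₀ a) * L₀ a) := by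
      rw [← sq_eq s E hE a 0, map_mul, hαa, sq_eq s E hE]
    rw [hαb, E.apply_eq_iff_eq] at h
    exact (Prod.mk.injEq .. ▸ h).2
  obtain ⟨c, i, hc, hLc⟩ := semilinear hF hn hodd s hs L M hL0 hML
  have hcomm : ∀ a : F, fr i (fr s a) = fr s (fr i a) := fun a => by
    rw [fr_apply, fr_apply, fr_apply, fr_apply, pow_right_comm]
  have hMc : ∀ b, M₀ b = fr s c * c * fr i b := fun b => by
    obtain ⟨a, rfl⟩ := (norm_bijective hF hn s hs).2 b
    show M (fr s a * a) = _
    rw [hML, hLc, map_mul, map_mul, hcomm]; ring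
  have hfadd : ∀ a a', f₀ (a + a') = f₀ a + f₀ a' := fun a a' => by
    have h := (hprod a a').2
    rw [hMc, map_mul, hcomm, show L₀ a = c * fr i a from hLc a, show L₀ a' = c * fr i a' from hLc a', map_mul] at h
    linear_combination h
  refine ⟨Units.mk0 c hc, i, AddMonoidHom.mk' f₀ hfadd, MulEquiv.ext fun x => ?_⟩
  obtain ⟨⟨a, b⟩, rfl⟩ := E.surjective x
  rw [mkAut_apply, hαab, show L₀ a = c * fr i a from hLc a, hMc b, E.apply_eq_iff_eq]
  refine Prod.ext rfl ?_
  show fr s c * c * fr i b + f₀ a = f₀ a + fr s c * c * fr i b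
  ring

include hF hn in
theorem mkAut_injective : Function.Injective (fun p : Fˣ × ZMod n × (F →+ F) => mkAut s E hE p.1 p.2.1 p.2.2) := by
  rintro ⟨c, i, f⟩ ⟨c', i', f'⟩ h
  have h' : ∀ a b, mkAut s E hE c i f (E (a, b)) = mkAut s E hE c' i' f' (E (a, b)) := fun a b =>
    DFunLike.congr_fun h (E (a, b))
  simp only [mkAut_apply, E.apply_eq_iff_eq, Prod.mk.injEq] at h'
  have hc : c = c' := Units.ext (by simpa using (h' 1 0).1)
  subst hc
  have hf : f = f' := AddMonoidHom.ext fun a => by simpa using (h' a 0).2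
  subst hf
  have hfr : ∀ a, fr i a = fr i' a := fun a => mul_left_cancel₀ c.ne_zero (h' a 0).1
  have hi : i = i' := by
    have hl : lin (Pi.single i (1 : F)) = lin (Pi.single i' 1) := by
      ext x
      simp only [lin_apply]
      rw [Finset.sum_eq_single i (fun j _ hj => by simp [hj]) (by simp),
        Finset.sum_eq_single i' (fun j _ hj => by simp [hj]) (by simp)]
      simp [hfr]
    have := congrFun (lin_injective hF hl) i
    by_contra hne
    simp [hne] at this
  subst hi
  rfl

include hF hn hodd hs hE in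
theorem card_aut : Nat.card (MulAut S) = 2 ^ n ^ 2 * (n * (2 ^ n - 1)) := by
  haveI : Finite (F →+ F) := Finite.of_injective _ DFunLike.coe_injective
  rw [← Nat.card_congr (Equiv.ofBijective _ ⟨mkAut_injective hF hn s E hE, fun α => by
    obtain ⟨c, i, f, h⟩ := mkAut_surjective hF hn hodd s hs E hE α
    exact ⟨(c, i, f), h⟩⟩)]
  rw [Nat.card_prod, Nat.card_prod, card_addHom hF, Nat.card_zmod, Nat.card_units, Nat.card_eq_fintype_card, hF]
  ring

/-- the automorphisms moving every element by an element of square one -/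
def kerSub : Subgroup (MulAut S) where
  carrier := {α | ∀ x, ∃ z : S, z * z = 1 ∧ (∀ y, y * z = z * y) ∧ α x = x * z}
  one_mem' := fun x => ⟨1, one_mul 1, fun y => by simp, (mul_one x).symm⟩
  mul_mem' := by
    intro α β ha hb x
    obtain ⟨z, hz, hzc, he⟩ := hb x
    obtain ⟨w, hw, hwc, he'⟩ := ha (x * z)
    refine ⟨z * w, ?_, fun y => by rw [← mul_assoc, hzc, mul_assoc, hwc, ← mul_assoc], ?_⟩
    · calc z * w * (z * w) = z * (w * z) * w := by group
        _ = z * z * (w * w) := by rw [← hwc z]; group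
        _ = 1 := by rw [hz, hw, one_mul]
    · show α (β x) = _
      rw [he, he', mul_assoc]
  inv_mem' := by
    intro α ha x
    obtain ⟨z, hz, hzc, he⟩ := ha (α⁻¹ x)
    rw [show α (α⁻¹ x) = x from α.apply_symm_apply x] at he
    refine ⟨z, hz, hzc, ?_⟩
    conv_rhs => rw [he, mul_assoc, hz, mul_one]

instance kerSub_normal : (kerSub (S := S)).Normal where
  conj_mem α ha g := by
    intro x
    obtain ⟨z, hz, hzc, he⟩ := ha (g⁻¹ x)
    refine ⟨g z, by rw [← map_mul, hz, map_one], fun y => ?_, ?_⟩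
    · obtain ⟨y, rfl⟩ := g.surjective y
      rw [← map_mul, ← map_mul, hzc]
    · show g (α (g⁻¹ x)) = _
      rw [he, map_mul, show g (g⁻¹ x) = x from g.apply_symm_apply x]

include hF hn hodd hs hE in
theorem mem_kerSub_iff (α : MulAut S) : α ∈ kerSub ↔ ∃ f, mkAut s E hE 1 0 f = α := by
  have h0 : ∀ a, fr (0 : ZMod n) (a : F) = a := fun a => by simp [fr_apply]
  constructor
  · intro ha
    obtain ⟨c, i, f, rfl⟩ := mkAut_surjective hF hn hodd s hs E hE α
    have hfst : ∀ a, (c : F) * fr i a = a := fun a => by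
      obtain ⟨z, hz, -, he⟩ := ha (E (a, 0))
      obtain ⟨⟨u, v⟩, rfl⟩ := E.surjective z
      rw [mkAut_apply, (sq_one_iff s E hE u v).mp hz, hE, E.apply_eq_iff_eq] at he
      simpa using congrArg Prod.fst he
    have hc : c = 1 := Units.ext (by simpa using hfst 1)
    subst hc
    refine ⟨f, ?_⟩
    refine MulEquiv.ext fun x => ?_
    obtain ⟨⟨a, b⟩, rfl⟩ := E.surjective x
    have := hfst a
    have := hfst b
    simp_all [mkAut_apply]
  · rintro ⟨f, rfl⟩ x
    obtain ⟨⟨a, b⟩, rfl⟩ := E.surjective x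
    refine ⟨E (0, f a), (sq_one_iff s E hE 0 _).mpr rfl, fun y => ?_, ?_⟩
    · obtain ⟨⟨u, v⟩, rfl⟩ := E.surjective y
      rw [hE, hE]; simp [add_comm]
    · rw [mkAut_apply, hE]; simp [h0]

include hF hn hodd hs hE in
theorem pCore_facts : Cfsg.IsElementaryAbelian 2 (Cfsg.pCore 2 (MulAut S)) ∧
    Nat.card ↥(Cfsg.pCore 2 (MulAut S)) = 2 ^ n ^ 2 := by
  classical
  haveI : Finite S := Finite.of_equiv _ E
  haveI : Finite (MulAut S) := Finite.of_injective _ DFunLike.coe_injective
  have h0 : ∀ a, fr (0 : ZMod n) (a : F) = a := fun a => by simp [fr_apply]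
  have hcomp : ∀ f g, mkAut s E hE 1 0 f * mkAut s E hE 1 0 g = mkAut s E hE 1 0 (f + g) := by
    intro f g
    refine MulEquiv.ext fun x => ?_
    obtain ⟨⟨a, b⟩, rfl⟩ := E.surjective x
    show mkAut s E hE 1 0 f (mkAut s E hE 1 0 g (E (a, b))) = _
    simp only [mkAut_apply, h0, Units.val_one, map_one, one_mul, AddMonoidHom.add_apply]
    congr 2; ring
  have hone : mkAut s E hE 1 0 (0 : F →+ F) = 1 := by
    refine MulEquiv.ext fun x => ?_
    obtain ⟨⟨a, b⟩, rfl⟩ := E.surjective x
    simp [mkAut_apply, h0]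
  have hiff := mem_kerSub_iff hF hn hodd s hs E hE
  have hcard : Nat.card (kerSub (S := S)) = 2 ^ n ^ 2 := by
    rw [← card_addHom hF]
    refine (Nat.card_congr (Equiv.ofBijective (fun f : F →+ F => (⟨mkAut s E hE 1 0 f, (hiff _).mpr ⟨f, rfl⟩⟩ : kerSub (S := S))) ⟨?_, ?_⟩)).symm
    · intro f g h
      have := mkAut_injective hF hn s E hE (a₁ := (1, 0, f)) (a₂ := (1, 0, g)) (congrArg Subtype.val h)
      simpa using this
    · rintro ⟨α, hα⟩
      obtain ⟨f, hf⟩ := (hiff α).mp hα
      exact ⟨f, Subtype.ext hf⟩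
  have hea : Cfsg.IsElementaryAbelian 2 (kerSub (S := S)) := by
    refine ⟨⟨⟨fun a b => Subtype.ext ?_⟩⟩, fun a ha => ?_⟩
    · obtain ⟨f, hf⟩ := (hiff _).mp a.2
      obtain ⟨g, hg⟩ := (hiff _).mp b.2
      show (a : MulAut S) * b = b * a
      rw [← hf, ← hg, hcomp, hcomp, add_comm]
    · obtain ⟨f, rfl⟩ := (hiff _).mp ha
      rw [pow_two, hcomp, ← hone]
      congr 1
      exact AddMonoidHom.ext fun x => CharTwo.add_self_eq_zero (f x)
  have hcore : Cfsg.pCore 2 (MulAut S) = kerSub := by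
    apply le_antisymm
    · refine sSup_le ?_
      rintro N ⟨hN, hNp⟩ x hx
      have hidx : (kerSub (S := S)).index = n * (2 ^ n - 1) := by
        have h := Subgroup.card_mul_index (kerSub (S := S))
        rw [hcard, card_aut hF hn hodd s hs E hE] at h
        exact Nat.eq_of_mul_eq_mul_left (Nat.two_pow_pos _) h
      have hodd' : ¬ 2 ∣ (kerSub (S := S)).index := by
        rw [hidx, Nat.prime_two.dvd_mul]
        rintro (h | h)
        · rw [Nat.odd_iff] at hodd; omega
        · have : 2 ∣ 2 ^ n := dvd_pow_self 2 (by omega)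
          have := Nat.two_pow_pos n
          omega
      obtain ⟨k, hk⟩ := hNp ⟨x, hx⟩
      have h1 : (x : MulAut S) ^ 2 ^ k = 1 := congrArg Subtype.val hk
      refine (QuotientGroup.eq_one_iff x).mp (orderOf_eq_one_iff.mp (Nat.eq_one_of_dvd_coprimes
        (((Nat.Prime.coprime_iff_not_dvd Nat.prime_two).mpr hodd').pow_left k) ?_ ?_))
      · exact orderOf_dvd_of_pow_eq_one (by rw [← QuotientGroup.mk_pow, h1, QuotientGroup.mk_one])
      · rw [Subgroup.index_eq_card]; exact orderOf_dvd_natCard _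
    · exact le_sSup ⟨inferInstance, IsPGroup.of_card hcard⟩
  rw [hcore]
  exact ⟨hea, hcard⟩

/-- transport along an isomorphism -/
theorem transport {T : Type*} [Group T] (e : T ≃* S) : Nat.card (MulAut T) = Nat.card (MulAut S) := by
  exact Nat.card_congr (MulAut.congr e).toEquiv

end Cfsg.Agent.SzC.AutSyl
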