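import Mathlib
import Cfsg.Agent.Lib.SzC.Facts
import Cfsg.Agent.Lib.SzO.Maximal

/-!
# Transitive actions of fixity two
-/

set_option autoImplicit false

open scoped Matrix

namespace Cfsg.Agent.SzC

open Cfsg.Agent.SzB

variable {F : Type*} [Field F] [CharP F 2] [Fintype F] {m : ℕ} (hm : 1 ≤ m)
  (hF : Fintype.card F = 2 ^ (2 * m + 1))

theorem card_le_two_mul {G Ω : Type*} [Group G] [Finite G] [MulAction G Ω] [Finite Ω]
    (hfix : ∀ g : G, g ≠ 1 → Nat.card (MulAction.fixedBy Ω g) ≤ 2) {x : G} (hx : x ≠ 1) {α : Ω}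
    (N : Subgroup G) (hN : ∀ a ∈ N, a⁻¹ * x * a ∈ MulAction.stabilizer G α) :
    Nat.card N ≤ 2 * Nat.card (MulAction.stabilizer N α) := by
  classical
  haveI : Fintype (MulAction.orbit N α) := Fintype.ofFinite _
  haveI : Fintype (MulAction.stabilizer N α) := Fintype.ofFinite _
  haveI : Fintype N := Fintype.ofFinite _
  have h := MulAction.card_orbit_mul_card_stabilizer_eq_card_group N α
  rw [← Nat.card_eq_fintype_card, ← Nat.card_eq_fintype_card, ← Nat.card_eq_fintype_card] at h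
  rw [← h]
  refine Nat.mul_le_mul_right _ (le_trans ?_ (hfix x hx))
  refine Nat.card_mono (Set.toFinite _) ?_
  rintro _ ⟨⟨a, ha⟩, rfl⟩
  show x • (a • α) = a • α
  have := hN a ha
  rw [MulAction.mem_stabilizer_iff, mul_smul, mul_smul, inv_smul_eq_iff] at this
  exact this

theorem cyclic_norm_inv {G : Type*} [Group G] [Finite G] (U H : Subgroup G) [IsCyclic U]
    {a : G} (ha : ∀ u ∈ U, a⁻¹ * u * a ∈ U) {x : G} (hxU : x ∈ U) (hxH : x ∈ H) :
    a⁻¹ * x * a ∈ H := by
  classical
  haveI : Fintype U := Fintype.ofFinite _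
  set y : U := ⟨a⁻¹ * x * a, ha x hxU⟩
  have hord : orderOf y = orderOf (⟨x, hxU⟩ : U) := by
    rw [← Subgroup.orderOf_coe, ← Subgroup.orderOf_coe]
    show orderOf (a⁻¹ * x * a) = orderOf x
    rw [show a⁻¹ * x * a = MulAut.conj a⁻¹ x by simp]
    exact MulEquiv.orderOf_eq _ x
  have hmem : y ∈ Subgroup.zpowers (⟨x, hxU⟩ : U) := by
    letI : CommGroup U := IsCyclic.commGroup
    set d := orderOf (⟨x, hxU⟩ : U)
    have hsame : Subgroup.zpowers (⟨x, hxU⟩ : U) = (powMonoidHom d : U →* U).ker := by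
      apply Subgroup.eq_of_le_of_card_ge
      · rw [Subgroup.zpowers_le]; exact pow_orderOf_eq_one _
      · rw [Nat.card_zpowers, IsCyclic.card_powMonoidHom_ker U d]
        exact Nat.le_of_dvd (orderOf_pos _) (Nat.gcd_dvd_right _ _)
    rw [hsame, MonoidHom.mem_ker, powMonoidHom_apply, ← hord]
    exact pow_orderOf_eq_one y
  obtain ⟨k, hk⟩ := Subgroup.mem_zpowers_iff.mp hmem
  have : x ^ k = a⁻¹ * x * a := congrArg Subtype.val hk
  rw [← this]
  exact H.zpow_mem hxH k

theorem involution_case {Ω : Type*} [MulAction (SG hF) Ω] [Finite Ω]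
    (hfix : ∀ g : SG hF, g ≠ 1 → Nat.card (MulAction.fixedBy Ω g) ≤ 2)
    (α : Ω) (hm : 1 ≤ m) {b : F} (hb : b ≠ 0)
    (hs : uS (stdTwist hF) 0 b ∈ MulAction.stabilizer (SG hF) α) :
    bor (stdTwist hF) ≤ MulAction.stabilizer (SG hF) α := by
  classical
  set τ := stdTwist hF with hτ
  set H := MulAction.stabilizer (SG hF) α
  have hsne : uS τ 0 b ≠ 1 := fun h => hb (uS_inj τ (h.trans (uS_zero τ).symm)).2
  have hsq : ∀ a c : F, uS τ a c * uS τ a c = uS τ 0 (τ.th a * a) := fun a c => by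
    rw [uS_mul, CharTwo.add_self_eq_zero, CharTwo.add_self_eq_zero, zero_add]
  have hcU : ∀ a ∈ unip τ, a⁻¹ * uS τ 0 b * a ∈ H := by
    rintro _ ⟨p, r, rfl⟩
    rw [mul_assoc, ← comm_uS_center, inv_mul_cancel_left]
    exact hs
  have hU := card_le_two_mul hfix hsne (unip τ) hcU
  -- squares of unipotent elements
  have hidx : ((MulAction.stabilizer (unip τ) α)).index ≤ 2 := by
    have h := (MulAction.stabilizer (unip τ) α).card_mul_index
    by_contra hcon
    push Not at hcon
    have hpos : 0 < Nat.card (MulAction.stabilizer (unip τ) α) := Nat.card_pos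
    nlinarith
  have hsqmem : ∀ y : unip τ, y * y ∈ MulAction.stabilizer (unip τ) α := by
    intro y
    rcases Nat.lt_or_ge (MulAction.stabilizer (unip τ) α).index 2 with h | h
    · have h1 : (MulAction.stabilizer (unip τ) α).index = 1 := by
        have := (MulAction.stabilizer (unip τ) α).index_ne_zero_of_finite
        omega
      rw [Subgroup.index_eq_one.mp h1]
      exact Subgroup.mem_top _
    · exact Subgroup.mul_self_mem_of_index_two (le_antisymm hidx h) y
  have hZ : ∀ c : F, uS τ 0 c ∈ H := by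
    intro c
    by_cases hc : c = 0
    · rw [hc, uS_zero]; exact one_mem _
    obtain ⟨a, ha⟩ := SzO.th_mul_self_surj τ hc
    have := hsqmem ⟨uS τ a 0, a, 0, rfl⟩
    rw [MulAction.mem_stabilizer_iff] at this
    rw [← ha, ← hsq a 0]
    exact this
  have hcB : ∀ a ∈ bor τ, a⁻¹ * uS τ 0 b * a ∈ H := by
    intro a ha
    obtain ⟨u, p, r, rfl⟩ := (mem_bor_iff τ).mp ha
    have e : (tS τ u * uS τ p r)⁻¹ * uS τ 0 b * (tS τ u * uS τ p r) =
        (uS τ p r)⁻¹ * (tS τ u⁻¹ * uS τ 0 b * (tS τ u⁻¹)⁻¹) * uS τ p r := by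
      rw [map_inv, inv_inv]; group
    rw [e, tS_uS, zero_mul, zero_div, mul_assoc, ← comm_uS_center, inv_mul_cancel_left]
    exact hZ _
  have hB := card_le_two_mul hfix hsne (bor τ) hcB
  set SB := MulAction.stabilizer (bor τ) α
  have hidxB : SB.index ≤ 2 := by
    have h := SB.card_mul_index
    by_contra hcon
    push Not at hcon
    have hpos : 0 < Nat.card SB := Nat.card_pos
    nlinarith
  have hsqB : ∀ y : bor τ, y * y ∈ SB := by
    intro y
    rcases Nat.lt_or_ge SB.index 2 with h | h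
    · have h1 : SB.index = 1 := by
        have := SB.index_ne_zero_of_finite
        omega
      rw [Subgroup.index_eq_one.mp h1]
      exact Subgroup.mem_top _
    · exact Subgroup.mul_self_mem_of_index_two (le_antisymm hidxB h) y
  have hT : ∀ u, tS τ u ∈ H := by
    intro u
    obtain ⟨w, hw⟩ := (Finite.injective_iff_surjective.mp (fun a c h => by
      have h' : (a / c) * (a / c) = 1 := by rw [div_mul_div_comm]; exact div_eq_one.mpr h
      exact div_eq_one.mp (sq_eq_one_units h')) : Function.Surjective fun w : Fˣ => w * w) u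
    have := hsqB ⟨tS τ w, tS_mem_bor τ w⟩
    rw [MulAction.mem_stabilizer_iff] at this
    rw [← hw, map_mul]
    exact this
  obtain ⟨a, ha, c, hac⟩ : ∃ a : F, a ≠ 0 ∧ ∃ c, uS τ a c ∈ H := by
    by_contra hcon
    push Not at hcon
    have hle : Nat.card (MulAction.stabilizer (unip τ) α) ≤ Nat.card F := by
      refine Nat.card_le_card_of_injective
        (fun y => colS τ (wS τ * (y.1 : SG hF) * wS τ) 2) ?_
      rintro ⟨⟨_, a, c, rfl⟩, hy⟩ ⟨⟨_, a', c', rfl⟩, hy'⟩ h
      have ha : a = 0 := by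
        by_contra h0; exact hcon a h0 c hy
      have ha' : a' = 0 := by
        by_contra h0; exact hcon a' h0 c' hy'
      subst ha; subst ha'
      have e : ∀ t : F, colS τ (wS τ * uS τ 0 t * wS τ) 2 = t := by
        intro t
        have : wS τ * uS τ 0 t * wS τ = lS τ 0 t := by
          rw [uS]
          simp only [mul_assoc, wS_sq, mul_one]
          rw [← mul_assoc, wS_sq, one_mul]
        rw [this]
        rfl
      simp only [e] at h
      subst h
      rfl
    rw [Nat.card_eq_fintype_card (α := F), hF] at hle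
    rw [card_unip, hF] at hU
    have hq : 8 ≤ 2 ^ (2 * m + 1) := by
      calc 8 = 2 ^ 3 := by norm_num
        _ ≤ _ := Nat.pow_le_pow_right (by norm_num) (by omega)
    nlinarith
  have hUH : ∀ a' c', uS τ a' c' ∈ H := by
    intro a' c'
    by_cases ha' : a' = 0
    · subst ha'; exact hZ c'
    obtain ⟨v, hv⟩ := chi_surj τ (div_ne_zero ha' ha)
    have h1 := mul_mem (mul_mem (hT v⁻¹) hac) (inv_mem (hT v⁻¹))
    rw [tS_uS, inv_inv, mul_div_assoc, hv, mul_div_cancel₀ _ ha] at h1
    have := mul_mem h1 (hZ (c / τ.th (v : F) + c'))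
    rw [uS_mul, add_zero, mul_zero, add_zero, ← add_assoc, CharTwo.add_self_eq_zero, zero_add] at this
    exact this
  intro g hg
  obtain ⟨u, p, r, rfl⟩ := (mem_bor_iff τ).mp hg
  exact mul_mem (hT u) (hUH p r)

theorem odd_case {Ω : Type*} [MulAction (SG hF) Ω] [Finite Ω] (hm : 1 ≤ m)
    (hfix : ∀ g : SG hF, g ≠ 1 → Nat.card (MulAction.fixedBy Ω g) ≤ 2) (α : Ω)
    (hodd : ∀ g ∈ MulAction.stabilizer (SG hF) α, g * g = 1 → g = 1)
    (hne : ∃ g, g ∈ MulAction.stabilizer (SG hF) α ∧ g ≠ 1) :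
    Nat.card (MulAction.stabilizer (SG hF) α) = 2 ^ (2 * m + 1) - 1 := by
  classical
  set τ := stdTwist hF
  set H := MulAction.stabilizer (SG hF) α with hH
  haveI := torus_cyclic hF
  obtain ⟨h1, h2, h3⟩ := pieces_coprime (m := m)
  have hq8 : 8 ≤ 2 ^ (2 * m + 1) := by
    calc 8 = 2 ^ 3 := by norm_num
      _ ≤ _ := Nat.pow_le_pow_right (by norm_num) (by omega)
  -- every element lies in a torus contained in the stabiliser
  have key : ∀ y ∈ H, y ≠ 1 → ∃ g : SG hF, g⁻¹ * y * g ∈ (tS τ).range ∧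
      ∀ t ∈ (tS τ).range, g * t * g⁻¹ ∈ H := by
    intro y hy hy1
    rcases trichotomy hF hy1 with ⟨-, g, hg⟩ | ⟨-, g, hg⟩ | hw
    · exfalso
      obtain ⟨a, c, hac⟩ := hg
      have e4 : y ^ 4 = 1 := conj_pow_eq_one (g := g) (by
        rw [hac, show uS τ a c ^ 4 = uS τ a c * uS τ a c * (uS τ a c * uS τ a c) by simp [pow_succ, mul_assoc],
          uS_mul, uS_mul]
        simp [CharTwo.add_self_eq_zero, uS_zero])
      have e2 : y * y = 1 := hodd _ (H.mul_mem hy hy) (by rw [← e4]; simp [pow_succ, mul_assoc])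
      exact hy1 (hodd y hy e2)
    · refine ⟨g, hg, ?_⟩
      set N := (normT τ).map (MulAut.conj g).toMonoidHom
      set T := (tS τ).range.map (MulAut.conj g).toMonoidHom with hTdef
      haveI : IsCyclic T := isCyclic_of_surjective _ ((MulAut.conj g).toMonoidHom.subgroupMap_surjective _)
      have hyT : y ∈ T := conj_map_mem hg
      have hNT : ∀ a ∈ N, ∀ u ∈ T, a⁻¹ * u * a ∈ T := by
        rintro _ ⟨a, ha, rfl⟩ _ ⟨u, hu, rfl⟩
        refine ⟨a⁻¹ * u * a, ?_, ?_⟩
        swap
        · show g * (a⁻¹ * u * a) * g⁻¹ = (g * a * g⁻¹)⁻¹ * (g * u * g⁻¹) * (g * a * g⁻¹)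
          group
        simpa using normT_conj τ ((normT τ).inv_mem ha) hu
      have hle := card_le_two_mul hfix hy1 N (fun a ha => cyclic_norm_inv T H (hNT a ha) hyT hy)
      rw [Subgroup.card_map_of_injective (MulAut.conj g).injective, card_normT, hF] at hle
      set SN := MulAction.stabilizer N α
      have hTle : ∀ x : SN, ((x : N) : SG hF) ∈ T := by
        rintro ⟨⟨_, a, ⟨u, rfl | rfl⟩, rfl⟩, hx⟩
        · exact Subgroup.mem_map_of_mem _ ⟨u, rfl⟩
        · exfalso
          have hx' : (MulAut.conj g).toMonoidHom (wS τ * tS τ u) ∈ H := hx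
          have h := hodd _ hx' (by
            rw [← map_mul, ← mul_assoc, mul_assoc (wS τ), ← mul_assoc (wS τ) (tS τ u) (wS τ), wS_tS,
              inv_mul_cancel, map_one])
          have h' := (MulAut.conj g).injective (h.trans (map_one _).symm)
          apply wS_not_torus τ
          rw [eq_inv_of_mul_eq_one_left h']
          exact inv_mem ⟨u, rfl⟩
      let f : SN → T := fun x => ⟨((x : N) : SG hF), hTle x⟩
      have hf : Function.Injective f := fun a b h => Subtype.ext (Subtype.ext (congrArg Subtype.val h :))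
      have hc1 := Nat.card_le_card_of_injective f hf
      have hcT : Nat.card T = 2 ^ (2 * m + 1) - 1 := by
        rw [hTdef, Subgroup.card_map_of_injective (MulAut.conj g).injective, card_torus, hF]
      have hle' : 2 * (2 ^ (2 * m + 1) - 1) ≤ 2 * Nat.card SN := hle
      have hfs : Function.Surjective f :=
        (hf.bijective_of_nat_card_le (by rw [hcT]; omega)).2
      intro t ht
      obtain ⟨x, hx⟩ := hfs ⟨_, Subgroup.mem_map_of_mem (MulAut.conj g).toMonoidHom ht⟩
      have hx' : ((x : N) : SG hF) ∈ H := x.2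
      have he : ((x : N) : SG hF) = g * t * g⁻¹ := congrArg Subtype.val hx
      rwa [he] at hx'
    · exfalso
      obtain ⟨r, w, hr, hwr, hwz⟩ := exists_prime_power hy1
      have hrd : r ∣ (2 ^ (2 * m + 1)) ^ 2 + 1 := by
        rw [← hwr]
        exact (orderOf_dvd_of_mem_zpowers hwz).trans (orderOf_dvd_of_pow_eq_one hw.2)
      set U := Subgroup.centralizer ({w} : Set (SG hF))
      haveI := cent_cyclic hF hr hrd hwr
      have hwH : w ∈ H := (Subgroup.zpowers_le.mpr hy) hwz
      obtain ⟨hwU, hw1⟩ := z_mem hF hr hrd hwr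
      set N := Subgroup.normalizer (U : Set (SG hF))
      have hle := card_le_two_mul hfix hw1 N (fun a ha => cyclic_norm_inv U H (fun u hu => by
        simpa using (Subgroup.mem_set_normalizer_iff.mp (inv_mem ha) u).mp hu) hwU hwH)
      obtain ⟨hcard, hN4⟩ := singer_card_cases hF hm hr hrd hwr
      rw [hN4] at hle
      -- a stabiliser of odd order
      have hodd2 : ¬ 2 ∣ Nat.card (MulAction.stabilizer N α) := by
        intro h
        haveI : Fact (Nat.Prime 2) := ⟨Nat.prime_two⟩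
        obtain ⟨s, hs⟩ := exists_prime_orderOf_dvd_card' 2 h
        have hs2 : ((s : N) : SG hF) * ((s : N) : SG hF) = 1 := by
          rw [← pow_two, ← Subgroup.coe_pow, ← Subgroup.coe_pow, ← hs, pow_orderOf_eq_one]
          rfl
        have := hodd _ s.2 hs2
        rw [show s = 1 from Subtype.ext (Subtype.ext this), orderOf_one] at hs
        norm_num at hs
      have hdvd := (MulAction.stabilizer N α).card_subgroup_dvd_card
      rw [hN4] at hdvd
      have hco : Nat.Coprime (Nat.card (MulAction.stabilizer N α)) 4 := by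
        have h22 := (Nat.prime_two.coprime_iff_not_dvd.mpr hodd2).symm
        exact Nat.Coprime.mul_right h22 h22
      have hdk := Nat.le_of_dvd Nat.card_pos (hco.dvd_mul_left.mp hdvd)
      have := five_le_singer hF hr hrd hwr
      change 4 * Nat.card U ≤ _ at hle
      change _ ≤ Nat.card U at hdk
      change 5 ≤ Nat.card U at this
      omega
  obtain ⟨x, hx, hx1⟩ := hne
  obtain ⟨g0, hg0, hT0⟩ := key x hx hx1
  let TT : SG hF → Subgroup H := fun g => ((tS τ).range.map (MulAut.conj g).toMonoidHom).subgroupOf H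
  have hTTcard : ∀ g, (∀ t ∈ (tS τ).range, g * t * g⁻¹ ∈ H) → Nat.card (TT g) = 2 ^ (2 * m + 1) - 1 := by
    intro g hg
    have hle : (tS τ).range.map (MulAut.conj g).toMonoidHom ≤ H := by
      rintro _ ⟨t, ht, rfl⟩; exact hg t ht
    rw [Nat.card_congr (Subgroup.subgroupOfEquivOfLe hle).toEquiv,
      Subgroup.card_map_of_injective (MulAut.conj g).injective, card_torus, hF]
  have hsize : ∀ g, (∀ t ∈ (tS τ).range, g * t * g⁻¹ ∈ H) →
      (conjSet (TT g)).ncard = (TT g).index * (Nat.card (TT g) - 1) := by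
    intro g hg
    refine card_conjSet _ _ (fun a ha u hu => (TT g).mul_mem ((TT g).mul_mem ha hu) ((TT g).inv_mem ha)) ?_
    intro a u hu hu1 hau
    obtain ⟨_, ⟨v, rfl⟩, hv⟩ := hu
    obtain ⟨_, ⟨v', rfl⟩, hv'⟩ := hau
    have hv1 : v ≠ 1 := fun h => hu1 (Subtype.ext (by
      rw [h, map_one, map_one] at hv; exact hv.symm))
    have hvv : (u : SG hF) = g * tS τ v * g⁻¹ := hv.symm
    have hvv' : (a : SG hF) * u * (a : SG hF)⁻¹ = g * tS τ v' * g⁻¹ := hv'.symm
    have e : g⁻¹ * a * g * tS τ v * (g⁻¹ * a * g)⁻¹ = tS τ v' := by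
      calc g⁻¹ * a * g * tS τ v * (g⁻¹ * a * g)⁻¹ = g⁻¹ * ((a : SG hF) * (g * tS τ v * g⁻¹) * (a : SG hF)⁻¹) * g := by
            group
        _ = _ := by rw [← hvv, hvv']; group
    rcases torus_norm τ hv1 e with ⟨w, hw, -⟩ | ⟨w, hw, -⟩
    · exact conj_map_mem ⟨w, hw.symm⟩
    · exfalso
      have hsq : (g⁻¹ * a * g) * (g⁻¹ * a * g) = 1 := by
        rw [hw, ← mul_assoc, mul_assoc (wS τ), ← mul_assoc (wS τ) (tS τ w) (wS τ), wS_tS, inv_mul_cancel]
      have ha2 : (a : SG hF) * a = 1 := by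
        calc (a : SG hF) * a = g * ((g⁻¹ * a * g) * (g⁻¹ * a * g)) * g⁻¹ := by group
          _ = 1 := by rw [hsq]; group
      have := hodd _ a.2 ha2
      rw [this, mul_one, inv_mul_cancel] at hw
      apply wS_not_torus τ
      rw [eq_inv_of_mul_eq_one_left hw.symm]
      exact inv_mem ⟨w, rfl⟩
  have hidx : ∀ g, (∀ t ∈ (tS τ).range, g * t * g⁻¹ ∈ H) →
      2 * (conjSet (TT g)).ncard > Nat.card H ∧
      ((conjSet (TT g)).ncard = Nat.card H - 1 → Nat.card H = 2 ^ (2 * m + 1) - 1) := by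
    intro g hg
    have h := (TT g).card_mul_index
    rw [hTTcard g hg] at h
    rw [hsize g hg, hTTcard g hg]
    set i := (TT g).index
    set k := 2 ^ (2 * m + 1) - 1 with hk
    have hk7 : 7 ≤ k := by omega
    have hi : 0 < i := Nat.pos_of_ne_zero (TT g).index_ne_zero_of_finite
    obtain ⟨j, hj⟩ := Nat.exists_eq_add_of_le hk7
    rw [← h, hj, show 7 + j - 1 = 6 + j by omega]
    refine ⟨by nlinarith, fun e => ?_⟩
    have : 1 ≤ (7 + j) * i := Nat.mul_pos (by omega) hi
    have e' : i * (6 + j) + 1 = (7 + j) * i := by omega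
    have : i = 1 := by nlinarith
    rw [this, mul_one]
  have hsub : ∀ g, conjSet (TT g) ⊆ ({1} : Set H)ᶜ := fun g x hx => hx.1
  have hcompl : ({1} : Set H)ᶜ.ncard = Nat.card H - 1 := by rw [Set.ncard_compl, Set.ncard_singleton]
  refine (hidx g0 hT0).2 (le_antisymm (hcompl ▸ Set.ncard_le_ncard (hsub g0)) ?_)
  rw [← hcompl]
  refine Set.ncard_le_ncard fun y hy => ?_
  by_contra hyn
  obtain ⟨g1, hg1, hT1⟩ := key (y : SG hF) y.2 (fun h => hy (Subtype.ext h))
  have hdis : Disjoint (conjSet (TT g0)) (conjSet (TT g1)) := by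
    rw [Set.disjoint_left]
    rintro z ⟨hz, a, ha⟩ ⟨-, c, hc⟩
    apply hyn
    refine ⟨hy, c⁻¹ * a, ?_⟩
    have hz1 : ((a⁻¹ * z * a : H) : SG hF) ≠ 1 := fun h => hz (by
      have h' : (a⁻¹ * z * a : H) = 1 := Subtype.ext h
      calc z = a * (a⁻¹ * z * a) * a⁻¹ := by group
        _ = 1 := by rw [h']; group)
    -- the two tori coincide after conjugation
    set d : H := a⁻¹ * c
    have ha' : ((a⁻¹ * z * a : H) : SG hF) ∈ (tS τ).range.map (MulAut.conj g0).toMonoidHom := ha
    have hc' : ((a⁻¹ * z * a : H) : SG hF) ∈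
        (tS τ).range.map (MulAut.conj ((d : SG hF) * g1)).toMonoidHom := by
      obtain ⟨t, ht, hte⟩ := (hc : ((c⁻¹ * z * c : H) : SG hF) ∈ (tS τ).range.map (MulAut.conj g1).toMonoidHom)
      refine ⟨t, ht, ?_⟩
      have hte' : g1 * t * g1⁻¹ = ((c⁻¹ * z * c : H) : SG hF) := hte
      show (d : SG hF) * g1 * t * ((d : SG hF) * g1)⁻¹ = _
      calc (d : SG hF) * g1 * t * ((d : SG hF) * g1)⁻¹
          = (d : SG hF) * (g1 * t * g1⁻¹) * (d : SG hF)⁻¹ := by group
        _ = _ := by
          rw [hte']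
          simp only [d, Subgroup.coe_mul, InvMemClass.coe_inv]
          group
    have heq := piece_unique hF (Or.inr (Or.inl ⟨g0, rfl⟩)) (Or.inr (Or.inl ⟨_, rfl⟩)) ha' hc' hz1
    show (((c⁻¹ * a)⁻¹ * y * (c⁻¹ * a) : H) : SG hF) ∈ (tS τ).range.map (MulAut.conj g0).toMonoidHom
    rw [heq]
    refine ⟨g1⁻¹ * (y : SG hF) * g1, hg1, ?_⟩
    show (d : SG hF) * g1 * (g1⁻¹ * (y : SG hF) * g1) * ((d : SG hF) * g1)⁻¹ = _
    simp only [d, Subgroup.coe_mul, InvMemClass.coe_inv]
    group
  have h12 := Set.ncard_le_ncard (Set.union_subset (hsub g0) (hsub g1))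
  rw [Set.ncard_union_eq hdis, hcompl] at h12
  have b0 := (hidx g0 hT0).1
  have b1 := (hidx g1 hT1).1
  omega

theorem fixity_two {Ω : Type*} [MulAction (SG hF) Ω] [Finite Ω] (hm : 1 ≤ m)
    (hfix : ∀ g : SG hF, g ≠ 1 → Nat.card (MulAction.fixedBy Ω g) ≤ 2)
    (hfaith : FaithfulSMul (SG hF) Ω) (htr : MulAction.IsPretransitive (SG hF) Ω)
    (hex : ∃ g : SG hF, g ≠ 1 ∧ ∃ α : Ω, g • α = α) :
    (∃ α : Ω, MulAction.stabilizer (SG hF) α = bor (stdTwist hF)) ∨
      ∀ α : Ω, Nat.card (MulAction.stabilizer (SG hF) α) = 2 ^ (2 * m + 1) - 1 := by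
  classical
  set τ := stdTwist hF
  by_cases hinv : ∃ (α : Ω) (s : SG hF), s ∈ MulAction.stabilizer (SG hF) α ∧ s * s = 1 ∧ s ≠ 1
  · left
    obtain ⟨α, s, hsα, hs2, hs1⟩ := hinv
    have ho : orderOf s = 2 := orderOf_eq_prime (by rw [pow_two, hs2]) hs1
    obtain ⟨g, hg⟩ := involution_cases hF ho
    obtain ⟨a, b, hab⟩ := hg s rfl
    have ha : a = 0 := SzO.sq_eq_one τ (by
      rw [← hab, pow_two]
      calc g⁻¹ * s * g * (g⁻¹ * s * g) = g⁻¹ * (s * s) * g := by group
        _ = 1 := by rw [hs2]; group)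
    subst ha
    have hb : b ≠ 0 := by
      rintro rfl
      rw [uS_zero] at hab
      exact hs1 (by
        calc s = g * (g⁻¹ * s * g) * g⁻¹ := by group
          _ = 1 := by rw [hab]; group)
    set β := g⁻¹ • α with hβ
    have hsβ : uS τ 0 b ∈ MulAction.stabilizer (SG hF) β := by
      rw [MulAction.mem_stabilizer_iff, ← hab, hβ, mul_smul, mul_smul, smul_inv_smul,
        MulAction.mem_stabilizer_iff.mp hsα]
    have hB := involution_case hF hfix β hm hb hsβ
    refine ⟨β, le_antisymm ?_ hB⟩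
    by_contra hnot
    have htop := SzO.eq_top_of_unip_not_le τ (exists_unit_ne hm hF) _
      ((unip_le_bor τ).trans hB) hnot
    have hall : ∀ (x : SG hF) (ω : Ω), x • ω = ω := by
      intro x ω
      obtain ⟨y, rfl⟩ := htr.exists_smul_eq β ω
      have h1 : (x * y) • β = β := MulAction.mem_stabilizer_iff.mp (htop ▸ Subgroup.mem_top (x * y))
      have h2 : y • β = β := MulAction.mem_stabilizer_iff.mp (htop ▸ Subgroup.mem_top y)
      rw [← mul_smul, h1, h2]
    exact hs1 (hfaith.eq_of_smul_eq_smul fun ω => by rw [hall, one_smul])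
  · right
    intro α
    refine odd_case hF hm hfix α (fun g hg h2 => by_contra fun h1 => hinv ⟨α, g, hg, h2, h1⟩) ?_
    obtain ⟨g, hg1, β, hgβ⟩ := hex
    obtain ⟨x, hx⟩ := htr.exists_smul_eq β α
    refine ⟨x * g * x⁻¹, ?_, fun h => hg1 ?_⟩
    · rw [MulAction.mem_stabilizer_iff, ← hx, mul_smul, mul_smul, inv_smul_smul, hgβ]
    · calc g = x⁻¹ * (x * g * x⁻¹) * x := by group
        _ = 1 := by rw [h]; group

end Cfsg.Agent.SzC
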