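import Mathlib
import Cfsg.Agent.Lib.SzC.Solubilizer
import Cfsg.Agent.Lib.SzC.UnipClasses
import Cfsg.Agent.Lib.SzO.Geometry

/-!
# Sizes of solubilizers
-/

set_option autoImplicit false

open scoped Matrix

namespace Cfsg.Agent.SzC

open Cfsg.Agent.SzB

variable {F : Type*} [Field F] [CharP F 2] [Fintype F] {m : ℕ}
  {hF : Fintype.card F = 2 ^ (2 * m + 1)}

theorem sol_inv {G : Type*} [Group G] (x : G) : sol x⁻¹ = sol x := by
  have key : ∀ x y : G, Subgroup.closure ({x⁻¹, y} : Set G) ≤ Subgroup.closure {x, y} := fun x y => by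
    rw [Subgroup.closure_le]
    rintro z (rfl | rfl)
    · exact inv_mem (Subgroup.subset_closure (Set.mem_insert _ _))
    · exact Subgroup.subset_closure (Set.mem_insert_of_mem _ rfl)
  ext y
  exact ⟨fun h => isSolvable_of_le (by simpa using key x⁻¹ y) h, fun h => isSolvable_of_le (key x y) h⟩

theorem sol_card_isConj {G : Type*} [Group G] [Finite G] {x y : G} (h : IsConj x y) :
    (sol x).ncard = (sol y).ncard := by
  obtain ⟨c, rfl⟩ := isConj_iff.mp h
  exact (sol_card_conj c x).symm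

variable (hF) in
theorem card_bor' : Nat.card (bor (stdTwist hF)) = (2 ^ (2 * m + 1) - 1) * (2 ^ (2 * m + 1)) ^ 2 := by
  rw [card_bor, hF]

/-- no fixed coset by coprime order -/
theorem both_empty {N : Subgroup (SG hF)} {x : SG hF} (hx : x ≠ 1)
    (hco : Nat.Coprime (orderOf x) (Nat.card N)) : both N x = ∅ := by
  rw [Set.eq_empty_iff_forall_notMem]
  rintro y ⟨a, ha, -⟩
  induction a using Quotient.inductionOn with
  | h g =>
    have hg : g⁻¹ * x * g ∈ N := stab_mk.mp ha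
    have h1 : orderOf (g⁻¹ * x * g) = orderOf x := by
      rw [show g⁻¹ * x * g = MulAut.conj g⁻¹ x by simp, MulEquiv.orderOf_eq]
    have h2 := Subgroup.orderOf_dvd_natCard N hg
    rw [h1] at h2
    exact hx (orderOf_eq_one_iff.mp (Nat.eq_one_of_dvd_coprimes hco dvd_rfl h2))

/-- a single fixed coset -/
theorem both_self {N : Subgroup (SG hF)} {x : SG hF} (hx : x ∈ N)
    (h : ∀ g, g⁻¹ * x * g ∈ N → g ∈ N) : both N x = (N : Set (SG hF)) := by
  ext y
  constructor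
  · rintro ⟨a, ha, hy⟩
    induction a using Quotient.inductionOn with
    | h g =>
      have hg := h g (stab_mk.mp ha)
      have := mul_mem (mul_mem hg (stab_mk.mp hy : g⁻¹ * y * g ∈ N)) (inv_mem hg)
      simpa [mul_assoc] using this
  · intro hy
    exact ⟨QuotientGroup.mk 1, stab_mk.mpr (by simpa using hx), stab_mk.mpr (by simpa using hy)⟩

theorem Fam.own_coset (Φ : Fam hF) {x : SG hF} (hx : x ∈ Φ.U) (hx1 : x ≠ 1) (g : SG hF)
    (hg : g⁻¹ * x * g ∈ Φ.N) : g ∈ Φ.N := by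
  haveI := Φ.cyc
  have hodd : x ^ Nat.card Φ.U = 1 := congrArg Subtype.val (pow_card_eq_one' (x := (⟨x, hx⟩ : Φ.U)))
  have hU : g⁻¹ * x * g ∈ Φ.U := by
    by_contra hn
    have h4 := Φ.pow_eq_one hg hn
    have h4' : x ^ Φ.e = 1 := conj_pow_eq_one h4
    have hd := Nat.dvd_gcd (orderOf_dvd_of_pow_eq_one h4') (orderOf_dvd_of_pow_eq_one hodd)
    have hco : Nat.Coprime Φ.e (Nat.card Φ.U) := by
      have h2 : Nat.Coprime 2 (Nat.card Φ.U) := Nat.prime_two.coprime_iff_not_dvd.mpr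
        fun h => (Nat.not_even_iff_odd.mpr Φ.odd) (even_iff_two_dvd.mpr h)
      rcases Φ.he with he | he <;> rw [he]
      · exact h2
      · exact (h2.pow_left 2 : Nat.Coprime (2 ^ 2) _)
    rw [hco] at hd
    exact hx1 (orderOf_eq_one_iff.mp (Nat.dvd_one.mp hd))
  have := Φ.ti g⁻¹ x hx hx1 (by rw [inv_inv]; exact hU)
  simpa using inv_mem this

variable (hF) in
theorem both_bor {x : SG hF} (hx : x ∈ unip (stdTwist hF)) (hx1 : x ≠ 1) :
    both (bor (stdTwist hF)) x = (bor (stdTwist hF) : Set (SG hF)) :=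
  both_self (unip_le_bor _ hx) (fun _ hg => SzO.mem_bor_of_fixes _ hx hx1 hg)

theorem core_trivial (Φ : Fam hF) {x : SG hF} (hx4 : x ^ 4 = 1) (hx1 : x ≠ 1)
    (hxB : x ∈ bor (stdTwist hF)) {g : SG hF} (hxg : g⁻¹ * x * g ∈ Φ.N) {u : SG hF} (hu : u ∈ Φ.U)
    (hgu : g * u * g⁻¹ ∈ bor (stdTwist hF)) : u = 1 := by
  set τ := stdTwist hF
  set s := g⁻¹ * x * g with hs
  set c := s * u * s⁻¹ * u⁻¹ with hc
  have hcU : c ∈ Φ.U := mul_mem (Φ.nconj s hxg u hu) (inv_mem hu)
  have hw : g * c * g⁻¹ ∈ unip τ := by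
    have e : g * c * g⁻¹ = x * (g * u * g⁻¹) * x⁻¹ * (g * u * g⁻¹)⁻¹ := by rw [hc, hs]; group
    rw [e]
    refine sc_eq_one hF (mul_mem (mul_mem (mul_mem hxB hgu) (inv_mem hxB)) (inv_mem hgu)) ?_
    rw [sc_mul τ (mul_mem (mul_mem hxB hgu) (inv_mem hxB)) (inv_mem hgu),
      sc_mul τ (mul_mem hxB hgu) (inv_mem hxB), sc_mul τ hxB hgu]
    have h1 : sc τ x * sc τ x⁻¹ = 1 := by
      rw [← sc_mul τ hxB (inv_mem hxB), mul_inv_cancel]; simp [sc, colS, col]
    have h2 : sc τ (g * u * g⁻¹) * sc τ (g * u * g⁻¹)⁻¹ = 1 := by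
      rw [← sc_mul τ hgu (inv_mem hgu), mul_inv_cancel]; simp [sc, colS, col]
    linear_combination (sc τ (g * u * g⁻¹) * sc τ (g * u * g⁻¹)⁻¹) * h1 + h2
  have hc1 : c = 1 := by
    have h1 : orderOf c ∣ Nat.card Φ.U := Subgroup.orderOf_dvd_natCard _ hcU
    have h2 : orderOf c ∣ (2 ^ (2 * m + 1)) ^ 2 := by
      refine orderOf_dvd_of_pow_eq_one ?_
      have := conj_pow_eq_one (g := g⁻¹) (x := c) (n := (2 ^ (2 * m + 1)) ^ 2)
        (by rw [inv_inv]; exact unip_pow hF hw)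
      exact this
    have hco : Nat.Coprime ((2 ^ (2 * m + 1)) ^ 2) (Nat.card Φ.U) := by
      rw [← pow_mul]
      exact (Nat.prime_two.coprime_iff_not_dvd.mpr
        fun h => (Nat.not_even_iff_odd.mpr Φ.odd) (even_iff_two_dvd.mpr h)).pow_left _
    exact orderOf_eq_one_iff.mp (Nat.eq_one_of_dvd_coprimes hco h2 h1)
  by_contra hu1
  have hsU : s ∉ Φ.U := Φ.not_mem_of_pow_four (by
    have : s ^ 4 = g⁻¹ * x ^ 4 * g := by rw [hs]; simp [pow_succ, mul_assoc]
    rw [this, hx4]; group) (fun e => hx1 (by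
    calc x = g * s * g⁻¹ := by rw [hs]; group
      _ = 1 := by rw [e]; group))
  refine hsU (Φ.cent_le hu hu1 ?_)
  calc s * u = c * (u * s) := by rw [hc]; group
    _ = u * s := by rw [hc1, one_mul]

theorem sol_unip_card (Φp Φm ΦT : Fam hF) (hne1 : Nat.card Φp.U ≠ Nat.card Φm.U)
    (hne2 : Nat.card ΦT.U ≠ Nat.card Φp.U) (hne3 : Nat.card ΦT.U ≠ Nat.card Φm.U)
    {x : SG hF} (hx : x ∈ unip (stdTwist hF)) (hx4 : x ^ 4 = 1) (hx1 : x ≠ 1)
    (hsol : sol x = both (bor (stdTwist hF)) x ∪ both ΦT.N x ∪ both Φp.N x ∪ both Φm.N x) :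
    (sol x).ncard = Nat.card (bor (stdTwist hF)) +
      Nat.card {a : SG hF ⧸ ΦT.N // x • a = a} * (ΦT.e * Nat.card ΦT.U - ΦT.e) +
      Nat.card {a : SG hF ⧸ Φp.N // x • a = a} * (Φp.e * Nat.card Φp.U - Φp.e) +
      Nat.card {a : SG hF ⧸ Φm.N // x • a = a} * (Φm.e * Nat.card Φm.U - Φm.e) := by
  classical
  haveI : Fintype (SG hF) := Fintype.ofFinite _
  set B := bor (stdTwist hF)
  have hxB : x ∈ B := unip_le_bor _ hx
  have hcB : ∀ y, y * x = x * y → y ∈ B := fun y hy => cent_unip _ hx hx1 hy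
  have hc : ∀ Φ : Fam hF, ∀ g, g⁻¹ * x * g ∈ Φ.N → ∀ u ∈ Φ.U, g * u * g⁻¹ ∈ B → u = 1 :=
    fun Φ g hg u hu hgu => core_trivial Φ hx4 hx1 hxB hg hu hgu
  have hset : sol x = (B : Set (SG hF)) ∪ (both ΦT.N x \ (B : Set (SG hF))) ∪
      (both Φp.N x \ (B : Set (SG hF))) ∪ (both Φm.N x \ (B : Set (SG hF))) := by
    rw [hsol, both_bor hF hx hx1]
    ext y
    simp only [Set.mem_union, Set.mem_sdiff, SetLike.mem_coe]
    tauto
  have d0 : ∀ s : Set (SG hF), Disjoint (B : Set (SG hF)) (s \ (B : Set (SG hF))) := fun s =>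
    Set.disjoint_sdiff_right
  rw [hset, Set.ncard_union_eq, Set.ncard_union_eq, Set.ncard_union_eq, branch_card ΦT B hx4 hx1 hcB (hc ΦT),
    branch_card Φp B hx4 hx1 hcB (hc Φp), branch_card Φm B hx4 hx1 hcB (hc Φm), ← Nat.card_coe_set_eq]
  · rfl
  · exact d0 _
  · exact Disjoint.union_left (d0 _) (branches_disjoint ΦT Φp B hcB hne2)
  · exact Disjoint.union_left (Disjoint.union_left (d0 _) (branches_disjoint ΦT Φm B hcB hne3))
      (branches_disjoint Φp Φm B hcB hne1)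

/-- involutions in a member -/
theorem fix_involution (Φ : Fam hF) :
    Nat.card {a : SG hF ⧸ Φ.N // uS (stdTwist hF) 0 1 • a = a} * (Φ.e * Nat.card Φ.U) =
      (2 ^ (2 * m + 1)) ^ 2 * Nat.card Φ.U := by
  set τ := stdTwist hF
  rw [← Φ.card, fixed_count, cent_involution]
  congr 1
  rw [← Φ.involution_count]
  congr 1
  ext y
  refine and_congr_right fun _ => ⟨fun h => ?_, fun h => (involution_conj hF h).symm⟩
  obtain ⟨c, rfl⟩ := isConj_iff.mp h
  rw [show c * uS τ 0 1 * c⁻¹ = MulAut.conj c (uS τ 0 1) from rfl, MulEquiv.orderOf_eq]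
  refine orderOf_eq_prime ?_ (fun e => one_ne_zero (uS_inj τ (e.trans (uS_zero τ).symm)).2)
  rw [uS_sq, map_zero, zero_mul, uS_zero]

theorem order_four : orderOf (uS (stdTwist hF) 1 0) = 4 := by
  have h := uS_sq hF 1 0
  rw [map_one, one_mul] at h
  refine (orderOf_eq_prime_pow (p := 2) (n := 1) ?_ ?_).trans (by norm_num)
  · rw [pow_one, h]
    exact fun e => one_ne_zero (uS_inj _ (e.trans (uS_zero _).symm)).2
  · rw [show uS (stdTwist hF) 1 0 ^ 2 ^ (1 + 1) = (uS (stdTwist hF) 1 0 ^ 2) ^ 2 by rw [← pow_mul]; rfl, h, uS_sq,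
      map_zero, zero_mul, uS_zero]

theorem fix_four (Φ : Fam hF) (he : Φ.e = 4) :
    Nat.card {a : SG hF ⧸ Φ.N // uS (stdTwist hF) 1 0 • a = a} * (4 * Nat.card Φ.U) =
      2 * 2 ^ (2 * m + 1) * Nat.card Φ.U := by
  classical
  set x := uS (stdTwist hF) 1 0 with hx
  suffices h : Nat.card {a : SG hF ⧸ Φ.N // x • a = a} * (Φ.e * Nat.card Φ.U) =
      2 * 2 ^ (2 * m + 1) * Nat.card Φ.U by rwa [he] at h
  rw [← Φ.card, fixed_count, cent_four]
  congr 1
  have hset : {y | y ∈ Φ.N ∧ orderOf y = 4} =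
      {y | y ∈ Φ.N ∧ IsConj x y} ∪ {y | y ∈ Φ.N ∧ IsConj x⁻¹ y} := by
    ext y
    constructor
    · rintro ⟨hy, hy4⟩
      rcases four_conj hF hy4 with h | h
      · exact Or.inl ⟨hy, h.symm⟩
      · exact Or.inr ⟨hy, h.symm⟩
    · rintro (⟨hy, h⟩ | ⟨hy, h⟩) <;> refine ⟨hy, ?_⟩ <;> obtain ⟨c, rfl⟩ := isConj_iff.mp h
      · rw [show c * x * c⁻¹ = MulAut.conj c x from rfl, MulEquiv.orderOf_eq, order_four]
      · rw [show c * x⁻¹ * c⁻¹ = MulAut.conj c x⁻¹ from rfl, MulEquiv.orderOf_eq, orderOf_inv, order_four]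
  have hinv : {y | y ∈ Φ.N ∧ IsConj x⁻¹ y} = (fun y => y⁻¹) '' {y | y ∈ Φ.N ∧ IsConj x y} := by
    ext y
    constructor
    · rintro ⟨hy, h⟩
      refine ⟨y⁻¹, ⟨inv_mem hy, ?_⟩, inv_inv y⟩
      obtain ⟨c, rfl⟩ := isConj_iff.mp h
      exact isConj_iff.mpr ⟨c, by group⟩
    · rintro ⟨z, ⟨hz, h⟩, rfl⟩
      refine ⟨inv_mem hz, ?_⟩
      obtain ⟨c, rfl⟩ := isConj_iff.mp h
      exact isConj_iff.mpr ⟨c, by group⟩
  have hdis : Disjoint {y | y ∈ Φ.N ∧ IsConj x y} {y | y ∈ Φ.N ∧ IsConj x⁻¹ y} := by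
    rw [Set.disjoint_left]
    rintro y ⟨-, h1⟩ ⟨-, h2⟩
    exact four_not_real hF (h1.trans h2.symm)
  have h := Φ.four_count he
  haveI : Fintype (SG hF) := Fintype.ofFinite _
  rw [hset, Set.ncard_union_eq hdis, hinv, Set.ncard_image_of_injective _ inv_injective] at h
  omega

theorem fix_four_T (Φ : Fam hF) (he : Φ.e = 2) :
    Nat.card {a : SG hF ⧸ Φ.N // uS (stdTwist hF) 1 0 • a = a} = 0 := by
  rw [Nat.card_eq_zero]
  left
  constructor
  rintro ⟨a, ha⟩
  induction a using Quotient.inductionOn with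
  | h g =>
    set x := uS (stdTwist hF) 1 0 with hx
    have hg : g⁻¹ * x * g ∈ Φ.N := stab_mk.mp ha
    have ho : orderOf (g⁻¹ * x * g) = 4 := by
      rw [show g⁻¹ * x * g = MulAut.conj g⁻¹ x by simp, MulEquiv.orderOf_eq, order_four]
    by_cases hU : g⁻¹ * x * g ∈ Φ.U
    · refine Φ.not_mem_of_pow_four ?_ (fun e => by rw [e, orderOf_one] at ho; norm_num at ho) hU
      have := pow_orderOf_eq_one (g⁻¹ * x * g)
      rwa [ho] at this
    · have h2 := Φ.pow_eq_one hg hU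
      rw [he] at h2
      have := orderOf_dvd_of_pow_eq_one h2
      rw [ho] at this
      norm_num at this

theorem torus_sol_set {v : Fˣ} (hv : v ≠ 1) :
    both (bor (stdTwist hF)) (tS (stdTwist hF) v) = (bor (stdTwist hF) : Set (SG hF)) ∪
      (fun y => wS (stdTwist hF) * y * wS (stdTwist hF)) '' (bor (stdTwist hF) : Set (SG hF)) := by
  set τ := stdTwist hF
  have hw : (wS τ)⁻¹ = wS τ := inv_eq_of_mul_eq_one_right (wS_sq τ)
  ext y
  constructor
  · rintro ⟨a, ha, hy⟩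
    obtain ⟨o, rfl⟩ := (pointEquiv τ).surjective a
    rcases o with _ | ⟨p, r⟩
    · rw [pointEquiv_none] at hy
      left
      have := stab_mk.mp hy
      simpa using this
    · right
      rw [pointEquiv_some] at ha hy
      by_cases hpr : p = 0 ∧ r = 0
      · obtain ⟨rfl, rfl⟩ := hpr
        rw [uS_zero, one_mul] at hy
        have h := stab_mk.mp hy
        rw [hw] at h
        refine ⟨wS τ * y * wS τ, h, ?_⟩
        calc wS τ * (wS τ * y * wS τ) * wS τ = (wS τ * wS τ) * y * (wS τ * wS τ) := by group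
          _ = y := by rw [wS_sq, one_mul, mul_one]
      · exfalso
        apply hv
        refine SzO.torus_fix_pt τ (by tauto) ?_
        rw [SzO.smul_pt, SzO.pt_eq_iff]
        have h := stab_mk.mp ha
        simpa [mul_assoc] using h
  · rintro (hy | ⟨z, hz, rfl⟩)
    · exact ⟨QuotientGroup.mk 1, stab_mk.mpr (by simpa using tS_mem_bor τ v), stab_mk.mpr (by simpa using hy)⟩
    · refine ⟨QuotientGroup.mk (wS τ), stab_mk.mpr ?_, stab_mk.mpr ?_⟩
      · rw [hw, wS_tS]; exact inv_mem (tS_mem_bor τ v)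
      · rw [hw]
        have : wS τ * (wS τ * z * wS τ) * wS τ = z := by
          calc wS τ * (wS τ * z * wS τ) * wS τ = (wS τ * wS τ) * z * (wS τ * wS τ) := by group
            _ = z := by rw [wS_sq, one_mul, mul_one]
        rw [this]; exact hz

theorem torus_union_card (hm : 1 ≤ m) :
    ((bor (stdTwist hF) : Set (SG hF)) ∪
      (fun y => wS (stdTwist hF) * y * wS (stdTwist hF)) '' (bor (stdTwist hF) : Set (SG hF)) ∪
      (normT (stdTwist hF) : Set (SG hF))).ncard = 2 * Nat.card (bor (stdTwist hF)) := by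
  classical
  haveI : Fintype (SG hF) := Fintype.ofFinite _
  set τ := stdTwist hF
  set B : Set (SG hF) := ↑(bor τ)
  set C := (fun y => wS τ * y * wS τ) '' B
  set T : Set (SG hF) := ↑(tS τ).range
  set N : Set (SG hF) := ↑(normT τ)
  have hwinj : Function.Injective (fun y => wS τ * y * wS τ) := fun a b h =>
    mul_left_cancel (mul_right_cancel h)
  have hTB : T ⊆ B := by rintro _ ⟨u, rfl⟩; exact tS_mem_bor τ u
  have hTC : T ⊆ C := by
    rintro _ ⟨u, rfl⟩
    refine ⟨(tS τ u)⁻¹, inv_mem (tS_mem_bor τ u), ?_⟩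
    show wS τ * (tS τ u)⁻¹ * wS τ = tS τ u
    rw [← map_inv, wS_tS, map_inv, inv_inv]
  have hBC : B ∩ C = T := by
    refine Set.Subset.antisymm ?_ (Set.subset_inter hTB hTC)
    rintro y ⟨hy, z, hz, rfl⟩
    obtain ⟨u, a, b, he⟩ := (mem_bor_iff τ).mp hy
    have hlS : lS τ a b ∈ bor τ := by
      have e : lS τ a b = tS τ u * (wS τ * (tS τ u * uS τ a b) * wS τ) := by
        calc lS τ a b = (wS τ * wS τ) * lS τ a b * (wS τ * wS τ) := by rw [wS_sq, one_mul, mul_one]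
          _ = wS τ * uS τ a b * wS τ := by rw [uS]; group
          _ = tS τ u * (tS τ u)⁻¹ * wS τ * uS τ a b * wS τ := by rw [mul_inv_cancel, one_mul]
          _ = tS τ u * (wS τ * tS τ u * wS τ) * wS τ * uS τ a b * wS τ := by rw [wS_tS]
          _ = tS τ u * (wS τ * tS τ u * (wS τ * wS τ) * uS τ a b * wS τ) := by group
          _ = _ := by rw [wS_sq, mul_one]; group
      rw [e, ← he]
      refine mul_mem (tS_mem_bor τ u) ?_
      show wS τ * (wS τ * z * wS τ) * wS τ ∈ bor τ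
      have : wS τ * (wS τ * z * wS τ) * wS τ = z := by
        calc wS τ * (wS τ * z * wS τ) * wS τ = (wS τ * wS τ) * z * (wS τ * wS τ) := by group
          _ = z := by rw [wS_sq, one_mul, mul_one]
      rw [this]; exact hz
    obtain ⟨rfl, rfl⟩ := lS_mem_bor τ hlS
    rw [uS_zero, mul_one] at he
    exact ⟨u, he.symm⟩
  have hNd : (B ∪ C) ∩ N = T := by
    refine Set.Subset.antisymm ?_ (fun y hy => ⟨Or.inl (hTB hy), ?_⟩)
    · rintro y ⟨hy, u, rfl | rfl⟩
      · exact ⟨u, rfl⟩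
      · exfalso
        apply uw_not_mem τ 0 0
        rw [uS_zero, one_mul]
        rcases hy with h | ⟨z, hz, he⟩
        · have := mul_mem h (inv_mem (tS_mem_bor τ u))
          rwa [mul_inv_cancel_right] at this
        · have e : wS τ = (tS τ u)⁻¹ * (z : SG hF) := by
            have he' : wS τ * z * wS τ = wS τ * tS τ u := he
            have e1 : z * wS τ = tS τ u := mul_left_cancel (by rw [← mul_assoc]; exact he')
            rw [← e1, mul_inv_rev, mul_assoc, inv_mul_cancel, mul_one]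
            exact (inv_eq_of_mul_eq_one_right (wS_sq τ)).symm
          rw [e]; exact mul_mem (inv_mem (tS_mem_bor τ u)) hz
    · obtain ⟨u, rfl⟩ := hy
      exact ⟨u, Or.inl rfl⟩
  have h1 := Set.ncard_union_add_ncard_inter B C
  have h2 := Set.ncard_union_add_ncard_inter (B ∪ C) N
  rw [hNd] at h2
  rw [hBC, Set.ncard_image_of_injective _ hwinj] at h1
  have hN : N.ncard = 2 * T.ncard := by
    rw [← Nat.card_coe_set_eq, ← Nat.card_coe_set_eq]
    show Nat.card (normT τ) = 2 * Nat.card (tS τ).range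
    rw [card_normT, card_torus]
  have hB : B.ncard = Nat.card (bor τ) := (Nat.card_coe_set_eq B).symm
  change _ = 2 * Nat.card (bor τ)
  rw [← hB]
  omega

end Cfsg.Agent.SzC
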