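import Mathlib
import Cfsg.Agent.Lib.SzC.SolCount

/-!
# Solubilizer table
-/

set_option autoImplicit false

open scoped Matrix

namespace Cfsg.Agent.SzC

open Cfsg.Agent.SzB

variable {F : Type*} [Field F] [CharP F 2] [Fintype F] {m : ℕ} (hm : 1 ≤ m)
  (hF : Fintype.card F = 2 ^ (2 * m + 1))

include hm in
theorem sol_table (x : SG hF) :
    (orderOf x = 2 → (sol x).ncard = (2 ^ (2 * m + 1)) ^ 2 * (4 * 2 ^ (2 * m + 1) - 3)) ∧
    (orderOf x = 4 → (sol x).ncard = (2 ^ (2 * m + 1)) ^ 2 * (2 ^ (2 * m + 1) + 3)) ∧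
    (x ≠ 1 → orderOf x ∣ 2 ^ (2 * m + 1) - 1 →
      (sol x).ncard = 2 * (2 ^ (2 * m + 1)) ^ 2 * (2 ^ (2 * m + 1) - 1)) ∧
    (x ≠ 1 → orderOf x ∣ 2 ^ (2 * m + 1) + 2 ^ (m + 1) + 1 →
      (sol x).ncard = 4 * (2 ^ (2 * m + 1) + 2 ^ (m + 1) + 1)) ∧
    (x ≠ 1 → orderOf x ∣ 2 ^ (2 * m + 1) - 2 ^ (m + 1) + 1 →
      (sol x).ncard = 4 * (2 ^ (2 * m + 1) - 2 ^ (m + 1) + 1)) := by
  classical
  haveI : Fintype (SG hF) := Fintype.ofFinite _
  set τ := stdTwist hF
  obtain ⟨kp, km, hkp, hkm, hmul, hsum, hco, hk5⟩ := count_identities (m := m)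
  obtain ⟨hkm5, hkp5⟩ := hk5 hm
  obtain ⟨Φp, Φm, ep, em, hep, hem, hwcov, hsol⟩ := sol_eq (hF := hF) hm
  rw [← hkp] at ep
  rw [← hkm] at em
  rw [← hkp, ← hkm]
  set ΦT := famT hm hF
  set q := 2 ^ (2 * m + 1) with hq
  have hq8 : 8 ≤ q := by
    have : 2 ^ 3 ≤ 2 ^ (2 * m + 1) := Nat.pow_le_pow_right (by norm_num) (by omega)
    simpa [hq] using this
  have eT : Nat.card ΦT.U = q - 1 := by
    show Nat.card (tS τ).range = q - 1
    rw [card_torus, hF]
  have heT : ΦT.e = 2 := rfl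
  have hqe : Even q := by rw [hq]; simp [Nat.even_pow]
  -- coprimality
  have hoT : Odd (q - 1) := Nat.Even.sub_odd (by omega) hqe odd_one
  have hcq : ∀ k, k ∣ q ^ 2 + 1 → Nat.Coprime k q ∧ Nat.Coprime k (q - 1) ∧ Nat.Coprime k 2 := by
    intro k hk
    have h2 : Nat.Coprime (q ^ 2 + 1) q := by
      rw [pow_two, Nat.coprime_mul_left_add_left]; exact Nat.coprime_one_left q
    have h3 : Nat.Coprime (q ^ 2 + 1) 2 := by
      rw [Nat.coprime_comm, Nat.prime_two.coprime_iff_not_dvd, ← even_iff_two_dvd]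
      exact Nat.not_even_iff_odd.mpr (Even.add_odd (by simp [Nat.even_pow, hqe]) odd_one)
    have h4 : Nat.Coprime (q ^ 2 + 1) (q - 1) := by
      have e : q ^ 2 + 1 = 2 + (q + 1) * (q - 1) := by
        obtain ⟨j, hj⟩ : ∃ j, q = j + 1 := ⟨q - 1, by omega⟩
        rw [hj]; simp only [Nat.add_sub_cancel]; ring
      rw [e, Nat.coprime_add_mul_right_left]
      exact Nat.prime_two.coprime_iff_not_dvd.mpr fun h => (Nat.not_even_iff_odd.mpr hoT) (even_iff_two_dvd.mpr h)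
    exact ⟨h2.of_dvd_left hk, h4.of_dvd_left hk, h3.of_dvd_left hk⟩
  have hkpd : kp ∣ q ^ 2 + 1 := ⟨km, hmul.symm⟩
  have hkmd : km ∣ q ^ 2 + 1 := ⟨kp, by rw [← hmul, mul_comm]⟩
  have hNp : Nat.card Φp.N = 2 * 2 * kp := by rw [Φp.card, hep, ep]
  have hNm : Nat.card Φm.N = 2 * 2 * km := by rw [Φm.card, hem, em]
  have hNT : Nat.card ΦT.N = 2 * (q - 1) := by rw [ΦT.card, eT]; rfl
  have hB : Nat.card (bor τ) = (q - 1) * q ^ 2 := card_bor' hF
  have hne1 : Nat.card Φp.U ≠ Nat.card Φm.U := by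
    rw [ep, em]; intro h; rw [h] at hco; rw [Nat.coprime_self] at hco; omega
  have hne2 : Nat.card ΦT.U ≠ Nat.card Φp.U := by
    rw [eT, ep]; intro h
    have := (hcq kp hkpd).2.1
    rw [← h, Nat.coprime_self] at this; omega
  have hne3 : Nat.card ΦT.U ≠ Nat.card Φm.U := by
    rw [eT, em]; intro h
    have := (hcq km hkmd).2.1
    rw [← h, Nat.coprime_self] at this; omega
  refine ⟨fun ho => ?_, fun ho => ?_, fun hx hd => ?_, fun hx hd => ?_, fun hx hd => ?_⟩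
  · rw [sol_card_isConj (involution_conj hF ho)]
    have hx1 : uS τ 0 1 ≠ 1 := fun e => one_ne_zero (uS_inj τ (e.trans (uS_zero τ).symm)).2
    have hx4 : uS τ 0 1 ^ 4 = 1 := by
      rw [show uS τ 0 1 ^ 4 = (uS τ 0 1 ^ 2) ^ 2 from pow_mul _ 2 2, uS_sq, map_zero, zero_mul, uS_zero, one_pow]
    rw [sol_unip_card Φp Φm ΦT hne1 hne2 hne3 ⟨0, 1, rfl⟩ hx4 hx1 (hsol _ hx1), hB, hep, hem, heT, eT, ep, em]
    have fp := fix_involution Φp
    have fm := fix_involution Φm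
    have fT := fix_involution ΦT
    rw [hep, ep] at fp
    rw [hem, em] at fm
    rw [heT, eT] at fT
    have gp := Nat.eq_of_mul_eq_mul_right (by omega : 0 < kp) ((mul_assoc _ _ _).trans fp)
    have gm := Nat.eq_of_mul_eq_mul_right (by omega : 0 < km) ((mul_assoc _ _ _).trans fm)
    have gT := Nat.eq_of_mul_eq_mul_right (by omega : 0 < q - 1) ((mul_assoc _ _ _).trans fT)
    obtain ⟨j, hj⟩ : ∃ j, q = j + 2 := ⟨q - 2, by omega⟩
    obtain ⟨a, rfl⟩ : ∃ a, kp = a + 1 := ⟨kp - 1, by omega⟩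
    obtain ⟨b, rfl⟩ : ∃ b, km = b + 1 := ⟨km - 1, by omega⟩
    have hab : a + b = 2 * q := by
      have : a + 1 + (b + 1) = 2 * q + 2 := hsum
      omega
    have e1 : 2 * (q - 1) - 2 = 2 * j := by omega
    have e2 : q - 1 = j + 1 := by omega
    have e3 : 4 * q - 3 = 3 * q + (q - 3) := by omega
    rw [e1, e2, show 4 * (a + 1) - 4 = 4 * a by omega, show 4 * (b + 1) - 4 = 4 * b by omega, ← mul_assoc,
      ← mul_assoc, ← mul_assoc, gp, gm, gT]
    have e4 : j + 1 + j + 2 * q = 4 * q - 3 := by omega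
    rw [← e4]
    calc (j + 1) * q ^ 2 + q ^ 2 * j + q ^ 2 * a + q ^ 2 * b = q ^ 2 * (j + 1 + j + (a + b)) := by ring
      _ = _ := by rw [hab]
  · have hc : (sol x).ncard = (sol (uS τ 1 0)).ncard := by
      rcases four_conj hF ho with h | h
      · exact sol_card_isConj h
      · rw [sol_card_isConj h, sol_inv]
    rw [hc]
    have ho4 := order_four (hF := hF)
    have hx1 : uS τ 1 0 ≠ 1 := fun e => one_ne_zero (uS_inj τ (e.trans (uS_zero τ).symm)).1
    have hx4 : uS τ 1 0 ^ 4 = 1 := by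
      have := pow_orderOf_eq_one (uS τ 1 0)
      rwa [ho4] at this
    rw [sol_unip_card Φp Φm ΦT hne1 hne2 hne3 ⟨1, 0, rfl⟩ hx4 hx1 (hsol _ hx1), hB, fix_four_T ΦT heT, hep, hem,
      ep, em]
    have fp := fix_four Φp hep
    have fm := fix_four Φm hem
    rw [ep] at fp
    rw [em] at fm
    have gp := Nat.eq_of_mul_eq_mul_right (by omega : 0 < kp) ((mul_assoc _ _ _).trans fp)
    have gm := Nat.eq_of_mul_eq_mul_right (by omega : 0 < km) ((mul_assoc _ _ _).trans fm)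
    obtain ⟨a, rfl⟩ : ∃ a, kp = a + 1 := ⟨kp - 1, by omega⟩
    obtain ⟨b, rfl⟩ : ∃ b, km = b + 1 := ⟨km - 1, by omega⟩
    have hab : a + b = 2 * q := by
      have : a + 1 + (b + 1) = 2 * q + 2 := hsum
      omega
    rw [show 4 * (a + 1) - 4 = 4 * a by omega, show 4 * (b + 1) - 4 = 4 * b by omega, ← mul_assoc, ← mul_assoc,
      gp, gm, zero_mul, add_zero]
    obtain ⟨j, hj⟩ : ∃ j, q = j + 1 := ⟨q - 1, by omega⟩
    rw [show q - 1 = j by omega]
    calc j * q ^ 2 + 2 * q * a + 2 * q * b = q * (j * q + 2 * (a + b)) := by ring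
      _ = q * (j * q + 2 * (2 * q)) := by rw [hab]
      _ = _ := by rw [hj]; ring
  · -- torus
    have hxq : x ^ (q - 1) = 1 := orderOf_dvd_iff_pow_eq_one.mp hd
    have hcop : ∀ {k : ℕ}, Nat.Coprime (q - 1) k → Nat.Coprime (orderOf x) k := fun h => h.of_dvd_left hd
    obtain ⟨-, g, v, hv⟩ : x ∈ conjSet (tS τ).range := by
      rcases trichotomy hF hx with ⟨-, g, hg⟩ | h | h
      · exfalso
        have h1 : x ^ (q ^ 2) = 1 := conj_pow_eq_one (g := g) (unip_pow hF hg)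
        have h2 : Nat.Coprime (q - 1) (q ^ 2) := by
          refine Nat.Coprime.pow_right _ ?_
          rw [show q = 2 ^ (2 * m + 1) from hq] at hoT ⊢
          exact Nat.Coprime.pow_right _ (Nat.prime_two.coprime_iff_not_dvd.mpr
            fun h => (Nat.not_even_iff_odd.mpr hoT) (even_iff_two_dvd.mpr h)).symm
        exact hx (orderOf_eq_one_iff.mp (Nat.eq_one_of_dvd_coprimes h2 hd (orderOf_dvd_of_pow_eq_one h1)))
      · exact h
      · exfalso
        exact hx (orderOf_eq_one_iff.mp (Nat.eq_one_of_dvd_coprimes (hcq _ dvd_rfl).2.1.symm hd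
          (orderOf_dvd_of_pow_eq_one h.2)))
    have hcj : IsConj x (tS τ v) := isConj_iff.mpr ⟨g⁻¹, by rw [inv_inv]; exact hv.symm⟩
    rw [sol_card_isConj hcj]
    have hord : orderOf (tS τ v) = orderOf x := by
      rw [hv, show g⁻¹ * x * g = MulAut.conj g⁻¹ x by simp, MulEquiv.orderOf_eq]
    have hv1 : v ≠ 1 := fun e => hx (by
      rw [e, map_one, orderOf_one] at hord
      exact orderOf_eq_one_iff.mp hord.symm)
    have hy1 : tS τ v ≠ 1 := fun e => hx (by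
      rw [e, orderOf_one] at hord
      exact orderOf_eq_one_iff.mp hord.symm)
    have hs : ∀ k, k ∣ q ^ 2 + 1 → Nat.Coprime (orderOf (tS τ v)) (2 * 2 * k) := fun k hk => by
      rw [hord]
      have h2 : Nat.Coprime (q - 1) 2 := (Nat.prime_two.coprime_iff_not_dvd.mpr
        fun h => (Nat.not_even_iff_odd.mpr hoT) (even_iff_two_dvd.mpr h)).symm
      exact hcop ((h2.mul_right h2).mul_right (hcq k hk).2.1.symm)
    rw [hsol _ hy1, both_empty (N := Φp.N) hy1 (hNp ▸ hs kp hkpd), both_empty (N := Φm.N) hy1 (hNm ▸ hs km hkmd),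
      both_self (N := ΦT.N) (ΦT.le ⟨v, rfl⟩) (ΦT.own_coset ⟨v, rfl⟩ hy1), torus_sol_set hv1, Set.union_empty,
      Set.union_empty]
    refine (torus_union_card (hF := hF) hm).trans ?_
    rw [hB]; ring
  · -- plus
    have hxw : x ∈ wset hF := ⟨hx, orderOf_dvd_iff_pow_eq_one.mp (hd.trans hkpd)⟩
    rcases hwcov x hxw with ⟨-, g, hg⟩ | ⟨-, g, hg⟩
    swap
    · exfalso
      have h2 := Subgroup.orderOf_dvd_natCard _ hg
      rw [em, show g⁻¹ * x * g = MulAut.conj g⁻¹ x by simp, MulEquiv.orderOf_eq] at h2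
      exact hx (orderOf_eq_one_iff.mp (Nat.eq_one_of_dvd_coprimes hco hd h2))
    set y := g⁻¹ * x * g with hy
    have hord : orderOf y = orderOf x := by
      rw [hy, show g⁻¹ * x * g = MulAut.conj g⁻¹ x by simp, MulEquiv.orderOf_eq]
    have hy1 : y ≠ 1 := fun e => hx (by rw [e, orderOf_one] at hord; exact orderOf_eq_one_iff.mp hord.symm)
    rw [sol_card_isConj (isConj_iff.mpr ⟨g⁻¹, by rw [inv_inv]⟩ : IsConj x y)]
    have hyd : orderOf y ∣ kp := hord ▸ hd
    obtain ⟨c1, c2, c3⟩ := hcq kp hkpd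
    rw [hsol _ hy1, both_empty (N := bor τ) hy1 (hB ▸ ((c2.mul_right (c1.pow_right 2)).of_dvd_left hyd)),
      both_empty (N := ΦT.N) hy1 (hNT ▸ ((c3.mul_right c2).of_dvd_left hyd)),
      both_empty (N := Φm.N) hy1 (hNm ▸ (((c3.mul_right c3).mul_right hco).of_dvd_left hyd)),
      both_self (N := Φp.N) (Φp.le hg) (Φp.own_coset hg hy1), Set.empty_union, Set.empty_union, Set.union_empty,
      ← Nat.card_coe_set_eq]
    exact hNp.trans (by ring)
  · -- minus
    have hxw : x ∈ wset hF := ⟨hx, orderOf_dvd_iff_pow_eq_one.mp (hd.trans hkmd)⟩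
    rcases hwcov x hxw with ⟨-, g, hg⟩ | ⟨-, g, hg⟩
    · exfalso
      have h2 := Subgroup.orderOf_dvd_natCard _ hg
      rw [ep, show g⁻¹ * x * g = MulAut.conj g⁻¹ x by simp, MulEquiv.orderOf_eq] at h2
      exact hx (orderOf_eq_one_iff.mp (Nat.eq_one_of_dvd_coprimes hco.symm hd h2))
    set y := g⁻¹ * x * g with hy
    have hord : orderOf y = orderOf x := by
      rw [hy, show g⁻¹ * x * g = MulAut.conj g⁻¹ x by simp, MulEquiv.orderOf_eq]
    have hy1 : y ≠ 1 := fun e => hx (by rw [e, orderOf_one] at hord; exact orderOf_eq_one_iff.mp hord.symm)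
    rw [sol_card_isConj (isConj_iff.mpr ⟨g⁻¹, by rw [inv_inv]⟩ : IsConj x y)]
    have hyd : orderOf y ∣ km := hord ▸ hd
    obtain ⟨c1, c2, c3⟩ := hcq km hkmd
    rw [hsol _ hy1, both_empty (N := bor τ) hy1 (hB ▸ ((c2.mul_right (c1.pow_right 2)).of_dvd_left hyd)),
      both_empty (N := ΦT.N) hy1 (hNT ▸ ((c3.mul_right c2).of_dvd_left hyd)),
      both_empty (N := Φp.N) hy1 (hNp ▸ (((c3.mul_right c3).mul_right hco.symm).of_dvd_left hyd)),
      both_self (N := Φm.N) (Φm.le hg) (Φm.own_coset hg hy1), Set.empty_union, Set.empty_union, Set.empty_union,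
      ← Nat.card_coe_set_eq]
    exact hNm.trans (by ring)

end Cfsg.Agent.SzC
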