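import Mathlib
import Cfsg.Agent.Lib.SzC.UnipClasses
import Cfsg.Agent.Lib.SzB.Auto
import Cfsg.Agent.Lib.SzO.Maximal

/-!
# Subfield subgroups
-/

set_option autoImplicit false

open scoped Matrix

namespace Cfsg.Agent.SzC

open Cfsg.Agent.SzB

variable {F K : Type*} [Field F] [CharP F 2] [Fintype F] [Field K] [CharP K 2] [Fintype K] {m k : ℕ}
  {hF : Fintype.card F = 2 ^ (2 * m + 1)} {hK : Fintype.card K = 2 ^ (2 * k + 1)}
  (ι : K →+* F) (hι : ∀ x, ι ((stdTwist hK).th x) = (stdTwist hF).th (ι x))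

include hι in
theorem map_mem_subfield {g : GL (Fin 4) K} (hg : g ∈ Cfsg.Lie.Sz K (stdTwist hK).e) :
    Units.map (ι.mapMatrix : Matrix (Fin 4) (Fin 4) K →+* _).toMonoidHom g ∈ Cfsg.Lie.Sz F (stdTwist hF).e := by
  obtain ⟨hJ, hs⟩ := mem_facts (stdTwist hK) hg
  refine Subgroup.subset_closure ⟨?_, ?_⟩
  · show ∀ u v, Cfsg.Lie.altForm4 (((g : Matrix (Fin 4) (Fin 4) K).map ι) *ᵥ u)
      (((g : Matrix (Fin 4) (Fin 4) K).map ι) *ᵥ v) = Cfsg.Lie.altForm4 u v
    rw [Cfsg.Agent.SuzukiFix.preserve_iff]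
    have hJσ : (Cfsg.Agent.SuzukiFix.antiJ : Matrix (Fin 4) (Fin 4) K).map ι = Cfsg.Agent.SuzukiFix.antiJ := by
      ext i j
      fin_cases i <;> fin_cases j <;> simp [Cfsg.Agent.SuzukiFix.antiJ]
    conv_lhs => rw [← hJσ]
    rw [← Matrix.transpose_map, ← Matrix.map_mul, ← Matrix.map_mul, hJ, hJσ]
  · show Cfsg.Lie.star4 ((g : Matrix (Fin 4) (Fin 4) K).map ι) =
      ((g : Matrix (Fin 4) (Fin 4) K).map ι).map fun x => x ^ (stdTwist hF).e
    ext p r
    have h := congrArg ι (hs p r)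
    rw [hι, (stdTwist hF).th_apply] at h
    simp only [Cfsg.Lie.star4, Matrix.map_apply, Matrix.of_apply, map_sub, map_mul] at h ⊢
    exact h

/-- the subfield embedding -/
def psi : SG hK →* SG hF where
  toFun g := ⟨Units.map (ι.mapMatrix : Matrix (Fin 4) (Fin 4) K →+* _).toMonoidHom g.1, map_mem_subfield ι hι g.2⟩
  map_one' := Subtype.ext (map_one (Units.map (ι.mapMatrix : Matrix (Fin 4) (Fin 4) K →+* _).toMonoidHom))
  map_mul' x y := Subtype.ext
    (map_mul (Units.map (ι.mapMatrix : Matrix (Fin 4) (Fin 4) K →+* _).toMonoidHom) x.1 y.1)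

theorem psi_injective : Function.Injective (psi (hF := hF) (hK := hK) ι hι) := by
  intro x y h
  have h' := congrArg (fun g : SG hF => ((g : GL (Fin 4) F) : Matrix (Fin 4) (Fin 4) F)) h
  refine Subtype.ext (Units.ext ?_)
  exact Matrix.map_injective ι.injective h'

theorem psi_lS (a b : K) : psi ι hι (lS (stdTwist hK) a b) = lS (stdTwist hF) (ι a) (ι b) := by
  refine Subtype.ext (Units.ext ?_)
  show (lm (stdTwist hK) a b).map ι = lm (stdTwist hF) (ι a) (ι b)
  ext i j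
  fin_cases i <;> fin_cases j <;> simp [lm, corner, ← hι]

theorem psi_tS (u : Kˣ) : psi ι hι (tS (stdTwist hK) u) = tS (stdTwist hF) (Units.map ι.toMonoidHom u) := by
  refine Subtype.ext (Units.ext ?_)
  show (tm (stdTwist hK) u).map ι = tm (stdTwist hF) (Units.map ι.toMonoidHom u)
  ext i j
  fin_cases i <;> fin_cases j <;> simp [tm, ← hι, map_div₀]

theorem psi_wS : psi ι hι (wS (stdTwist hK)) = wS (stdTwist hF) := by
  refine Subtype.ext (Units.ext ?_)
  show (Cfsg.Agent.SuzukiFix.antiJ : Matrix (Fin 4) (Fin 4) K).map ι = Cfsg.Agent.SuzukiFix.antiJ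
  ext i j
  fin_cases i <;> fin_cases j <;> simp [Cfsg.Agent.SuzukiFix.antiJ]

theorem psi_uS (a b : K) : psi ι hι (uS (stdTwist hK) a b) = uS (stdTwist hF) (ι a) (ι b) := by
  rw [uS, uS, map_mul, map_mul, psi_wS, psi_lS]

/-- members of the subfield are the roots of `X ^ s - X` -/
theorem mem_range_of_pow (ι : K →+* F) {y : F} (hy : y ^ Fintype.card K = y) : y ∈ Set.range ι := by
  classical
  have h1 : (Polynomial.X ^ Fintype.card K - Polynomial.X : Polynomial F) ≠ 0 :=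
    FiniteField.X_pow_card_sub_X_ne_zero F Fintype.one_lt_card
  set R := (Polynomial.X ^ Fintype.card K - Polynomial.X : Polynomial F).roots.toFinset
  have hsub : Finset.univ.image ι ⊆ R := by
    intro z hz
    obtain ⟨x, -, rfl⟩ := Finset.mem_image.mp hz
    rw [Multiset.mem_toFinset, Polynomial.mem_roots h1]
    simp [← map_pow, FiniteField.pow_card]
  have hle : R.card ≤ (Finset.univ.image ι).card := by
    rw [Finset.card_image_of_injective _ ι.injective, Finset.card_univ]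
    refine (Multiset.toFinset_card_le _).trans ((Polynomial.card_roots' _).trans ?_)
    rw [FiniteField.X_pow_card_sub_X_natDegree_eq F Fintype.one_lt_card]
  have hyR : y ∈ R := by
    rw [Multiset.mem_toFinset, Polynomial.mem_roots h1]
    simp [hy]
  rw [← Finset.eq_of_subset_of_card_le hsub hle] at hyR
  obtain ⟨x, -, hx⟩ := Finset.mem_image.mp hyR
  exact ⟨x, hx⟩

theorem units_mem_range (ι : K →+* F) {v : Fˣ} (hv : v ^ (Fintype.card K - 1) = 1) :
    ∃ w : Kˣ, Units.map ι.toMonoidHom w = v := by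
  obtain ⟨x, hx⟩ := mem_range_of_pow ι (y := (v : F)) (by
    conv_lhs => rw [show Fintype.card K = Fintype.card K - 1 + 1 by have := Fintype.card_pos (α := K); omega]
    rw [pow_succ, ← Units.val_pow_eq_pow_val, hv, Units.val_one, one_mul])
  have hx0 : x ≠ 0 := fun h => v.ne_zero (by rw [← hx, h, map_zero])
  exact ⟨Units.mk0 x hx0, Units.ext hx⟩

theorem th_mul_self_eq_one {y : F} (h : (stdTwist hF).th y * y = 1) : y = 1 := by
  have h1 := congrArg (stdTwist hF).th h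
  rw [map_mul, map_one, Twist.th_th] at h1
  have h2 : y * ((stdTwist hF).th y * y) = 1 := by
    calc y * ((stdTwist hF).th y * y) = y ^ 2 * (stdTwist hF).th y := by ring
      _ = 1 := h1
  rwa [h, mul_one] at h2

theorem lower_cell (c : F) (hc : c ≠ 0) :
    (uS (stdTwist hF) (c / (stdTwist hF).th c) 0 * wS (stdTwist hF))⁻¹ * lS (stdTwist hF) 0 c ∈
      bor (stdTwist hF) := by
  set τ := stdTwist hF
  have ht : τ.th c ≠ 0 := fun h => hc (τ.th_inj h)
  have key : colS τ (lS τ 0 c) = τ.th c • colS τ (uS τ (c / τ.th c) 0 * wS τ) := by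
    rw [SzO.colS_cell]
    funext i
    fin_cases i <;>
      simp [colS, col, lS, lg_coe, lm, corner, map_div₀, Twist.th_th, Matrix.vecHead, Matrix.vecTail]
    all_goals field_simp
  refine ⟨τ.th c, ?_⟩
  have := colS_scale τ key (uS τ (c / τ.th c) 0 * wS τ)⁻¹
  rwa [inv_mul_cancel] at this

variable (hF hK) in
/-- a hom with injective restriction cannot put both torus and involution in the point stabiliser -/
theorem wS_not_mem (φ : SG hK →* SG hF) (hφ : Function.Injective φ) {u : Kˣ} (hu : u ≠ 1)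
    (ht : φ (tS (stdTwist hK) u) ∈ bor (stdTwist hF)) : φ (wS (stdTwist hK)) ∉ bor (stdTwist hF) := by
  intro hw
  set τ := stdTwist hF
  set t := φ (tS (stdTwist hK) u) with htdef
  set w := φ (wS (stdTwist hK)) with hwdef
  have hww : w * w = 1 := by rw [hwdef, ← map_mul, wS_sq, map_one]
  have e : w * t * w = t⁻¹ := by rw [hwdef, htdef, ← map_mul, ← map_mul, wS_tS, map_inv]
  have h1 : sc τ (w * t * w) = sc τ t⁻¹ := congrArg (sc τ) e
  rw [sc_mul τ (mul_mem hw ht) hw, sc_mul τ hw ht] at h1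
  have h2 : sc τ w * sc τ w = 1 := by rw [← sc_mul τ hw hw, hww]; simp [sc, colS, col]
  have h3 : sc τ t * sc τ t⁻¹ = 1 := by rw [← sc_mul τ ht (inv_mem ht), mul_inv_cancel]; simp [sc, colS, col]
  have h4 : sc τ t * sc τ t = 1 := by
    linear_combination (sc τ t) * h1 - (sc τ t * sc τ t) * h2 + h3
  have h5 : sc τ t = 1 := frobenius_inj F 2 (by simpa [frobenius_def, pow_two] using h4)
  have h6 := unip_pow hF (sc_eq_one hF ht h5)
  have h7 : t ^ (2 ^ (2 * k + 1) - 1) = 1 := by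
    rw [htdef, ← map_pow, ← map_pow, show u ^ (2 ^ (2 * k + 1) - 1) = 1 by
      rw [← hK]; exact Units.ext (by simpa using FiniteField.pow_card_sub_one_eq_one (u : K) u.ne_zero), map_one,
      map_one]
  have hco : Nat.Coprime ((2 ^ (2 * m + 1)) ^ 2) (2 ^ (2 * k + 1) - 1) := by
    rw [← pow_mul]
    refine Nat.Coprime.pow_left _ (Nat.prime_two.coprime_iff_not_dvd.mpr fun h => ?_)
    have : Odd (2 ^ (2 * k + 1) - 1) := Nat.Even.sub_odd Nat.one_le_two_pow (by simp [Nat.even_pow]) odd_one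
    exact (Nat.not_even_iff_odd.mpr this) (even_iff_two_dvd.mpr h)
  have h8 : t = 1 := orderOf_eq_one_iff.mp
    (Nat.eq_one_of_dvd_coprimes hco (orderOf_dvd_of_pow_eq_one h6) (orderOf_dvd_of_pow_eq_one h7))
  rw [htdef, ← map_one φ, hφ.eq_iff, ← map_one (tS (stdTwist hK))] at h8
  exact hu (SzO.tS_injective _ h8)

/-- replacing a hom by a conjugate -/
def conjHom (φ : SG hK →* SG hF) (g : SG hF) : SG hK →* SG hF := (MulAut.conj g).toMonoidHom.comp φ

theorem conjHom_apply (φ : SG hK →* SG hF) (g : SG hF) (x : SG hK) : conjHom φ g x = g * φ x * g⁻¹ := rfl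

/-- every embedding is conjugate to the standard one -/
theorem embedding_conj (hk : 1 ≤ k) (φ : SG hK →* SG hF) (hφ : Function.Injective φ) :
    ∃ g : SG hF, (psi (hK := hK) ι hι).range.map (MulAut.conj g).toMonoidHom = φ.range := by
  classical
  haveI : Fintype (SG hF) := Fintype.ofFinite _
  haveI : Fintype (SG hK) := Fintype.ofFinite _
  haveI : Fact (Nat.Prime 2) := ⟨Nat.prime_two⟩
  set τ := stdTwist hF
  set σ := stdTwist hK
  -- unipotent subgroup into the standard one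
  have hP : IsPGroup 2 ((unip σ).map φ) :=
    (IsPGroup.of_card (n := 2 * (2 * k + 1)) (by rw [card_unip, hK, ← pow_mul, mul_comm]) :
      IsPGroup 2 (unip σ)).map φ
  obtain ⟨Q, hQ⟩ := hP.exists_le_sylow
  obtain ⟨g1, hg1⟩ := MulAction.exists_smul_eq (SG hF) Q (sylTwo hF τ)
  have hU1 : ∀ x ∈ unip σ, conjHom φ g1 x ∈ unip τ := by
    intro x hx
    have h : g1 * φ x * g1⁻¹ ∈ ((g1 • Q : Sylow 2 (SG hF)) : Subgroup (SG hF)) :=
      ⟨φ x, hQ (Subgroup.mem_map_of_mem φ hx), rfl⟩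
    rw [hg1, sylTwo_coe] at h
    exact h
  -- point stabiliser
  have hbor : ∀ (f : SG hK →* SG hF), Function.Injective f → (∀ x ∈ unip σ, f x ∈ unip τ) →
      ∀ x ∈ bor σ, f x ∈ bor τ := by
    intro f hf hfU x hx
    refine SzO.mem_bor_of_fixes τ (y := f (uS σ 1 0)) (hfU _ ⟨1, 0, rfl⟩) ?_ ?_
    · intro e
      rw [← map_one f, hf.eq_iff, ← uS_zero σ] at e
      exact one_ne_zero (uS_inj σ e).1
    · rw [← map_inv, ← map_mul, ← map_mul]
      refine unip_le_bor τ (hfU _ ?_)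
      have := bor_conj_unip σ (inv_mem hx) (⟨1, 0, rfl⟩ : uS σ 1 0 ∈ unip σ)
      rwa [inv_inv] at this
  have hinj : ∀ g, Function.Injective (conjHom φ g) := fun g => (MulAut.conj g).injective.comp hφ
  -- torus
  obtain ⟨u, hu⟩ := exists_unit_ne hk hK
  obtain ⟨c, a, b, hcab⟩ := (mem_bor_iff τ).mp (hbor _ (hinj g1) hU1 _ (tS_mem_bor σ u))
  have hc : c ≠ 1 := by
    intro e
    refine wS_not_mem hF hK (conjHom φ g1) (hinj g1) hu ?_ ?_
    · exact hbor _ (hinj g1) hU1 _ (tS_mem_bor σ u)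
    · exfalso
      rw [e, map_one, one_mul] at hcab
      have h6 := unip_pow hF (⟨a, b, hcab⟩ : conjHom φ g1 (tS σ u) ∈ unip τ)
      have h7 : conjHom φ g1 (tS σ u) ^ (2 ^ (2 * k + 1) - 1) = 1 := by
        rw [← map_pow, ← map_pow, show u ^ (2 ^ (2 * k + 1) - 1) = 1 by
          rw [← hK]; exact Units.ext (by simpa using FiniteField.pow_card_sub_one_eq_one (u : K) u.ne_zero),
          map_one, map_one]
      have hco : Nat.Coprime ((2 ^ (2 * m + 1)) ^ 2) (2 ^ (2 * k + 1) - 1) := by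
        rw [← pow_mul]
        refine Nat.Coprime.pow_left _ (Nat.prime_two.coprime_iff_not_dvd.mpr fun h => ?_)
        have : Odd (2 ^ (2 * k + 1) - 1) := Nat.Even.sub_odd Nat.one_le_two_pow (by simp [Nat.even_pow]) odd_one
        exact (Nat.not_even_iff_odd.mpr this) (even_iff_two_dvd.mpr h)
      have h8 : conjHom φ g1 (tS σ u) = 1 := orderOf_eq_one_iff.mp
        (Nat.eq_one_of_dvd_coprimes hco (orderOf_dvd_of_pow_eq_one h6) (orderOf_dvd_of_pow_eq_one h7))
      rw [← map_one (conjHom φ g1), (hinj g1).eq_iff, ← map_one (tS σ)] at h8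
      exact hu (SzO.tS_injective _ h8)
  obtain ⟨⟨p, hp⟩, hpc⟩ : ∃ p : unip τ, (p : SG hF) * tS τ c * (p : SG hF)⁻¹ = tS τ c * uS τ a b := by
    let f : unip τ → unip τ := fun p =>
      ⟨(tS τ c)⁻¹ * p * tS τ c * (p : SG hF)⁻¹, mul_mem (by
        have := tS_conj_unip τ c⁻¹ p.2
        simpa using this) (inv_mem p.2)⟩
    have hf : Function.Injective f := by
      intro p r h
      have h' : (tS τ c)⁻¹ * (p : SG hF) * tS τ c * (p : SG hF)⁻¹ = (tS τ c)⁻¹ * r * tS τ c * (r : SG hF)⁻¹ :=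
        congrArg Subtype.val h
      have hcomm : ((r : SG hF)⁻¹ * p) * tS τ c = tS τ c * ((r : SG hF)⁻¹ * p) := by
        calc ((r : SG hF)⁻¹ * p) * tS τ c
            = (r : SG hF)⁻¹ * tS τ c * ((tS τ c)⁻¹ * (p : SG hF) * tS τ c * (p : SG hF)⁻¹) * p := by group
          _ = _ := by rw [h']; group
      obtain ⟨d, hd⟩ := cent_torus τ hc hcomm
      obtain ⟨a', b', he⟩ := mul_mem (inv_mem r.2) p.2
      rw [he] at hd
      have := bor_unique τ (show tS τ d * uS τ 0 0 = tS τ 1 * uS τ a' b' by rw [uS_zero, mul_one, map_one, one_mul, hd])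
      rw [← this.2.1, ← this.2.2, uS_zero] at he
      exact Subtype.ext (inv_mul_eq_one.mp he).symm
    obtain ⟨p, hp⟩ := (Finite.injective_iff_surjective.mp hf) ⟨uS τ a b, a, b, rfl⟩
    refine ⟨p, ?_⟩
    rw [show uS τ a b = (tS τ c)⁻¹ * p * tS τ c * (p : SG hF)⁻¹ from congrArg Subtype.val hp.symm]
    group
  set g2 := p⁻¹ * g1 with hg2
  have hU2 : ∀ x ∈ unip σ, conjHom φ g2 x ∈ unip τ := by
    intro x hx
    have := mul_mem (mul_mem (inv_mem hp) (hU1 x hx)) hp
    convert this using 1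
    rw [conjHom_apply, conjHom_apply, hg2]; group
  have ht2 : conjHom φ g2 (tS σ u) = tS τ c := by
    have e : conjHom φ g2 (tS σ u) = p⁻¹ * conjHom φ g1 (tS σ u) * p := by
      rw [conjHom_apply, conjHom_apply, hg2]; group
    rw [e, hcab, ← hpc]; group
  have hT2 : ∀ w : Kˣ, ∃ w' : Kˣ, conjHom φ g2 (tS σ w) = tS τ (Units.map ι.toMonoidHom w') := by
    intro w
    have hcomm : conjHom φ g2 (tS σ w) * tS τ c = tS τ c * conjHom φ g2 (tS σ w) := by
      rw [← ht2, ← map_mul, ← map_mul, ← map_mul, ← map_mul, mul_comm]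
    obtain ⟨v, hv⟩ := cent_torus τ hc hcomm
    obtain ⟨w', hw'⟩ := units_mem_range ι (v := v) (SzO.tS_injective τ (by
      rw [map_pow, hv, ← map_pow, ← map_pow, map_one,
        show w ^ (Fintype.card K - 1) = 1 from Units.ext (by simpa using FiniteField.pow_card_sub_one_eq_one (w : K) w.ne_zero),
        map_one, map_one]))
    exact ⟨w', by rw [hw', hv]⟩
  obtain ⟨b0, hb0, hs0⟩ : ∃ b0 : F, b0 ≠ 0 ∧ conjHom φ g2 (uS σ 0 1) = uS τ 0 b0 := by
    obtain ⟨A, B, h⟩ := hU2 _ ⟨0, 1, rfl⟩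
    have h2 : uS τ A B ^ 2 = 1 := by rw [← h, ← map_pow, uS_sq, map_zero, zero_mul, uS_zero, map_one]
    obtain rfl := SzO.sq_eq_one τ h2
    refine ⟨B, fun e => ?_, h⟩
    rw [e, uS_zero, ← map_one (conjHom φ g2), (hinj g2).eq_iff, ← uS_zero σ] at h
    exact one_ne_zero (uS_inj σ h).2
  obtain ⟨v, hv⟩ := (th_bijective hF).2 b0
  have hv0 : v ≠ 0 := fun e => hb0 (by rw [← hv, e, map_zero])
  set z := tS τ (Units.mk0 v hv0)⁻¹ with hz
  set g3 := z * g2 with hg3
  set ψ := conjHom φ g3 with hψ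
  have hψ2 : ∀ x, ψ x = z * conjHom φ g2 x * z⁻¹ := fun x => by
    rw [hψ, conjHom_apply, conjHom_apply, hg3]; group
  have hU : ∀ x ∈ unip σ, ψ x ∈ unip τ := fun x hx => by
    rw [hψ2, hz]; exact tS_conj_unip τ _ (hU2 x hx)
  have hψi : Function.Injective ψ := hinj g3
  have hT : ∀ w : Kˣ, ∃ w' : Kˣ, ψ (tS σ w) = tS τ (Units.map ι.toMonoidHom w') := by
    intro w
    obtain ⟨w', h⟩ := hT2 w
    exact ⟨w', by rw [hψ2, h, hz, ← map_inv, ← map_mul, ← map_mul, mul_right_comm, mul_inv_cancel, one_mul]⟩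
  have hs1 : ψ (uS σ 0 1) = uS τ 0 1 := by
    rw [hψ2, hs0, hz, tS_uS]
    simp only [zero_mul, zero_div, inv_inv, Units.val_mk0]
    rw [hv, div_self hb0]
  -- the torus in the image
  have hTsurj : ∀ w' : Kˣ, ∃ w : Kˣ, ψ (tS σ w) = tS τ (Units.map ι.toMonoidHom w') := by
    choose f hf using hT
    have hfi : Function.Injective f := fun x y h => SzO.tS_injective σ (hψi (by rw [hf x, hf y, h]))
    intro w'
    obtain ⟨w, rfl⟩ := Finite.injective_iff_surjective.mp hfi w'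
    exact ⟨w, hf w⟩
  -- centre
  have hZ : ∀ x : K, ∃ y : K, ψ (uS σ 0 x) = uS τ 0 (ι y) := by
    intro x
    by_cases hx : x = 0
    · exact ⟨0, by rw [hx, uS_zero, map_one, map_zero, uS_zero]⟩
    obtain ⟨r, hr⟩ := (th_bijective hK).2 x
    have hr0 : r ≠ 0 := fun e => hx (by rw [← hr, e, map_zero])
    obtain ⟨w', hw'⟩ := hT (Units.mk0 r hr0)
    refine ⟨σ.th (w' : K), ?_⟩
    have e : uS σ 0 x = tS σ (Units.mk0 r hr0) * uS σ 0 1 * (tS σ (Units.mk0 r hr0))⁻¹ := by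
      rw [tS_uS]
      simp only [zero_mul, zero_div, Units.val_inv_eq_inv_val, Units.val_mk0, map_inv₀, one_div, inv_inv]
      rw [hr]
    rw [e, map_mul, map_mul, map_inv, hw', hs1, tS_uS]
    simp only [zero_mul, zero_div, Units.val_inv_eq_inv_val, map_inv₀, one_div, inv_inv, Units.coe_map]
    exact congrArg _ (hι _).symm
  have hZsurj : ∀ y : K, ∃ x : K, ψ (uS σ 0 x) = uS τ 0 (ι y) := by
    choose f hf using hZ
    have hfi : Function.Injective f := fun x y h => (uS_inj σ (hψi (by rw [hf x, hf y, h]))).2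
    intro y
    obtain ⟨x, rfl⟩ := Finite.injective_iff_surjective.mp hfi y
    exact ⟨x, hf x⟩
  -- the involution outside
  obtain ⟨c', hc'⟩ := hT u
  have hwnot : ψ (wS σ) ∉ bor τ := wS_not_mem hF hK ψ hψi hu (hc' ▸ tS_mem_bor τ _)
  have hc'1 : Units.map ι.toMonoidHom c' ≠ 1 := fun e => hu (SzO.tS_injective σ (hψi (by
    rw [hc', e, map_one, map_one, map_one])))
  obtain ⟨a0, ha0⟩ : ∃ a0, ψ (wS σ) = wS τ * tS τ a0 := by
    have hconj : ψ (wS σ) * tS τ (Units.map ι.toMonoidHom c') * (ψ (wS σ))⁻¹ =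
        tS τ (Units.map ι.toMonoidHom c')⁻¹ := by
      rw [← hc', ← map_inv ψ, ← map_mul, ← map_mul, inv_eq_of_mul_eq_one_right (wS_sq σ), wS_tS, map_inv,
        hc', ← map_inv]
    rcases torus_norm τ hc'1 hconj with ⟨r, hr, -⟩ | ⟨r, hr, -⟩
    · exact absurd (hr ▸ tS_mem_bor τ r) hwnot
    · exact ⟨r, hr⟩
  have hy : lS σ 0 1 ∉ bor σ := fun h => one_ne_zero (lS_mem_bor σ h).2
  obtain ⟨pa, pb, hcell⟩ := exists_cell σ hy
  obtain ⟨A, B, hAB⟩ := hU (uS σ pa pb) ⟨pa, pb, rfl⟩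
  set d := τ.th (a0 : F) with hd
  have hd0 : d ≠ 0 := fun e => a0.ne_zero (τ.th_inj e)
  have hwinv : (wS τ)⁻¹ = wS τ := inv_eq_of_mul_eq_one_right (wS_sq τ)
  have hX : ψ (lS σ 0 1) = lS τ 0 d * (tS τ a0)⁻¹ * tS τ a0 := by
    have e : lS σ 0 1 = wS σ * uS σ 0 1 * wS σ := by
      rw [uS]; simp only [mul_assoc, wS_sq, mul_one]; rw [← mul_assoc, wS_sq, one_mul]
    have e2 : tS τ a0 * uS τ 0 1 * (tS τ a0)⁻¹ = uS τ 0 d := by
      rw [tS_uS]
      simp only [zero_mul, zero_div, Units.val_inv_eq_inv_val, map_inv₀, one_div, inv_inv]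
      rfl
    have e3 : lS τ 0 d = wS τ * uS τ 0 d * wS τ := by
      rw [uS]; simp only [mul_assoc, wS_sq, mul_one]; rw [← mul_assoc, wS_sq, one_mul]
    have e4 : tS τ a0 * wS τ = wS τ * (tS τ a0)⁻¹ := by
      rw [← wS_tS, ← mul_assoc, ← mul_assoc, wS_sq, one_mul]
    rw [e, map_mul, map_mul, hs1, ha0, e3, ← e2]
    calc wS τ * tS τ a0 * uS τ 0 1 * (wS τ * tS τ a0)
        = wS τ * (tS τ a0 * uS τ 0 1 * (tS τ a0)⁻¹) * (tS τ a0 * wS τ) * tS τ a0 := by group
      _ = _ := by rw [e4]; group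
  have himg : (uS τ A B * wS τ)⁻¹ * lS τ 0 d ∈ bor τ := by
    have h := hbor ψ hψi hU _ hcell
    rw [map_mul, map_inv, map_mul, hAB, ha0, hX] at h
    have h' := mul_mem (mul_mem (tS_mem_bor τ a0) h) (one_mem (bor τ))
    convert h' using 1
    group
  obtain ⟨hA, hB⟩ := cell_unique τ (show (uS τ A B * wS τ)⁻¹ * (uS τ (d / τ.th d) 0 * wS τ) ∈ bor τ by
    have hl : (uS τ (d / τ.th d) 0 * wS τ)⁻¹ * lS τ 0 d ∈ bor τ := lower_cell d hd0
    have := mul_mem himg (inv_mem hl)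
    convert this using 1
    group)
  subst hA hB
  -- all parameters lie in the subfield
  set A := d / τ.th d with hA
  set N := Fintype.card K - 1
  have hA0 : A ≠ 0 := div_ne_zero hd0 (fun e => hd0 (τ.th_inj e))
  have hpow : ∀ y : K, y ≠ 0 → (ι y) ^ N = 1 := fun y hy => by
    rw [← map_pow, FiniteField.pow_card_sub_one_eq_one y hy, map_one]
  have hAN : A ^ N = 1 := by
    apply th_mul_self_eq_one (hF := hF)
    obtain ⟨y, hy⟩ := hZ (σ.th pa * pa)
    have hsq : ψ (uS σ pa pb) ^ 2 = uS τ A 0 ^ 2 := congrArg (· ^ 2) hAB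
    rw [← map_pow, uS_sq, uS_sq, hy] at hsq
    have h2 := (uS_inj τ hsq).2
    have hy0 : y ≠ 0 := fun e => by
      rw [e, map_zero] at h2
      exact (mul_ne_zero (fun e => hA0 (τ.th_inj e)) hA0) h2.symm
    rw [map_pow, ← mul_pow, ← h2, hpow y hy0]
  have hdN : d ^ N = 1 := by
    have h : d ^ N = τ.th (d ^ N) := by
      rw [hA, div_pow, div_eq_one_iff_eq (pow_ne_zero _ (fun e => hd0 (τ.th_inj e)))] at hAN
      rw [map_pow, hAN]
    rcases th_fixed hF h.symm with h' | h'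
    · exact absurd h' (pow_ne_zero _ hd0)
    · exact h'
  obtain ⟨w0, hw0⟩ := units_mem_range ι (v := a0) (Units.ext (by
    rw [Units.val_pow_eq_pow_val, Units.val_one]
    apply τ.th.injective
    rw [map_pow, map_one]
    exact hdN))
  have hwS : wS τ ∈ ψ.range := by
    obtain ⟨w, hw⟩ := hTsurj w0
    refine ⟨wS σ * (tS σ w)⁻¹, ?_⟩
    rw [map_mul, map_inv, hw, hw0, ha0, mul_inv_cancel_right]
  obtain ⟨A', hA'⟩ := mem_range_of_pow ι (y := A) (by
    conv_lhs => rw [show Fintype.card K = N + 1 by have := Fintype.card_pos (α := K); omega]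
    rw [pow_succ, hAN, one_mul])
  have hA'0 : A' ≠ 0 := fun e => hA0 (by rw [← hA', e, map_zero])
  have hrow : ∀ x : K, uS τ (ι x) 0 ∈ ψ.range := by
    intro x
    by_cases hx : x = 0
    · rw [hx, map_zero, uS_zero]; exact one_mem _
    obtain ⟨r, hr⟩ := (units_mult_bijective hK).2 (Units.mk0 (x / A') (div_ne_zero hx hA'0))
    obtain ⟨w, hw⟩ := hTsurj r⁻¹
    refine ⟨tS σ w * uS σ pa pb * (tS σ w)⁻¹, ?_⟩
    rw [map_mul, map_mul, map_inv, hw, hAB, tS_uS]
    simp only [zero_div, map_inv, inv_inv, Units.coe_map]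
    congr 1
    have hr' : σ.th (r : K) * ((r : K) ^ 2)⁻¹ = x / A' := by simpa using congrArg Units.val hr
    rw [← hA']
    change ι A' * τ.th (ι (r : K)) / ι (r : K) ^ 2 = ι x
    rw [← hι, ← map_pow, ← map_mul, ← map_div₀]
    congr 1
    rw [mul_div_assoc, div_eq_mul_inv (σ.th (r : K)), hr', mul_div_cancel₀ _ hA'0]
  have hle : (psi (hF := hF) (hK := hK) ι hι).range ≤ ψ.range := by
    have htop : ψ.range.comap (psi ι hι) = ⊤ := by
      refine SzO.eq_top_of_unip_not_le σ (exists_unit_ne hk hK) _ ?_ ?_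
      · rintro _ ⟨a, b, rfl⟩
        show psi ι hι (uS σ a b) ∈ ψ.range
        rw [psi_uS]
        obtain ⟨x, hx⟩ := hZsurj b
        have e : uS τ (ι a) (ι b) = uS τ (ι a) 0 * uS τ 0 (ι b) := by
          rw [uS_mul, add_zero, zero_add, mul_zero, add_zero]
        rw [e]
        exact mul_mem (hrow a) ⟨_, hx⟩
      · intro h
        have : wS σ ∈ bor σ := h (show psi ι hι (wS σ) ∈ ψ.range by rw [psi_wS]; exact hwS)
        exact uw_not_mem σ 0 0 (by rwa [uS_zero, one_mul])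
    rintro _ ⟨x, rfl⟩
    have hx : x ∈ ψ.range.comap (psi ι hι) := htop ▸ Subgroup.mem_top x
    exact hx
  have heq : (psi (hF := hF) (hK := hK) ι hι).range = ψ.range := by
    refine Subgroup.eq_of_le_of_card_ge hle (le_of_eq ?_)
    rw [← Nat.card_congr (MonoidHom.ofInjective hψi).toEquiv,
      ← Nat.card_congr (MonoidHom.ofInjective (psi_injective ι hι)).toEquiv]
  refine ⟨g3⁻¹, ?_⟩
  rw [heq, hψ, conjHom, MonoidHom.range_comp, Subgroup.map_map]
  ext x
  simp [Subgroup.mem_map, mul_assoc]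

end Cfsg.Agent.SzC
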