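import Mathlib
import Cfsg.Agent.Lib.SzC.Subfield
import Cfsg.Agent.Lib.SzO.Equiv

/-!
# Subfield subgroups, for the ovoid stabiliser
-/

set_option autoImplicit false

open scoped Matrix

namespace Cfsg.Agent.SzC

open Cfsg.Agent.SzB

variable {F K : Type*} [Field F] [CharP F 2] [Fintype F] [Field K] [CharP K 2] [Fintype K] {m k : ℕ}
  (hF : Fintype.card F = 2 ^ (2 * m + 1)) (hK : Fintype.card K = 2 ^ (2 * k + 1))

theorem finrank_two {L : Type*} [Field L] [Fintype L] [Algebra (ZMod 2) L] {n : ℕ}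
    (hn : Fintype.card L = 2 ^ n) : Module.finrank (ZMod 2) L = n := by
  haveI : Fact (Nat.Prime 2) := ⟨Nat.prime_two⟩
  have h := Module.natCard_eq_pow_finrank (K := ZMod 2) (V := L)
  rw [Nat.card_eq_fintype_card, hn, Nat.card_zmod] at h
  exact (Nat.pow_right_injective le_rfl h).symm

theorem exists_embedding (hdiv : 2 * k + 1 ∣ 2 * m + 1) :
    ∃ ι : K →+* F, ∀ x, ι ((stdTwist hK).th x) = (stdTwist hF).th (ι x) := by
  haveI : Fact (Nat.Prime 2) := ⟨Nat.prime_two⟩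
  letI := ZMod.algebra K 2
  letI := ZMod.algebra F 2
  obtain ⟨f⟩ := FiniteField.nonempty_algHom_of_finrank_dvd (F := ZMod 2) (K := K) (L := F)
    (by rw [finrank_two hK, finrank_two hF]; exact hdiv)
  refine ⟨f.toRingHom, fun x => ?_⟩
  obtain ⟨j, hj⟩ := hdiv
  have hodd : Odd j := by
    rcases Nat.even_or_odd j with he | ho
    · exfalso
      have : Even (2 * m + 1) := hj ▸ he.mul_left _
      exact Nat.not_even_iff_odd.mpr ⟨m, rfl⟩ this
    · exact ho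
  obtain ⟨i, rfl⟩ := hodd
  have hm1 : m + 1 = k + 1 + (2 * k + 1) * i := by nlinarith
  show f ((stdTwist hK).th x) = (stdTwist hF).th (f x)
  rw [Twist.th_apply, Twist.th_apply, ← map_pow]
  congr 1
  show x ^ 2 ^ (k + 1) = x ^ 2 ^ (m + 1)
  rw [hm1, pow_add 2 (k + 1), pow_mul x, pow_mul 2 (2 * k + 1) i, ← hK, FiniteField.pow_card_pow]

include hF hK in
theorem sz_subfield (hm : 1 ≤ m) (hk : 1 ≤ k) (hdiv : 2 * k + 1 ∣ 2 * m + 1) :
    (∃ S : Subgroup ↥(Cfsg.Sz F m), Nonempty (↥S ≃* ↥(Cfsg.Sz K k))) ∧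
    ∀ S₁ S₂ : Subgroup ↥(Cfsg.Sz F m), Nonempty (↥S₁ ≃* ↥(Cfsg.Sz K k)) → Nonempty (↥S₂ ≃* ↥(Cfsg.Sz K k)) →
      ∃ g : ↥(Cfsg.Sz F m), S₂ = S₁.map (MulAut.conj g).toMonoidHom := by
  obtain ⟨ι, hι⟩ := exists_embedding hF hK hdiv
  set ΦF := SzO.szEquiv hm hF
  set ΦK := SzO.szEquiv hk hK
  set S0 : Subgroup ↥(Cfsg.Sz F m) := (psi (hF := hF) (hK := hK) ι hι).range.map ΦF.toMonoidHom with hS0
  refine ⟨⟨S0, ⟨?_⟩⟩, ?_⟩
  · exact (((psi (hF := hF) (hK := hK) ι hι).range.equivMapOfInjective ΦF.toMonoidHom ΦF.injective).symm.trans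
      (MonoidHom.ofInjective (psi_injective ι hι)).symm).trans ΦK
  have key : ∀ S : Subgroup ↥(Cfsg.Sz F m), Nonempty (↥S ≃* ↥(Cfsg.Sz K k)) →
      ∃ g : ↥(Cfsg.Sz F m), S = S0.map (MulAut.conj g).toMonoidHom := by
    rintro S ⟨e⟩
    let φ : SG hK →* SG hF := ΦF.symm.toMonoidHom.comp (S.subtype.comp (ΦK.trans e.symm).toMonoidHom)
    have hφ : Function.Injective φ :=
      ΦF.symm.injective.comp (S.subtype_injective.comp (ΦK.trans e.symm).injective)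
    obtain ⟨g, hg⟩ := embedding_conj ι hι hk φ hφ
    refine ⟨ΦF g, ?_⟩
    have hr : φ.range.map ΦF.toMonoidHom = S := by
      ext x
      constructor
      · rintro ⟨_, ⟨y, rfl⟩, rfl⟩
        show ΦF (ΦF.symm ((ΦK.trans e.symm) y : ↥(Cfsg.Sz F m))) ∈ S
        rw [MulEquiv.apply_symm_apply]
        exact ((ΦK.trans e.symm) y).2
      · intro hx
        refine ⟨ΦF.symm x, ⟨(ΦK.trans e.symm).symm ⟨x, hx⟩, ?_⟩, ΦF.apply_symm_apply x⟩
        show ΦF.symm ((ΦK.trans e.symm) ((ΦK.trans e.symm).symm ⟨x, hx⟩) : ↥(Cfsg.Sz F m)) = ΦF.symm x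
        rw [MulEquiv.apply_symm_apply]
    rw [← hr, ← hg, hS0, Subgroup.map_map, Subgroup.map_map]
    ext y
    simp [Subgroup.mem_map, mul_assoc]
  intro S₁ S₂ h1 h2
  obtain ⟨g1, rfl⟩ := key S₁ h1
  obtain ⟨g2, rfl⟩ := key S₂ h2
  refine ⟨g2 * g1⁻¹, ?_⟩
  clear_value S0
  rw [Subgroup.map_map]
  ext y
  simp [Subgroup.mem_map, mul_assoc]

end Cfsg.Agent.SzC
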