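import Mathlib
import Cfsg.Agent.Lib.SzC.SubgroupCount
import Cfsg.Agent.Lib.SzC.Subfield
import Cfsg.Agent.Lib.SzC.Solubilizer

/-!
# The subgroups of the Suzuki groups
-/

set_option autoImplicit false

open scoped Matrix

namespace Cfsg.Agent.SzC

open Cfsg.Agent.SzB

variable {F : Type*} [Field F] [CharP F 2] [Fintype F] {m : ℕ} {hF : Fintype.card F = 2 ^ (2 * m + 1)}

theorem twist_compat {K : Type*} [Field K] [Fintype K] [CharP K 2] {k : ℕ}
    (hK : Fintype.card K = 2 ^ (2 * k + 1)) (hdiv : 2 * k + 1 ∣ 2 * m + 1) (ι : K →+* F) (x : K) :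
    ι ((stdTwist hK).th x) = (stdTwist hF).th (ι x) := by
  obtain ⟨j, hj⟩ := hdiv
  have hodd : Odd j := by
    rcases Nat.even_or_odd j with he | ho
    · exfalso
      have : Even (2 * m + 1) := hj ▸ he.mul_left _
      exact Nat.not_even_iff_odd.mpr ⟨m, rfl⟩ this
    · exact ho
  obtain ⟨i, rfl⟩ := hodd
  have hm1 : m + 1 = k + 1 + (2 * k + 1) * i := by nlinarith
  rw [Twist.th_apply, Twist.th_apply, ← map_pow]
  congr 1
  show x ^ 2 ^ (k + 1) = x ^ 2 ^ (m + 1)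
  rw [hm1, pow_add 2 (k + 1), pow_mul x, pow_mul 2 (2 * k + 1) i, ← hK, FiniteField.pow_card_pow]

theorem mem_range_of_th_mul {K : Type*} [Field K] [Fintype K] [CharP K 2] (ι : K →+* F) {a : F}
    (h : (stdTwist hF).th a * a ∈ Set.range ι) : a ∈ Set.range ι := by
  by_cases ha : a = 0
  · exact ⟨0, by rw [map_zero, ha]⟩
  obtain ⟨x, hx⟩ := h
  have hx0 : x ≠ 0 := fun e => by
    rw [e, map_zero] at hx
    exact mul_ne_zero (fun e => ha ((stdTwist hF).th_inj e)) ha hx.symm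
  have hN : a ^ (Fintype.card K - 1) = 1 := by
    apply th_mul_self_eq_one (hF := hF)
    rw [map_pow, ← mul_pow, ← hx, ← map_pow, FiniteField.pow_card_sub_one_eq_one x hx0, map_one]
  refine mem_range_of_pow ι ?_
  conv_lhs => rw [show Fintype.card K = Fintype.card K - 1 + 1 by have := Fintype.card_pos (α := K); omega]
  rw [pow_succ, hN, one_mul]

theorem odd_solvable {H : Type*} [Group H] [Finite H] (f : H →* SG hF) (hf : Function.Injective f)
    (hodd : Odd (Nat.card H)) : Group.IsSolvable H := by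
  haveI : IsZGroup H := ⟨fun p hp P => by
    haveI := Fact.mk hp
    by_cases h2 : p = 2
    · subst h2
      have hd : Nat.card (P : Subgroup H) = 1 := by
        obtain ⟨n, hn⟩ := P.2.exists_card_eq
        rcases n with _ | n
        · simpa using hn
        · exfalso
          have : 2 ∣ Nat.card H := (hn ▸ dvd_pow_self 2 (Nat.succ_ne_zero n) : 2 ∣ Nat.card (P : Subgroup H)).trans
            (Subgroup.card_subgroup_dvd_card _)
          exact (Nat.not_even_iff_odd.mpr hodd) (even_iff_two_dvd.mpr this)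
      haveI : Subsingleton (P : Subgroup H) := (Nat.card_eq_one_iff_unique.mp hd).1
      exact isCyclic_of_subsingleton
    · obtain ⟨Q, hQ⟩ := (P.2.map f).exists_le_sylow
      haveI := sylow_odd_cyclic hF h2 Q
      haveI := cyclic_of_le hQ inferInstance
      exact isCyclic_of_surjective _ ((P : Subgroup H).equivMapOfInjective f hf).symm.surjective⟩
  infer_instance

/-- conjugate subgroup -/
def cj (g : SG hF) (M : Subgroup (SG hF)) : Subgroup (SG hF) := M.map (MulAut.conj g).toMonoidHom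

theorem mem_cj {g x : SG hF} {M : Subgroup (SG hF)} : x ∈ cj g M ↔ g⁻¹ * x * g ∈ M := by
  constructor
  · rintro ⟨y, hy, rfl⟩
    show g⁻¹ * (g * y * g⁻¹) * g ∈ M
    rwa [show g⁻¹ * (g * y * g⁻¹) * g = y by group]
  · intro h
    exact conj_map_mem h

theorem cj_not_solvable {g : SG hF} {M : Subgroup (SG hF)} (h : ¬ Group.IsSolvable M) :
    ¬ Group.IsSolvable (cj g M) := fun hs => h (by
  haveI : Group.IsSolvable (M.map (MulAut.conj g).toMonoidHom) := hs
  exact Group.isSolvable_of_isSolvable_injective (f := (MulAut.conj g).toMonoidHom.subgroupMap M)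
    ((M.equivMapOfInjective _ (MulAut.conj g).injective).injective))

theorem fix_two_torus {b : SG hF} (hb : b ∈ bor (stdTwist hF))
    (h : wS (stdTwist hF) * b * wS (stdTwist hF) ∈ bor (stdTwist hF)) : ∃ u, b = tS (stdTwist hF) u := by
  set τ := stdTwist hF
  obtain ⟨u, a, c, rfl⟩ := (mem_bor_iff τ).mp hb
  have hlS : lS τ a c ∈ bor τ := by
    have e : lS τ a c = tS τ u * (wS τ * (tS τ u * uS τ a c) * wS τ) := by
      calc lS τ a c = (wS τ * wS τ) * lS τ a c * (wS τ * wS τ) := by rw [wS_sq, one_mul, mul_one]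
        _ = wS τ * uS τ a c * wS τ := by rw [uS]; group
        _ = tS τ u * (tS τ u)⁻¹ * wS τ * uS τ a c * wS τ := by rw [mul_inv_cancel, one_mul]
        _ = tS τ u * (wS τ * tS τ u * wS τ) * wS τ * uS τ a c * wS τ := by rw [wS_tS]
        _ = tS τ u * (wS τ * tS τ u * (wS τ * wS τ) * uS τ a c * wS τ) := by group
        _ = _ := by rw [wS_sq, mul_one]; group
    rw [e]
    exact mul_mem (tS_mem_bor τ u) h
  obtain ⟨rfl, rfl⟩ := lS_mem_bor τ hlS
  exact ⟨u, by rw [uS_zero, mul_one]⟩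

theorem exists_nontrivial_sc {M : Subgroup (SG hF)} (hne : ∃ y, y ∈ M ∧ y ∈ unip (stdTwist hF) ∧ y ≠ 1)
    (hns : ¬ Group.IsSolvable M) {g : SG hF} (hg : g ∈ M) (hgB : g ∉ bor (stdTwist hF)) :
    ∃ h ∈ scVals M, h ≠ 1 := by
  classical
  haveI : Fintype (SG hF) := Fintype.ofFinite _
  haveI : Fact (Nat.Prime 2) := ⟨Nat.prime_two⟩
  set τ := stdTwist hF
  by_contra hall
  push Not at hall
  apply hns
  have hle := (outPts_full hne hg hgB).1
  have hz1 : (invU M).ncard ≤ 1 := hle.trans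
    ((Set.ncard_le_ncard (t := ({1} : Set F)) (fun h hh => hall h hh)).trans (by simp))
  have hBP : ∀ x ∈ M, x ∈ bor τ → x ∈ unip τ := fun x hx hxB =>
    sc_eq_one hF hxB (hall _ ⟨x, hx, hxB, rfl⟩)
  have hcomm : ∀ x ∈ M, x ∈ unip τ → ∀ y ∈ M, y ∈ unip τ → x * y = y * x := by
    rintro x hx ⟨a, b, rfl⟩ y hy ⟨a', b', rfl⟩
    have key : τ.th a * a' = τ.th a' * a := by
      by_cases ha : a = 0
      · rw [ha, map_zero, zero_mul, mul_zero]
      by_cases ha' : a' = 0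
      · rw [ha', map_zero, zero_mul, mul_zero]
      have hsq : ∀ {a b : F}, a ≠ 0 → uS τ a b ∈ M → uS τ 0 (τ.th a * a) ∈ invU M := by
        intro a b ha hm
        refine ⟨?_, ⟨_, _, rfl⟩, fun e => ?_, ?_⟩
        · rw [← uS_sq hF a b, pow_two]; exact mul_mem hm hm
        · exact mul_ne_zero (fun e => ha (τ.th_inj e)) ha (uS_inj τ (e.trans (uS_zero τ).symm)).2
        · rw [← pow_two, uS_sq, map_zero, zero_mul, uS_zero]
      have heq := ((Set.ncard_le_one).mp hz1) _ (hsq ha hx) _ (hsq ha' hy)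
      have h2 := (uS_inj τ heq).2
      have h1 : a / a' = 1 := th_mul_self_eq_one (hF := hF) (by
        rw [map_div₀, div_mul_div_comm, h2, div_self (mul_ne_zero (fun e => ha' (τ.th_inj e)) ha')])
      rw [(div_eq_one_iff_eq ha').mp h1]
    rw [uS_mul, uS_mul, key, add_comm a, add_comm b]
  obtain ⟨S, hS⟩ := exists_syl hne
  have hN : Subgroup.normalizer ((S : Subgroup M) : Set M) ≤ Subgroup.centralizer ((S : Subgroup M) : Set M) := by
    intro n hn
    obtain ⟨y, hyM, hyU, hy1⟩ := hne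
    have hyS : (⟨y, hyM⟩ : M) ∈ (S : Subgroup M) := by rw [hS]; exact hyU
    have h1 := (Subgroup.mem_set_normalizer_iff.mp hn _).mp hyS
    rw [SetLike.mem_coe, hS] at h1
    have h1' : (n : SG hF) * y * (n : SG hF)⁻¹ ∈ unip τ := h1
    have hnB : (n : SG hF) ∈ bor τ := by
      have := SzO.mem_bor_of_fixes τ (x := (n : SG hF)⁻¹) hyU hy1 (by rw [inv_inv]; exact unip_le_bor τ h1')
      simpa using inv_mem this
    rw [Subgroup.mem_centralizer_iff]
    intro z hz
    rw [SetLike.mem_coe, hS] at hz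
    exact Subtype.ext (hcomm _ z.2 hz _ n.2 (hBP _ n.2 hnB))
  set f := MonoidHom.transferSylow S hN
  have hcompl := MonoidHom.ker_transferSylow_isComplement' S hN
  have hodd : Odd (Nat.card f.ker) := by
    rw [← Nat.not_even_iff_odd, even_iff_two_dvd]
    intro h2
    have hi : (S : Subgroup M).index = Nat.card f.ker := hcompl.index_eq_card
    exact S.not_dvd_index (hi ▸ h2)
  haveI : Group.IsSolvable f.ker := odd_solvable (M.subtype.comp f.ker.subtype)
    (M.subtype_injective.comp f.ker.subtype_injective) hodd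
  haveI : Group.IsSolvable (S : Subgroup M) := Group.isSolvable_of_comm (fun a b => by
    have ha := a.2; have hb := b.2
    simp only [hS] at ha hb
    exact Subtype.ext (Subtype.ext (hcomm _ a.1.2 ha _ b.1.2 hb)))
  exact Group.isSolvable_of_ker_le_range f.ker.subtype f (le_of_eq f.ker.range_subtype.symm)

theorem orbit_regular {M : Subgroup (SG hF)} (hne : ∃ y, y ∈ M ∧ y ∈ unip (stdTwist hF) ∧ y ≠ 1)
    {u : Fˣ} (hu : u ≠ 1) (huM : tS (stdTwist hF) u ∈ M)
    {g : SG hF} (hg : g ∈ M) (hgB : g ∉ bor (stdTwist hF)) :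
    ∃ p, p ∈ M ∧ p ∈ unip (stdTwist hF) ∧ (p * wS (stdTwist hF))⁻¹ * g ∈ bor (stdTwist hF) := by
  classical
  haveI : Fintype (SG hF) := Fintype.ofFinite _
  set τ := stdTwist hF
  obtain ⟨-, t, ⟨htM, ht2, htB⟩, htg, hfull⟩ := outPts_full hne hg hgB
  obtain ⟨s, ⟨hsM, hs2, -⟩, hts, hsc⟩ := hfull (u : F) ⟨_, huM, tS_mem_bor τ u, sc_tS τ u⟩
  set b := t⁻¹ * s with hb
  have hti : t⁻¹ = t := inv_eq_of_mul_eq_one_right ht2
  have hsi : s⁻¹ = s := inv_eq_of_mul_eq_one_right hs2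
  have hgb : g⁻¹ * b * g ∈ bor τ := by
    have hbt : t⁻¹ * b * t ∈ bor τ := by
      have e : t⁻¹ * b * t = b⁻¹ := by
        rw [hb, mul_inv_rev, inv_inv, hti, hsi, ← mul_assoc, ht2, one_mul]
      rw [e]; exact inv_mem hts
    have := mul_mem (mul_mem (inv_mem htg) hbt) htg
    convert this using 1
    group
  -- conjugate the torus element onto `b`
  let P : Subgroup (SG hF) := M ⊓ unip τ
  let f : P → P := fun p => ⟨(tS τ u)⁻¹ * p * tS τ u * (p : SG hF)⁻¹, Subgroup.mem_inf.mpr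
    ⟨mul_mem (mul_mem (mul_mem (inv_mem huM) (Subgroup.mem_inf.mp p.2).1) huM)
      (inv_mem (Subgroup.mem_inf.mp p.2).1),
    mul_mem (by have := tS_conj_unip τ u⁻¹ (Subgroup.mem_inf.mp p.2).2; simpa using this)
      (inv_mem (Subgroup.mem_inf.mp p.2).2)⟩⟩
  have hf : Function.Injective f := by
    intro p r h
    have h' : (tS τ u)⁻¹ * (p : SG hF) * tS τ u * (p : SG hF)⁻¹ = (tS τ u)⁻¹ * r * tS τ u * (r : SG hF)⁻¹ :=
      congrArg Subtype.val h
    have hcm : ((r : SG hF)⁻¹ * p) * tS τ u = tS τ u * ((r : SG hF)⁻¹ * p) := by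
      calc ((r : SG hF)⁻¹ * p) * tS τ u
          = (r : SG hF)⁻¹ * tS τ u * ((tS τ u)⁻¹ * (p : SG hF) * tS τ u * (p : SG hF)⁻¹) * p := by group
        _ = _ := by rw [h']; group
    obtain ⟨d, hd⟩ := cent_torus τ hu hcm
    have hsd := sc_unip (mul_mem (inv_mem (show (r : SG hF) ∈ unip τ from r.2.2)) (show (p : SG hF) ∈ unip τ from p.2.2))
    rw [← hd, sc_tS] at hsd
    rw [show d = 1 from Units.ext hsd, map_one] at hd
    exact Subtype.ext (inv_mul_eq_one.mp hd.symm).symm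
  have hbu : (tS τ u)⁻¹ * b ∈ unip τ := by
    refine sc_eq_one hF (mul_mem (inv_mem (tS_mem_bor τ u)) hts) ?_
    rw [sc_mul τ (inv_mem (tS_mem_bor τ u)) hts, ← map_inv, sc_tS, hsc, ← Units.val_mul, inv_mul_cancel,
      Units.val_one]
  obtain ⟨p, hp⟩ := (Finite.injective_iff_surjective.mp hf)
    ⟨(tS τ u)⁻¹ * b, Subgroup.mem_inf.mpr ⟨mul_mem (inv_mem huM) (mul_mem (inv_mem htM) hsM), hbu⟩⟩
  have hp' : (tS τ u)⁻¹ * (p : SG hF) * tS τ u * (p : SG hF)⁻¹ = (tS τ u)⁻¹ * b := congrArg Subtype.val hp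
  have hbp : b = (p : SG hF) * tS τ u * (p : SG hF)⁻¹ := by
    calc b = tS τ u * ((tS τ u)⁻¹ * b) := by group
      _ = _ := by rw [← hp']; group
  refine ⟨p, p.2.1, p.2.2, ?_⟩
  have hgB' : (p : SG hF)⁻¹ * g ∉ bor τ := fun h => hgB (by
    have := mul_mem (unip_le_bor τ p.2.2) h
    rwa [mul_inv_cancel_left] at this)
  obtain ⟨x, y, hxy⟩ := exists_cell τ hgB'
  by_cases h0 : x = 0 ∧ y = 0
  · obtain ⟨rfl, rfl⟩ := h0
    rw [uS_zero, one_mul] at hxy
    rw [mul_inv_rev, mul_assoc]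
    exact hxy
  · exfalso
    refine hu (SzO.torus_fix_pt τ (x := x) (y := y) (by tauto) ?_)
    rw [SzO.smul_pt, SzO.pt_eq_iff]
    have hfix : ((p : SG hF)⁻¹ * g)⁻¹ * tS τ u * ((p : SG hF)⁻¹ * g) ∈ bor τ := by
      rw [hbp] at hgb
      convert hgb using 1
      group
    have := mul_mem (mul_mem hxy hfix) (inv_mem hxy)
    convert this using 1
    group

/-- the normalised subgroup is a subfield group -/
theorem normal_form (hm : 1 ≤ m) {M : Subgroup (SG hF)} (hns : ¬ Group.IsSolvable M)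
    (h1 : uS (stdTwist hF) 0 1 ∈ M) {g : SG hF} (hg : g ∈ M)
    (hgw : (wS (stdTwist hF))⁻¹ * g ∈ bor (stdTwist hF)) :
    ∃ k : ℕ, 1 ≤ k ∧ 2 * k + 1 ∣ 2 * m + 1 ∧ ∃ (_ : Fintype (GaloisField 2 (2 * k + 1)))
      (hK : Fintype.card (GaloisField 2 (2 * k + 1)) = 2 ^ (2 * k + 1))
      (ι : GaloisField 2 (2 * k + 1) →+* F) (hι : ∀ x, ι ((stdTwist hK).th x) = (stdTwist hF).th (ι x)),
      (psi (hF := hF) (hK := hK) ι hι).range = M := by
  classical
  haveI : Fintype (SG hF) := Fintype.ofFinite _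
  haveI : Fact (Nat.Prime 2) := ⟨Nat.prime_two⟩
  set τ := stdTwist hF
  have hwinv : (wS τ)⁻¹ = wS τ := inv_eq_of_mul_eq_one_right (wS_sq τ)
  have hw : wS τ ∉ bor τ := fun h => uw_not_mem τ 0 0 (by rwa [uS_zero, one_mul])
  replace hgw : (wS τ)⁻¹ * g ∈ bor τ := hgw
  have hgB : g ∉ bor τ := fun h => hw (by
    have := mul_mem h (inv_mem hgw)
    convert this using 1
    group)
  have hU1 : uS τ 0 1 ≠ 1 := fun e => one_ne_zero (uS_inj τ (e.trans (uS_zero τ).symm)).2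
  have hne : ∃ y, y ∈ M ∧ y ∈ unip τ ∧ y ≠ 1 := ⟨_, h1, ⟨0, 1, rfl⟩, hU1⟩
  obtain ⟨hle, t, ⟨htM, ht2, htB⟩, htg, hfull⟩ := outPts_full hne hg hgB
  have hti : t⁻¹ = t := inv_eq_of_mul_eq_one_right ht2
  have htw : (wS τ)⁻¹ * t ∈ bor τ := by
    have := mul_mem hgw (inv_mem htg)
    convert this using 1
    group
  -- the torus of `M`
  have htor : ∀ h ∈ scVals M, ∃ u : Fˣ, (u : F) = h ∧ tS τ u ∈ M ∧ t * tS τ u * t⁻¹ = tS τ u⁻¹ := by
    intro h hh
    obtain ⟨s, ⟨hsM, hs2, -⟩, hts, hsc⟩ := hfull h hh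
    have hsi : s⁻¹ = s := inv_eq_of_mul_eq_one_right hs2
    have e : t * (t⁻¹ * s) * t⁻¹ = (t⁻¹ * s)⁻¹ := by
      rw [mul_inv_rev, inv_inv, hti, hsi, ← mul_assoc, ht2, one_mul]
    have hfix : wS τ * (t⁻¹ * s) * wS τ ∈ bor τ := by
      have h2 := mul_mem (mul_mem htw (inv_mem hts)) (inv_mem htw)
      rw [← e] at h2
      have h3 : (wS τ)⁻¹ * t * (t * (t⁻¹ * s) * t⁻¹) * ((wS τ)⁻¹ * t)⁻¹ =
          wS τ * (t⁻¹ * s) * wS τ := by
        rw [hwinv, mul_inv_rev, hwinv]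
        calc wS τ * t * (t * (t⁻¹ * s) * t⁻¹) * (t⁻¹ * wS τ)
            = wS τ * (t * t) * (t⁻¹ * s) * (t * t)⁻¹ * wS τ := by group
          _ = _ := by rw [ht2, inv_one, mul_one, mul_one]
      rwa [h3] at h2
    obtain ⟨u, hu⟩ := fix_two_torus hts hfix
    refine ⟨u, ?_, hu ▸ mul_mem (inv_mem htM) hsM, ?_⟩
    · rw [← sc_tS τ u, ← hu, hsc]
    · rw [map_inv, ← hu, e]
  obtain ⟨h0, hh0, hh01⟩ := exists_nontrivial_sc hne hns hg hgB
  obtain ⟨u0, hu0, hu0M, hu0t⟩ := htor h0 hh0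
  have hu01 : u0 ≠ 1 := fun e => hh01 (by rw [← hu0, e, Units.val_one])
  obtain ⟨a0, ha0⟩ : ∃ a0, t = wS τ * tS τ a0 := by
    rcases torus_norm τ hu01 hu0t with ⟨r, hr, -⟩ | ⟨r, hr, -⟩
    · exact absurd (hr ▸ tS_mem_bor τ r) htB
    · exact ⟨r, hr⟩
  -- the parameters of the central involutions
  set B : Set F := {b | uS τ 0 b ∈ M} with hBdef
  have hBim : (fun h : F => τ.th h) '' scVals M ⊆ B \ {0} := by
    rintro _ ⟨h, hh, rfl⟩
    obtain ⟨u, rfl, huM, -⟩ := htor h hh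
    refine ⟨?_, fun e => u.ne_zero (τ.th_inj e)⟩
    have := mul_mem (mul_mem huM h1) (inv_mem huM)
    rw [tS_uS] at this
    simp only [zero_mul, zero_div, Units.val_inv_eq_inv_val, map_inv₀, one_div, inv_inv] at this
    exact this
  have hBeq : (fun h : F => τ.th h) '' scVals M = B \ {0} := by
    refine Set.eq_of_subset_of_ncard_le hBim ?_
    rw [Set.ncard_image_of_injective _ τ.th.injective]
    refine le_trans ?_ hle
    refine Set.ncard_le_ncard_of_injOn (fun b => uS τ 0 b) ?_ (fun a _ b _ h => (uS_inj τ h).2)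
    rintro b ⟨hb, hb0⟩
    exact ⟨hb, ⟨0, b, rfl⟩, fun e => hb0 (uS_inj τ (e.trans (uS_zero τ).symm)).2, by
      rw [← pow_two, uS_sq, map_zero, zero_mul, uS_zero]⟩
  have hBtor : ∀ b ∈ B, b ≠ 0 → ∃ u : Fˣ, τ.th (u : F) = b ∧ tS τ u ∈ M := by
    intro b hb hb0
    obtain ⟨h, hh, rfl⟩ : b ∈ (fun h : F => τ.th h) '' scVals M := hBeq ▸ ⟨hb, hb0⟩
    obtain ⟨u, rfl, huM, -⟩ := htor h hh
    exact ⟨u, rfl, huM⟩
  have htorB : ∀ u : Fˣ, tS τ u ∈ M → τ.th (u : F) ∈ B := fun u hu =>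
    (hBim ⟨u, ⟨_, hu, tS_mem_bor τ u, sc_tS τ u⟩, rfl⟩).1
  let K0 : Subfield F :=
    { carrier := B
      zero_mem' := by show uS τ 0 0 ∈ M; rw [uS_zero]; exact one_mem M
      one_mem' := h1
      add_mem' := fun {a b} ha hb => by
        have := M.mul_mem ha hb
        rw [uS_mul, map_zero, zero_mul, add_zero, add_zero] at this
        exact this
      neg_mem' := fun {a} ha => by show uS τ 0 (-a) ∈ M; rw [CharTwo.neg_eq]; exact ha
      mul_mem' := fun {a b} ha hb => by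
        show a * b ∈ B
        by_cases ha0 : a = 0
        · rw [ha0, zero_mul]; show uS τ 0 0 ∈ M; rw [uS_zero]; exact one_mem M
        by_cases hb0 : b = 0
        · rw [hb0, mul_zero]; show uS τ 0 0 ∈ M; rw [uS_zero]; exact one_mem M
        obtain ⟨u, rfl, hu⟩ := hBtor a ha ha0
        obtain ⟨v, rfl, hv⟩ := hBtor b hb hb0
        rw [← map_mul, ← Units.val_mul]
        exact htorB _ (by rw [map_mul]; exact mul_mem hu hv)
      inv_mem' := fun a ha => by
        show a⁻¹ ∈ B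
        by_cases ha0 : a = 0
        · rw [ha0, inv_zero]; show uS τ 0 0 ∈ M; rw [uS_zero]; exact one_mem M
        obtain ⟨u, rfl, hu⟩ := hBtor a ha ha0
        rw [← map_inv₀, ← Units.val_inv_eq_inv_val]
        exact htorB _ (by rw [map_inv]; exact inv_mem hu) }
  haveI : Fintype K0 := Fintype.ofFinite _
  haveI : CharP K0 2 := K0.subtype.charP K0.subtype.injective 2
  obtain ⟨⟨n, hn0⟩, -, hn⟩ := FiniteField.card K0 2
  have hn' : Fintype.card K0 = 2 ^ n := hn
  have hdn : n ∣ 2 * m + 1 := by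
    have h := Module.natCard_eq_pow_finrank (K := K0) (V := F)
    rw [Nat.card_eq_fintype_card, Nat.card_eq_fintype_card, hF, hn', ← pow_mul] at h
    exact ⟨_, Nat.pow_right_injective le_rfl h⟩
  obtain ⟨k, rfl⟩ : Odd n := Odd.of_dvd_nat ⟨m, rfl⟩ hdn
  have hk : 1 ≤ k := by
    by_contra hk0
    have hk' : k = 0 := by omega
    rw [hk'] at hn'
    have h2 : Fintype.card K0 = 2 := hn'
    have hu : τ.th (u0 : F) ∈ B := htorB u0 hu0M
    have : ∀ x : K0, x = 0 ∨ x = 1 := by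
      intro x
      by_contra hx
      push Not at hx
      have : ({0, 1, x} : Finset K0).card = 3 := by
        rw [Finset.card_insert_of_notMem (by simp [zero_ne_one, Ne.symm hx.1]),
          Finset.card_pair (Ne.symm hx.2)]
      have := this ▸ Finset.card_le_univ ({0, 1, x} : Finset K0)
      omega
    rcases this ⟨_, hu⟩ with h | h
    · exact u0.ne_zero (τ.th_inj (congrArg Subtype.val h :))
    · exact hu01 (Units.ext (τ.th.injective ((congrArg Subtype.val h :).trans (map_one τ.th).symm)))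
  refine ⟨k, hk, hdn, ?_⟩
  haveI : Fintype (GaloisField 2 (2 * k + 1)) := Fintype.ofFinite _
  have hK : Fintype.card (GaloisField 2 (2 * k + 1)) = 2 ^ (2 * k + 1) := by
    rw [← Nat.card_eq_fintype_card]; exact GaloisField.card 2 _ (by omega)
  let e : GaloisField 2 (2 * k + 1) ≃+* K0 := FiniteField.ringEquivOfCardEq (by rw [hK, hn'])
  let ι : GaloisField 2 (2 * k + 1) →+* F := K0.subtype.comp e.toRingHom
  have hι : ∀ x, ι ((stdTwist hK).th x) = τ.th (ι x) := twist_compat hK hdn ι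
  refine ⟨inferInstance, hK, ι, hι, ?_⟩
  set σ := stdTwist hK
  have hιB : ∀ x, ι x ∈ B := fun x => (e x).2
  have hBι : ∀ b ∈ B, ∃ x, ι x = b := fun b hb => ⟨e.symm ⟨b, hb⟩, by
    show ((e (e.symm ⟨b, hb⟩) : K0) : F) = b
    rw [e.apply_symm_apply]⟩
  have htι : ∀ u : Fˣ, tS τ u ∈ M → ∃ r, Units.map ι.toMonoidHom r = u := by
    intro u hu
    obtain ⟨x, hx⟩ := hBι _ (htorB u hu)
    obtain ⟨r, rfl⟩ := (th_bijective hK).2 x
    rw [hι] at hx
    have hr : ι r = (u : F) := τ.th.injective hx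
    refine ⟨Units.mk0 r (fun e => u.ne_zero (by rw [← hr, e, map_zero])), Units.ext hr⟩
  have hιt : ∀ r : (GaloisField 2 (2 * k + 1))ˣ, tS τ (Units.map ι.toMonoidHom r) ∈ M := by
    intro r
    have hne0 : ι (σ.th (r : GaloisField 2 (2 * k + 1))) ≠ 0 :=
      (map_ne_zero ι).mpr (fun e => r.ne_zero (σ.th_inj e))
    obtain ⟨u, hu, huM⟩ := hBtor _ (hιB _) hne0
    rw [hι] at hu
    rwa [show Units.map ι.toMonoidHom r = u from Units.ext (τ.th.injective hu).symm]
  have hZ : ∀ x, uS τ 0 (ι x) ∈ M := hιB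
  have hroot : ∀ a b : F, uS τ a b ∈ M → ∃ x, ι x = a := by
    intro a b h
    refine mem_range_of_th_mul (hF := hF) ι (hBι _ ?_)
    show uS τ 0 (τ.th a * a) ∈ M
    rw [← uS_sq hF a b, pow_two]
    exact mul_mem h h
  -- the cell of `t (uS 0 1) t`
  set d := τ.th (a0 : F) with hd
  have hd0 : d ≠ 0 := fun e => a0.ne_zero (τ.th_inj e)
  have hy : t * uS τ 0 1 * t ∈ M := mul_mem (mul_mem htM h1) htM
  have hyB : t * uS τ 0 1 * t ∉ bor τ := fun h => htB
    (SzO.mem_bor_of_fixes τ (⟨0, 1, rfl⟩ : uS τ 0 1 ∈ unip τ) hU1 (by rw [hti]; exact h))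
  obtain ⟨p, hpM, ⟨A, C, rfl⟩, hpy⟩ := orbit_regular hne hu01 hu0M hy hyB
  have hX : t * uS τ 0 1 * t = lS τ 0 d := by
    have e2 : tS τ a0 * uS τ 0 1 * (tS τ a0)⁻¹ = uS τ 0 d := by
      rw [tS_uS]
      simp only [zero_mul, zero_div, Units.val_inv_eq_inv_val, map_inv₀, one_div, inv_inv]
      rfl
    have e3 : lS τ 0 d = wS τ * uS τ 0 d * wS τ := by
      rw [uS]; simp only [mul_assoc, wS_sq, mul_one]; rw [← mul_assoc, wS_sq, one_mul]
    have e4 : t = (tS τ a0)⁻¹ * wS τ := by rw [← hti, ha0, mul_inv_rev, hwinv]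
    rw [e3, ← e2]
    calc t * uS τ 0 1 * t = wS τ * tS τ a0 * uS τ 0 1 * t := by rw [ha0]
      _ = _ := by rw [e4]; group
  rw [hX] at hpy
  replace hpy : (uS τ A C * wS τ)⁻¹ * lS τ 0 d ∈ bor τ := hpy
  obtain ⟨hA, hC⟩ := cell_unique τ (show (uS τ A C * wS τ)⁻¹ * (uS τ (d / τ.th d) 0 * wS τ) ∈ bor τ by
    have hl : (uS τ (d / τ.th d) 0 * wS τ)⁻¹ * lS τ 0 d ∈ bor τ := lower_cell d hd0
    have := mul_mem hpy (inv_mem hl)
    convert this using 1
    group)
  subst hA hC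
  set A := d / τ.th d with hA
  obtain ⟨A', hA'⟩ := hroot _ _ hpM
  have hA0 : A ≠ 0 := div_ne_zero hd0 (fun e => hd0 (τ.th_inj e))
  have hA'0 : A' ≠ 0 := fun e => hA0 (by rw [← hA', e, map_zero])
  have hN : A ^ (Fintype.card (GaloisField 2 (2 * k + 1)) - 1) = 1 := by
    rw [← hA', ← map_pow, FiniteField.pow_card_sub_one_eq_one A' hA'0, map_one]
  set N := Fintype.card (GaloisField 2 (2 * k + 1)) - 1
  have hdN : d ^ N = 1 := by
    have h : d ^ N = τ.th (d ^ N) := by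
      rw [hA, div_pow, div_eq_one_iff_eq (pow_ne_zero _ (fun e => hd0 (τ.th_inj e)))] at hN
      rw [map_pow, hN]
    rcases th_fixed hF h.symm with h' | h'
    · exact absurd h' (pow_ne_zero _ hd0)
    · exact h'
  obtain ⟨w0, hw0⟩ := units_mem_range ι (v := a0) (Units.ext (by
    rw [Units.val_pow_eq_pow_val, Units.val_one]
    apply τ.th.injective
    rw [map_pow, map_one]
    exact hdN))
  have hwS : wS τ ∈ M := by
    have := mul_mem htM (inv_mem (hw0 ▸ hιt w0))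
    rwa [ha0, mul_inv_cancel_right] at this
  have hrow : ∀ x, uS τ (ι x) 0 ∈ M := by
    intro x
    by_cases hx : x = 0
    · rw [hx, map_zero, uS_zero]; exact one_mem _
    obtain ⟨r, hr⟩ := (units_mult_bijective hK).2 (Units.mk0 (x / A') (div_ne_zero hx hA'0))
    have h := mul_mem (mul_mem (hιt r⁻¹) hpM) (inv_mem (hιt r⁻¹))
    rw [tS_uS] at h
    simp only [zero_div, map_inv, inv_inv, Units.coe_map] at h
    have hr' : σ.th (r : GaloisField 2 (2 * k + 1)) * ((r : GaloisField 2 (2 * k + 1)) ^ 2)⁻¹ = x / A' := by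
      simpa using congrArg Units.val hr
    convert h using 2
    rw [← hA']
    change ι x = ι A' * τ.th (ι (r : GaloisField 2 (2 * k + 1))) / ι (r : GaloisField 2 (2 * k + 1)) ^ 2
    rw [← hι, ← map_pow, ← map_mul, ← map_div₀]
    congr 1
    rw [mul_div_assoc, div_eq_mul_inv (σ.th (r : GaloisField 2 (2 * k + 1))), hr', mul_div_cancel₀ _ hA'0]
  have hUM : ∀ a b, uS τ (ι a) (ι b) ∈ M := fun a b => by
    have e : uS τ (ι a) (ι b) = uS τ (ι a) 0 * uS τ 0 (ι b) := by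
      rw [uS_mul, add_zero, zero_add, mul_zero, add_zero]
    rw [e]; exact mul_mem (hrow a) (hZ b)
  apply le_antisymm
  · have htop : M.comap (psi ι hι) = ⊤ := by
      refine SzO.eq_top_of_unip_not_le σ (exists_unit_ne hk hK) _ ?_ ?_
      · rintro _ ⟨a, b, rfl⟩
        show psi ι hι (uS σ a b) ∈ M
        rw [psi_uS]; exact hUM a b
      · intro h
        have : wS σ ∈ bor σ := h (show psi ι hι (wS σ) ∈ M by rw [psi_wS]; exact hwS)
        exact uw_not_mem σ 0 0 (by rwa [uS_zero, one_mul])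
    rintro _ ⟨x, rfl⟩
    have hx : x ∈ M.comap (psi ι hι) := htop ▸ Subgroup.mem_top x
    exact hx
  · set S := (psi (hF := hF) (hK := hK) ι hι).range
    have hUS : ∀ x ∈ M, x ∈ unip τ → x ∈ S := by
      rintro x hx ⟨a, b, rfl⟩
      obtain ⟨a', rfl⟩ := hroot a b hx
      have h := mul_mem (hrow a') hx
      rw [uS_mul, CharTwo.add_self_eq_zero, zero_add] at h
      obtain ⟨c, hc⟩ := hBι _ h
      refine ⟨uS σ a' (c + σ.th a' * a'), ?_⟩
      rw [psi_uS, map_add, hc, map_mul, hι, add_assoc, CharTwo.add_self_eq_zero, add_zero]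
    have hBS : ∀ x ∈ M, x ∈ bor τ → x ∈ S := by
      intro x hx hxB
      obtain ⟨u, huh, huM, -⟩ := htor _ ⟨x, hx, hxB, rfl⟩
      obtain ⟨r, hr⟩ := htι u huM
      have h2 : (tS τ u)⁻¹ * x ∈ S := by
        refine hUS _ (mul_mem (inv_mem huM) hx) (sc_eq_one hF (mul_mem (inv_mem (tS_mem_bor τ u)) hxB) ?_)
        rw [sc_mul τ (inv_mem (tS_mem_bor τ u)) hxB, ← map_inv, sc_tS, ← huh, ← Units.val_mul, inv_mul_cancel,
          Units.val_one]
      have h3 : tS τ u ∈ S := ⟨tS σ r, by rw [psi_tS, hr]⟩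
      have := mul_mem h3 h2
      rwa [mul_inv_cancel_left] at this
    intro x hx
    by_cases hxB : x ∈ bor τ
    · exact hBS x hx hxB
    obtain ⟨q, hqM, hqU, hq⟩ := orbit_regular hne hu01 hu0M hx hxB
    have hwSS : wS τ ∈ S := ⟨wS σ, psi_wS ι hι⟩
    have := mul_mem (mul_mem (hUS q hqM hqU) hwSS)
      (hBS _ (mul_mem (inv_mem (mul_mem hqM hwS)) hx) hq)
    rwa [mul_inv_cancel_left] at this

/-- The proper subgroups. -/
theorem subgroup_cases (hm : 1 ≤ m) (M : Subgroup (SG hF)) (hM : M ≠ ⊤) :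
    (∃ g, M ≤ cj g (bor (stdTwist hF))) ∨
    (∃ U : Subgroup (SG hF), IsCyclic U ∧
      Nat.card U ∈ ({2 ^ (2 * m + 1) - 1, 2 ^ (2 * m + 1) + 2 ^ (m + 1) + 1,
        2 ^ (2 * m + 1) - 2 ^ (m + 1) + 1} : Set ℕ) ∧ M ≤ Subgroup.normalizer (U : Set (SG hF))) ∨
    ∃ k : ℕ, 1 ≤ k ∧ k < m ∧ 2 * k + 1 ∣ 2 * m + 1 ∧ ∃ (_ : Fintype (GaloisField 2 (2 * k + 1)))
      (hK : Fintype.card (GaloisField 2 (2 * k + 1)) = 2 ^ (2 * k + 1))
      (ι : GaloisField 2 (2 * k + 1) →+* F) (hι : ∀ x, ι ((stdTwist hK).th x) = (stdTwist hF).th (ι x))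
      (g : SG hF), M ≤ cj g (psi (hF := hF) (hK := hK) ι hι).range := by
  classical
  haveI : Fintype (SG hF) := Fintype.ofFinite _
  haveI : Fact (Nat.Prime 2) := ⟨Nat.prime_two⟩
  set τ := stdTwist hF
  by_cases hs : Group.IsSolvable M
  · by_cases hbot : M = ⊥
    · exact Or.inl ⟨1, hbot ▸ bot_le⟩
    obtain ⟨U, hU, hle⟩ := solvable_le_normalizer hF hs hbot
    rcases hU with ⟨g, rfl⟩ | ⟨g, rfl⟩ | ⟨p, z, hp, hd, hz, rfl⟩
    · refine Or.inl ⟨g, ?_⟩
      rwa [cj, ← normalizer_unip, Subgroup.map_equiv_normalizer_eq]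
    · refine Or.inr (Or.inl ⟨_, ?_, ?_, hle⟩)
      · haveI := torus_cyclic hF
        exact isCyclic_of_surjective _ ((MulAut.conj g).toMonoidHom.subgroupMap_surjective _)
      · rw [Subgroup.card_map_of_injective (MulAut.conj g).injective, card_torus, hF]
        exact Or.inl rfl
    · refine Or.inr (Or.inl ⟨_, cent_cyclic hF hp hd hz, ?_, hle⟩)
      rcases (singer_card_cases hF hm hp hd hz).1 with h | h
      · exact Or.inr (Or.inl h)
      · exact Or.inr (Or.inr h)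
  right; right
  -- an involution
  obtain ⟨i, hiM, hi2, hi1⟩ : ∃ i, i ∈ M ∧ i * i = 1 ∧ i ≠ 1 := by
    have he : 2 ∣ Nat.card M := by
      by_contra h
      exact hs (odd_solvable M.subtype M.subtype_injective
        (Nat.not_even_iff_odd.mp (fun he => h (even_iff_two_dvd.mp he))))
    obtain ⟨x, hx⟩ := exists_prime_orderOf_dvd_card' (G := M) 2 he
    refine ⟨x, x.2, ?_, fun h => ?_⟩
    · have := pow_orderOf_eq_one x
      rw [hx, pow_two] at this
      exact congrArg Subtype.val this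
    · rw [show x = 1 from Subtype.ext h, orderOf_one] at hx
      norm_num at hx
  obtain ⟨-, g1, hg1⟩ := two_elt_mem_conj hF hi1 (by
    rw [show i ^ 4 = i * i * (i * i) by simp [pow_succ, mul_assoc], hi2, one_mul])
  set M1 := cj g1⁻¹ M with hM1
  have hne1 : ∃ y, y ∈ M1 ∧ y ∈ unip τ ∧ y ≠ 1 := ⟨g1⁻¹ * i * g1, by
    rw [mem_cj, inv_inv]
    convert hiM using 1
    group, hg1, fun e => hi1 (by
      calc i = g1 * (g1⁻¹ * i * g1) * g1⁻¹ := by group
        _ = 1 := by rw [e]; group)⟩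
  have hns1 : ¬ Group.IsSolvable M1 := cj_not_solvable hs
  obtain ⟨g2, hg2, hg2B⟩ : ∃ g ∈ M1, g ∉ bor τ := by
    by_contra h
    push Not at h
    exact hns1 (isSolvable_of_le (fun x hx => h x hx) (bor_solvable hF))
  obtain ⟨x, y, hxy⟩ := exists_cell τ hg2B
  set p := uS τ x y with hp
  have hpU : p ∈ unip τ := ⟨x, y, rfl⟩
  set M2 := cj p⁻¹ M1 with hM2
  obtain ⟨z, hzM, hzU, hz1, hz2⟩ := invU_nonempty hne1
  obtain ⟨a', b', hab⟩ := bor_conj_mem (unip_le_bor τ hpU) hzU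
  have ha'0 : a' = 0 := by
    refine SzO.sq_eq_one τ (a := a') (b := b') ?_
    rw [← hab, pow_two]
    calc p⁻¹ * z * p * (p⁻¹ * z * p) = p⁻¹ * (z * z) * p := by group
      _ = 1 := by rw [hz2]; group
  subst ha'0
  have hb'0 : b' ≠ 0 := fun e => hz1 (by
    rw [e, uS_zero] at hab
    calc z = p * (p⁻¹ * z * p) * p⁻¹ := by group
      _ = 1 := by rw [hab]; group)
  obtain ⟨v, hv⟩ := (th_bijective hF).2 b'
  have hv0 : v ≠ 0 := fun e => hb'0 (by rw [← hv, e, map_zero])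
  set T := tS τ (Units.mk0 v hv0)⁻¹ with hT
  set M3 := cj T M2 with hM3
  have h1 : uS τ 0 1 ∈ M3 := by
    rw [hM3, mem_cj, hM2, mem_cj, inv_inv]
    have e : T * uS τ 0 b' * T⁻¹ = uS τ 0 1 := by
      rw [hT, tS_uS]
      simp only [zero_mul, zero_div, inv_inv, Units.val_mk0]
      rw [hv, div_self hb'0]
    rw [← e, ← hab]
    convert hzM using 1
    group
  set g3 := T * (p⁻¹ * g2 * p) * T⁻¹ with hg3
  have hg3M : g3 ∈ M3 := by
    rw [hM3, mem_cj, hM2, mem_cj, inv_inv]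
    convert hg2 using 1
    rw [hg3]; group
  have hg3w : (wS τ)⁻¹ * g3 ∈ bor τ := by
    have hw : (wS τ)⁻¹ = wS τ := inv_eq_of_mul_eq_one_right (wS_sq τ)
    have e1 : (wS τ)⁻¹ * T * wS τ = T⁻¹ := by rw [hw, hT, wS_tS]
    have e : (wS τ)⁻¹ * g3 = ((wS τ)⁻¹ * T * wS τ) * ((p * wS τ)⁻¹ * g2) * p * T⁻¹ := by
      rw [hg3]; group
    rw [e, e1]
    have hTB : T ∈ bor τ := tS_mem_bor τ _
    exact mul_mem (mul_mem (mul_mem (inv_mem hTB) hxy) (unip_le_bor τ hpU)) (inv_mem hTB)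
  obtain ⟨k, hk, hdiv, hFin, hK, ι, hι, hrange⟩ :=
    normal_form hm (cj_not_solvable (cj_not_solvable hns1)) h1 hg3M hg3w
  have hback : M = cj (g1 * p * T⁻¹) M3 := by
    ext a
    rw [mem_cj, hM3, mem_cj, hM2, mem_cj, hM1, mem_cj]
    constructor <;> intro ha <;> convert ha using 1 <;> group
  refine ⟨k, hk, ?_, hdiv, hFin, hK, ι, hι, g1 * p * T⁻¹, by rw [hrange, ← hback]⟩
  by_contra hkm
  apply hM
  have hkm' : k = m := by
    have := Nat.le_of_dvd (by omega) hdiv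
    omega
  have htop : M3 = ⊤ := by
    rw [show M3 = (psi (hF := hF) (hK := hK) ι hι).range from hrange.symm]
    refine Subgroup.eq_top_of_card_eq _ ?_
    rw [← Nat.card_congr (MonoidHom.ofInjective (psi_injective ι hι)).toEquiv, card_group, card_group, hK, hF,
      hkm']
  rw [hback, htop, cj, Subgroup.map_top_of_surjective _ (MulAut.conj _).surjective]

end Cfsg.Agent.SzC
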