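import Mathlib
import Cfsg.Agent.Lib.SzC.SubgroupList
import Cfsg.Agent.Lib.SzO.Equiv

/-!
# The subgroup list for the ovoid stabiliser
-/

set_option autoImplicit false

open scoped Matrix

namespace Cfsg.Agent.SzC

open Cfsg.Agent.SzB

variable {F : Type*} [Field F] [CharP F 2] [Fintype F] {m : ℕ} (hF : Fintype.card F = 2 ^ (2 * m + 1))

include hF in
theorem sz_subgroup_cases (hm : 1 ≤ m) (M : Subgroup ↥(Cfsg.Sz F m)) (hM : M ≠ ⊤) :
    (∃ P : Sylow 2 ↥(Cfsg.Sz F m), M ≤ Subgroup.normalizer ((P : Subgroup ↥(Cfsg.Sz F m)) : Set ↥(Cfsg.Sz F m))) ∨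
    (∃ U : Subgroup ↥(Cfsg.Sz F m), IsCyclic ↥U ∧ Nat.card ↥U ∈ ({2 ^ (2 * m + 1) - 1, 2 ^ (2 * m + 1) + 2 ^ (m + 1) + 1, 2 ^ (2 * m + 1) - 2 ^ (m + 1) + 1} : Set ℕ) ∧
      M ≤ Subgroup.normalizer (U : Set ↥(Cfsg.Sz F m))) ∨
    (∃ (K : Type) (_ : Field K) (_ : Fintype K) (k : ℕ), 1 ≤ k ∧ k < m ∧ Fintype.card K = 2 ^ (2 * k + 1) ∧ 2 * k + 1 ∣ 2 * m + 1 ∧
      ∃ S : Subgroup ↥(Cfsg.Sz F m), Nonempty (↥S ≃* ↥(Cfsg.Sz K k)) ∧ M ≤ S) := by
  classical
  haveI : Fact (Nat.Prime 2) := ⟨Nat.prime_two⟩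
  set φ := SzO.szEquiv hm hF with hφ
  set M0 : Subgroup (SG hF) := M.comap φ.toMonoidHom with hM0
  have hM0top : M0 ≠ ⊤ := fun h => hM (eq_top_iff.mpr fun x _ => by
    obtain ⟨y, rfl⟩ := φ.surjective x
    have hy : y ∈ M0 := h ▸ Subgroup.mem_top y
    exact hy)
  have hmap : M = M0.map φ.toMonoidHom := (Subgroup.map_comap_eq_self_of_surjective φ.surjective M).symm
  rcases subgroup_cases hm M0 hM0top with ⟨g, hle⟩ | ⟨U, hU, hc, hle⟩ | ⟨k, hk, hkm, hdiv, hFin, hK, ι, hι, g, hle⟩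
  · let P0 : Sylow 2 (SG hF) := g • sylTwo hF (stdTwist hF)
    have hP0 : (P0 : Subgroup (SG hF)) = cj g (unip (stdTwist hF)) := by
      ext x
      rw [mem_cj]
      constructor
      · rintro ⟨y, hy, rfl⟩
        show g⁻¹ * (g * y * g⁻¹) * g ∈ unip (stdTwist hF)
        rwa [show g⁻¹ * (g * y * g⁻¹) * g = y by group]
      · intro h
        exact ⟨g⁻¹ * x * g, h, by simp [mul_assoc]⟩
    refine Or.inl ⟨P0.mapSurjective (f := φ.toMonoidHom) φ.surjective, ?_⟩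
    show M ≤ Subgroup.normalizer
      (((P0 : Subgroup (SG hF)).map φ.toMonoidHom : Subgroup ↥(Cfsg.Sz F m)) : Set ↥(Cfsg.Sz F m))
    rw [hmap, ← Subgroup.map_equiv_normalizer_eq]
    refine Subgroup.map_mono (hle.trans ?_)
    rw [hP0, cj, cj, ← normalizer_unip, Subgroup.map_equiv_normalizer_eq]
  · refine Or.inr (Or.inl ⟨U.map φ.toMonoidHom, ?_, ?_, ?_⟩)
    · haveI := hU
      exact isCyclic_of_surjective _ (φ.toMonoidHom.subgroupMap_surjective _)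
    · have e : Nat.card (U.map φ.toMonoidHom) = Nat.card U := Subgroup.card_map_of_injective φ.injective
      rw [e]; exact hc
    · rw [hmap, ← Subgroup.map_equiv_normalizer_eq]
      exact Subgroup.map_mono hle
  · refine Or.inr (Or.inr ⟨GaloisField 2 (2 * k + 1), inferInstance, hFin, k, hk, hkm, hK, hdiv,
      (cj g (psi (hF := hF) (hK := hK) ι hι).range).map φ.toMonoidHom, ⟨?_⟩, ?_⟩)
    · exact ((Subgroup.equivMapOfInjective _ φ.toMonoidHom φ.injective).symm.trans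
        ((Subgroup.equivMapOfInjective _ (MulAut.conj g).toMonoidHom (MulAut.conj g).injective).symm.trans
          (MonoidHom.ofInjective (psi_injective ι hι)).symm)).trans (SzO.szEquiv hk hK)
    · rw [hmap]
      exact Subgroup.map_mono hle

end Cfsg.Agent.SzC
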