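import Mathlib
import Cfsg.Agent.Lib.SzC.Facts
import Cfsg.Agent.Lib.SzO.Equiv

/-!
# The same facts for the ovoid stabiliser
-/

set_option autoImplicit false

open scoped Matrix

namespace Cfsg.Agent.SzC

open Cfsg.Agent.SzB

variable {F : Type*} [Field F] [CharP F 2] [Fintype F] {m : ℕ} (hm : 1 ≤ m)
  (hF : Fintype.card F = 2 ^ (2 * m + 1))

theorem map_centralizer_single {G H : Type*} [Group G] [Group H] (φ : G ≃* H) (z : G) :
    (Subgroup.centralizer ({z} : Set G)).map φ.toMonoidHom = Subgroup.centralizer ({φ z} : Set H) := by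
  ext x
  obtain ⟨y, rfl⟩ := φ.surjective x
  constructor
  · rintro ⟨w, hw, hwy⟩
    obtain rfl : w = y := φ.injective hwy
    rw [SetLike.mem_coe, Subgroup.mem_centralizer_singleton_iff] at hw
    rw [Subgroup.mem_centralizer_singleton_iff, ← map_mul, ← map_mul, hw]
  · intro h
    rw [Subgroup.mem_centralizer_singleton_iff, ← map_mul, ← map_mul] at h
    exact ⟨y, Subgroup.mem_centralizer_singleton_iff.mpr (φ.injective h), rfl⟩

include hm hF in
theorem sz_odd_cyclic {p : ℕ} [Fact p.Prime] (hp : p ≠ 2) (P : Sylow p (Cfsg.Sz F m)) : IsCyclic P := by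
  set φ := SzO.szEquiv hm hF
  let P' : Sylow p (SG hF) := P.comapOfInjective φ.toMonoidHom φ.injective
    (fun x _ => ⟨φ.symm x, φ.apply_symm_apply x⟩)
  haveI := sylow_odd_cyclic hF hp P'
  let f : (P' : Subgroup (SG hF)) →* P :=
    (φ.toMonoidHom.comp (P' : Subgroup (SG hF)).subtype).codRestrict _ (fun x => x.2)
  refine isCyclic_of_surjective f (fun y => ?_)
  refine ⟨⟨φ.symm (y : ↥(Cfsg.Sz F m)), ?_⟩, Subtype.ext (φ.apply_symm_apply _)⟩
  show φ (φ.symm (y : ↥(Cfsg.Sz F m))) ∈ (P : Subgroup ↥(Cfsg.Sz F m))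
  rw [φ.apply_symm_apply]
  exact y.2

include hm hF in
theorem sz_cn : Cfsg.IsCNGroup (Cfsg.Sz F m) := by
  set φ := SzO.szEquiv hm hF
  intro g hg
  obtain ⟨x, rfl⟩ := φ.surjective g
  have h := cn_group hF x (fun h => hg (by rw [h, map_one]))
  haveI := h
  have hmap := map_centralizer_single φ x
  rw [← hmap]
  exact Group.nilpotent_of_mulEquiv ((Subgroup.centralizer ({x} : Set (SG hF))).equivMapOfInjective φ.toMonoidHom φ.injective)

include hm hF in
theorem sz_exceptional : ∀ k ∈ ({2 ^ (2 * m + 1) + 2 ^ (m + 1) + 1, 2 ^ (2 * m + 1) - 2 ^ (m + 1) + 1} : Set ℕ),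
    ∃ U : Subgroup (Cfsg.Sz F m), IsCyclic U ∧ Nat.card U = k ∧
      (∀ u ∈ U, u ≠ 1 → Subgroup.centralizer {u} = U) ∧
      Nat.card (Subgroup.normalizer (U : Set (Cfsg.Sz F m))) = 4 * k := by
  set φ := SzO.szEquiv hm hF
  obtain ⟨zp, zm, pp, pm, ⟨hpp, hppd, hzp⟩, ⟨hpm, hpmd, hzm⟩, ep, em, np, nm, -⟩ := two_classes hm hF
  have key : ∀ {p : ℕ} {z : SG hF}, p.Prime → p ∣ (2 ^ (2 * m + 1)) ^ 2 + 1 → orderOf z = p →
      ∃ U : Subgroup (Cfsg.Sz F m), IsCyclic U ∧
        Nat.card U = Nat.card (Subgroup.centralizer ({z} : Set (SG hF))) ∧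
        (∀ u ∈ U, u ≠ 1 → Subgroup.centralizer {u} = U) ∧
        Nat.card (Subgroup.normalizer (U : Set (Cfsg.Sz F m))) =
          Nat.card (Subgroup.normalizer (Subgroup.centralizer ({z} : Set (SG hF)) : Set (SG hF))) := by
    intro p z hp hd hz
    refine ⟨(Subgroup.centralizer ({z} : Set (SG hF))).map φ.toMonoidHom, ?_, ?_, ?_, ?_⟩
    · haveI := cent_cyclic hF hp hd hz
      exact isCyclic_of_surjective _ (φ.toMonoidHom.subgroupMap_surjective _)
    · exact Subgroup.card_map_of_injective φ.injective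
    · rintro _ ⟨u, hu, rfl⟩ hne
      have h := singer_self hF hp hd hz u hu (fun h => hne (by rw [h, map_one]))
      rw [← h, map_centralizer_single]
      rfl
    · rw [← Subgroup.map_equiv_normalizer_eq]
      exact Subgroup.card_map_of_injective φ.injective
  intro k hk
  rcases hk with rfl | hk
  · obtain ⟨U, h1, h2, h3, h4⟩ := key hpp hppd hzp
    exact ⟨U, h1, h2.trans ep, h3, h4.trans np⟩
  · rw [Set.mem_singleton_iff] at hk
    subst hk
    obtain ⟨U, h1, h2, h3, h4⟩ := key hpm hpmd hzm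
    exact ⟨U, h1, h2.trans em, h3, h4.trans nm⟩

theorem piece_card_std (U : Subgroup (SG hF)) (hm : 1 ≤ m) (hU : IsPiece hF U) :
    (∃ P : Sylow 2 (SG hF), U = (P : Subgroup (SG hF))) ∨
    (IsCyclic U ∧ Nat.card U ∈ ({2 ^ (2 * m + 1) - 1, 2 ^ (2 * m + 1) + 2 ^ (m + 1) + 1,
      2 ^ (2 * m + 1) - 2 ^ (m + 1) + 1} : Set ℕ)) := by
  haveI : Fact (Nat.Prime 2) := ⟨Nat.prime_two⟩
  rcases hU with ⟨g, rfl⟩ | ⟨g, rfl⟩ | ⟨p, z, hp, hd, hz, rfl⟩
  · left
    refine ⟨g • sylTwo hF (stdTwist hF), ?_⟩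
    rw [Sylow.coe_subgroup_smul, Subgroup.pointwise_smul_def, sylTwo_coe]
    rfl
  · right
    haveI := torus_cyclic hF
    exact ⟨isCyclic_of_surjective _ ((MulAut.conj g).toMonoidHom.subgroupMap_surjective _),
      Or.inl (by rw [Subgroup.card_map_of_injective (MulAut.conj g).injective, card_torus, hF])⟩
  · right
    refine ⟨cent_cyclic hF hp hd hz, ?_⟩
    rcases (singer_card_cases hF hm hp hd hz).1 with h | h
    · exact Or.inr (Or.inl h)
    · exact Or.inr (Or.inr h)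

theorem cyclic_eq_piece (hm : 1 ≤ m) {W U : Subgroup (SG hF)} (hW : IsCyclic W)
    (hk : Nat.card W ∈ ({2 ^ (2 * m + 1) - 1, 2 ^ (2 * m + 1) + 2 ^ (m + 1) + 1,
      2 ^ (2 * m + 1) - 2 ^ (m + 1) + 1} : Set ℕ)) (hU : IsPiece hF U) {x : SG hF} (hxW : x ∈ W)
    (hxU : x ∈ U) (hx : x ≠ 1) : W = U := by
  obtain ⟨h1, h2, h3⟩ := pieces_coprime (m := m)
  obtain ⟨kp, km, hkp, hkm, hprod, -, hcop, -⟩ := count_identities (m := m)
  rw [← hkp, ← hkm] at hk
  have hle : W ≤ U := fun y hy => piece_eq_cent hF hU hxU hx (by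
    haveI := hW
    exact Subgroup.mem_centralizer_singleton_iff.mpr
      (congrArg Subtype.val (IsCyclic.commGroup.mul_comm (⟨y, hy⟩ : W) ⟨x, hxW⟩)))
  refine le_antisymm hle ?_
  have hne : Nat.card W ≠ 1 := fun h => hx (by
    have : W = ⊥ := Subgroup.card_eq_one.mp h
    rw [this, Subgroup.mem_bot] at hxW
    exact hxW)
  have hd := Subgroup.card_dvd_of_le hle
  have hco : ∀ {a b : ℕ}, Nat.Coprime a b → Nat.card W ∣ a → ¬ Nat.card W ∣ b := fun h ha hb =>
    hne (Nat.eq_one_of_dvd_coprimes h ha hb)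
  have hWN : Nat.card W ∣ (2 ^ (2 * m + 1) - 1) ∨ Nat.card W ∣ (2 ^ (2 * m + 1)) ^ 2 + 1 := by
    rcases hk with h | h | h
    · exact Or.inl h.dvd
    · exact Or.inr (h ▸ hprod ▸ dvd_mul_right kp km)
    · rw [Set.mem_singleton_iff] at h
      exact Or.inr (h ▸ hprod ▸ dvd_mul_left km kp)
  have hUk : Nat.card U = (2 ^ (2 * m + 1)) ^ 2 ∨ Nat.card U = 2 ^ (2 * m + 1) - 1 ∨
      Nat.card U = kp ∨ Nat.card U = km := by
    rcases hU with ⟨g, rfl⟩ | ⟨g, rfl⟩ | ⟨p, z, hp, hdp, hz, rfl⟩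
    · left; rw [Subgroup.card_map_of_injective (MulAut.conj g).injective, card_unip, hF]
    · right; left; rw [Subgroup.card_map_of_injective (MulAut.conj g).injective, card_torus, hF]
    · right; right; rw [hkp, hkm]; exact (singer_card_cases hF hm hp hdp hz).1
  apply le_of_eq
  symm
  apply Subgroup.eq_of_le_of_card_ge hle
  apply le_of_eq
  have hkp' : kp ∣ (2 ^ (2 * m + 1)) ^ 2 + 1 := hprod ▸ dvd_mul_right kp km
  have hkm' : km ∣ (2 ^ (2 * m + 1)) ^ 2 + 1 := hprod ▸ dvd_mul_left km kp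
  rcases hUk with e | e | e | e <;> rw [e] at hd ⊢ <;> rcases hk with h | h | h <;>
    (try rw [Set.mem_singleton_iff] at h) <;> first
      | exact h.symm
      | exact absurd hd (hco h1.symm (h.dvd))
      | exact absurd hd (hco h2.symm (h.dvd.trans hkp'))
      | exact absurd hd (hco h2.symm (h.dvd.trans hkm'))
      | exact absurd (hd.trans hkp') (hco h3 h.dvd)
      | exact absurd (hd.trans hkm') (hco h3 h.dvd)
      | exact absurd hd (hco h3.symm (h.dvd.trans hkp'))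
      | exact absurd hd (hco h3.symm (h.dvd.trans hkm'))
      | exact absurd hd (hco hcop h.dvd)
      | exact absurd hd (hco hcop.symm h.dvd)

include hm hF in
theorem sz_partition (g : ↥(Cfsg.Sz F m)) (hg : g ≠ 1) :
    ∃! U : Subgroup ↥(Cfsg.Sz F m), ((∃ P : Sylow 2 ↥(Cfsg.Sz F m), U = (P : Subgroup ↥(Cfsg.Sz F m))) ∨
      (IsCyclic ↥U ∧ Nat.card ↥U ∈ ({2 ^ (2 * m + 1) - 1, 2 ^ (2 * m + 1) + 2 ^ (m + 1) + 1,
        2 ^ (2 * m + 1) - 2 ^ (m + 1) + 1} : Set ℕ))) ∧ g ∈ U := by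
  haveI : Fact (Nat.Prime 2) := ⟨Nat.prime_two⟩
  set φ := SzO.szEquiv hm hF
  obtain ⟨x, rfl⟩ := φ.surjective g
  have hx : x ≠ 1 := fun h => hg (by rw [h, map_one])
  obtain ⟨U, hU, hxU⟩ := exists_piece hF hx
  refine ⟨U.map φ.toMonoidHom, ⟨?_, Subgroup.mem_map_of_mem _ hxU⟩, ?_⟩
  · rcases piece_card_std hF U hm hU with ⟨P, rfl⟩ | ⟨hc, hk⟩
    · exact Or.inl ⟨P.mapSurjective φ.surjective, rfl⟩
    · right
      haveI := hc
      refine ⟨isCyclic_of_surjective _ (φ.toMonoidHom.subgroupMap_surjective _), ?_⟩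
      rw [Subgroup.card_map_of_injective (show Function.Injective φ.toMonoidHom from φ.injective)]
      exact hk
  · rintro V ⟨hV, hxV⟩
    have hVW : V = (V.comap φ.toMonoidHom).map φ.toMonoidHom :=
      (Subgroup.map_comap_eq_self_of_surjective φ.surjective V).symm
    rw [hVW]
    congr 1
    rcases hV with ⟨P, rfl⟩ | ⟨hc, hk⟩
    · let P' : Sylow 2 (SG hF) := P.comapOfInjective φ.toMonoidHom φ.injective
        (fun y _ => ⟨φ.symm y, φ.apply_symm_apply y⟩)
      obtain ⟨k, hk'⟩ := MulAction.exists_smul_eq (SG hF) (sylTwo hF (stdTwist hF)) P'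
      have hP' : IsPiece hF (P' : Subgroup (SG hF)) := Or.inl ⟨k, by
        rw [← hk', Sylow.coe_subgroup_smul, Subgroup.pointwise_smul_def, sylTwo_coe]; rfl⟩
      exact piece_unique hF hP' hU hxV hxU hx
    · haveI := hc
      let e : V.comap φ.toMonoidHom →* V :=
        (φ.toMonoidHom.comp (V.comap φ.toMonoidHom).subtype).codRestrict V (fun y => y.2)
      have hei : Function.Injective e := fun a b h => Subtype.ext (φ.injective (congrArg Subtype.val h))
      have hes : Function.Surjective e := fun y => ⟨⟨φ.symm (y : ↥(Cfsg.Sz F m)), by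
        show φ (φ.symm (y : ↥(Cfsg.Sz F m))) ∈ V
        rw [φ.apply_symm_apply]; exact y.2⟩, Subtype.ext (φ.apply_symm_apply _)⟩
      refine cyclic_eq_piece hF hm (isCyclic_of_injective e hei) ?_ hU hxV hxU hx
      rw [Nat.card_eq_of_bijective e ⟨hei, hes⟩]
      exact hk

end Cfsg.Agent.SzC
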